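/- CKS (S2193), rank one: the generic counting. -/
import Cfsg.Agent.H32.CKSpec
import Cfsg.Agent.S0157

set_option autoImplicit false
set_option linter.unusedSectionVars false

namespace H38.CK
open Subgroup Cfsg MulAction H32.CK

theorem out_congr {G L : Type} [Group G] [Group L] (e : G ≃* L) {n : ℕ} (h : Out L n) :
    Out G n := by
  rcases h with ⟨F, _, _, l, h1, ⟨f⟩, h2⟩ | ⟨F, _, _, h1, ⟨f⟩, h2⟩ | ⟨F, _, _, q, h1, h3, ⟨f⟩, h2⟩ |
    ⟨F, _, _, m, h1, h3, ⟨f⟩, h2⟩ | ⟨F, _, _, m, h1, h3, ⟨f⟩, h2⟩ | ⟨F, _, _, h1, ⟨f⟩, h2⟩ |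
    ⟨F, _, _, h1, ⟨f⟩, h2⟩ | ⟨F, _, _, h1, ⟨f⟩, h2⟩ | ⟨F, _, _, m, h1, h3, ⟨f⟩, h2⟩
  · exact .inl ⟨F, _, _, l, h1, ⟨e.trans f⟩, h2⟩
  · exact .inr (.inl ⟨F, _, _, h1, ⟨e.trans f⟩, h2⟩)
  · exact .inr (.inr (.inl ⟨F, _, _, q, h1, h3, ⟨e.trans f⟩, h2⟩))
  · exact .inr (.inr (.inr (.inl ⟨F, _, _, m, h1, h3, ⟨e.trans f⟩, h2⟩)))
  · exact .inr (.inr (.inr (.inr (.inl ⟨F, _, _, m, h1, h3, ⟨e.trans f⟩, h2⟩))))
  · exact .inr (.inr (.inr (.inr (.inr (.inl ⟨F, _, _, h1, ⟨e.trans f⟩, h2⟩)))))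
  · exact .inr (.inr (.inr (.inr (.inr (.inr (.inl ⟨F, _, _, h1, ⟨e.trans f⟩, h2⟩))))))
  · exact .inr (.inr (.inr (.inr (.inr (.inr (.inr (.inl ⟨F, _, _, h1, ⟨e.trans f⟩, h2⟩)))))))
  · exact .inr (.inr (.inr (.inr (.inr (.inr (.inr (.inr ⟨F, _, _, m, h1, h3, ⟨e.trans f⟩, h2⟩)))))))

theorem act_congr {G L Ω : Type} [Group G] [Group L] [MulAction G Ω] (e : G ≃* L) (A : Act G Ω) :
    letI := MulAction.compHom Ω e.symm.toMonoidHom
    Act L Ω := by
  letI := MulAction.compHom Ω e.symm.toMonoidHom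
  have hs : ∀ (l : L) (x : Ω), l • x = e.symm l • x := fun _ _ => rfl
  have := A.faith
  have := A.simple
  refine ⟨⟨fun {a b} h => e.symm.injective (eq_of_smul_eq_smul (α := Ω) fun x => ?_)⟩,
    is_two_pretransitive_iff.2 fun {a b c d} h1 h2 => ?_, e.symm.isSimpleGroup, fun h => A.nc ?_⟩
  · rw [← hs, ← hs, h]
  · obtain ⟨g, h3, h4⟩ := is_two_pretransitive_iff.1 A.two h1 h2
    exact ⟨e g, by rw [hs, e.symm_apply_apply, h3], by rw [hs, e.symm_apply_apply, h4]⟩
  · exact ⟨⟨fun a b => e.injective (by rw [map_mul, map_mul, h.is_comm.comm])⟩⟩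

/-- It is enough to treat the model group. -/
theorem chB_of {p : ℕ} [Fact p.Prime] {L : Type} [Group L]
    (h : ∀ (Ω : Type) [Finite L] [MulAction L Ω] [Finite Ω], CB p L Ω → Out L (Nat.card Ω)) :
    ChB p L := by
  rintro G Ω _ _ _ _ ⟨e⟩ A
  have : Finite L := Finite.of_equiv _ e.toEquiv
  letI := MulAction.compHom Ω e.symm.toMonoidHom
  refine out_congr e (h Ω ⟨act_congr e A.toAct, A.dvd, fun U a b => ?_⟩)
  obtain ⟨g, hg, h1⟩ := A.bt (U.mapSurjective (f := e.symm.toMonoidHom) e.symm.surjective) a b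
  refine ⟨e g, ?_, ?_⟩
  · have h2 := le_normalizer_map e.toMonoidHom (mem_map_of_mem e.toMonoidHom hg)
    have h3 : map e.toMonoidHom (U.mapSurjective (f := e.symm.toMonoidHom) e.symm.surjective :
        Subgroup G) = U := by
      change map _ (map _ _) = _
      rw [map_map]
      simp
    rwa [h3] at h2
  · change e.symm (e g) • a = b
    rw [e.symm_apply_apply, h1]

theorem chX_of {p : ℕ} {L : Type} [Group L]
    (h : ∀ (Ω : Type) [Finite L] [MulAction L Ω] [Finite Ω], Act L Ω → p ∣ Nat.card Ω →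
      Out L (Nat.card Ω)) : ChX p L := by
  rintro G Ω _ _ _ _ ⟨e⟩ A hp
  have : Finite L := Finite.of_equiv _ e.toEquiv
  letI := MulAction.compHom Ω e.symm.toMonoidHom
  exact out_congr e (h Ω (act_congr e A) hp)

variable {G Ω : Type} [Group G] [Finite G] [MulAction G Ω] [Finite Ω]

theorem card_le (A : Act G Ω) : Nat.card G ≤ (Nat.card Ω).factorial := by
  have := A.faith
  rw [← Nat.card_perm]
  exact Nat.card_le_card_of_injective _ (toPerm_injective (α := G) (β := Ω))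

theorem three_le (A : Act G Ω) : 3 ≤ Nat.card Ω := by
  by_contra h
  have h1 := card_le A
  have h2 : (Nat.card Ω).factorial ≤ 2 := Nat.factorial_le (show Nat.card Ω ≤ 2 by omega)
  have := A.simple
  have h3 : 1 < Nat.card G := Finite.one_lt_card
  have : Fact (Nat.Prime 2) := ⟨Nat.prime_two⟩
  have : IsCyclic G := isCyclic_of_prime_card (p := 2) (by omega)
  exact A.nc inferInstance

theorem nontriv (A : Act G Ω) : Nontrivial Ω :=
  Finite.one_lt_card_iff_nontrivial.1 (by have := three_le A; omega)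

theorem trans (A : Act G Ω) : IsPretransitive G Ω :=
  have := A.two
  isPretransitive_of_is_two_pretransitive

theorem index_stab (A : Act G Ω) (a : Ω) : (stabilizer G a).index = Nat.card Ω :=
  have := trans A
  index_stabilizer_of_transitive G a

theorem stab_ne_top (A : Act G Ω) (a : Ω) : stabilizer G a ≠ ⊤ := fun h => by
  have h1 := index_stab A a
  have := three_le A
  rw [h, index_top] at h1
  omega

theorem dvd_stab (A : Act G Ω) (a : Ω) : Nat.card Ω - 1 ∣ Nat.card (stabilizer G a) := by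
  have := nontriv A
  obtain ⟨b, hb⟩ := exists_ne a
  have h1 : orbit (stabilizer G a) b = {a}ᶜ := by
    ext y
    refine ⟨?_, fun hy => ?_⟩
    · rintro ⟨g, rfl⟩ h
      exact hb (MulAction.injective (g : G) (h.trans g.2.symm))
    · obtain ⟨g, h2, h3⟩ := is_two_pretransitive_iff.1 A.two hb.symm (Ne.symm hy)
      exact ⟨⟨g, h2⟩, h3⟩
  have h2 := index_stabilizer (stabilizer G a) b
  rw [h1, Set.ncard_compl, Set.ncard_singleton] at h2
  exact h2 ▸ index_dvd_card _

/-- The arithmetic of a factorisation `G = K B`. -/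
theorem key {p : ℕ} [hp : Fact p.Prime] (A : CB p G Ω) (U : Sylow p G) {Q t k : ℕ} (hQ : Q = p ^ k)
    (hN : (normalizer ((U : Subgroup G) : Set G)).index = Q + 1)
    (hG : Nat.card G = (Q + 1) * (Q * t)) :
    ∃ b, 0 < b ∧ Nat.card Ω * b = Q * t ∧ Nat.card Ω - 1 ∣ b + t := by
  have := nontriv A.toAct
  obtain ⟨a⟩ : Nonempty Ω := inferInstance
  set N := normalizer ((U : Subgroup G) : Set G)
  have : IsPretransitive N Ω := ⟨fun x y => let ⟨g, hg, e⟩ := A.bt U x y; ⟨⟨g, hg⟩, e⟩⟩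
  have h1 := (stabilizer N a).index_mul_card
  have h2 := N.index_mul_card
  have h3 := (stabilizer G a).index_mul_card
  have h4 := dvd_stab A.toAct a
  have h5 := three_le A.toAct
  rw [index_stabilizer_of_transitive] at h1
  rw [hN, hG] at h2
  replace h2 := Nat.eq_of_mul_eq_mul_left (Nat.succ_pos _) h2
  rw [h2] at h1
  rw [index_stab A.toAct, hG, ← h1, mul_left_comm] at h3
  rw [Nat.eq_of_mul_eq_mul_left (by omega) h3] at h4
  refine ⟨_, Nat.card_pos, h1, ?_⟩
  obtain ⟨c, hc⟩ := A.dvd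
  obtain ⟨n, hn⟩ : ∃ n, Nat.card Ω = n + 1 := ⟨Nat.card Ω - 1, by omega⟩
  rw [hn] at h1 h4 hc ⊢
  rw [Nat.add_sub_cancel] at h4 ⊢
  have h6 : n.Coprime Q := hQ ▸ Nat.Coprime.pow_right _ (Nat.Coprime.symm
    (hp.out.coprime_iff_not_dvd.2 fun h => hp.out.one_lt.ne' (Nat.dvd_one.1
      ((Nat.dvd_add_right h).1 ⟨c, hc⟩))))
  refine h6.dvd_of_dvd_mul_left ?_
  rw [show Q * (Nat.card (stabilizer N a) + t) = (Q + 1) * Nat.card (stabilizer N a) +
    n * Nat.card (stabilizer N a) by rw [mul_add, ← h1]; ring]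
  exact dvd_add h4 (dvd_mul_right _ _)

theorem exists_irr (A : Act G Ω) : ∃ ρ : Representation ℂ G (Fin (Nat.card Ω - 1) → ℂ),
    ρ.IsIrreducible := by
  have := trans A
  have h3 := three_le A
  obtain ⟨k, ρ, h1, h2⟩ := (Cfsg.Agent.S0157.result (G := G) Ω (by omega)).2 A.two
  have h4 := congrFun h2 1
  rw [ρ.char_one] at h4
  simp only [Module.finrank_fintype_fun_eq_card, Fintype.card_fin, fixedBy_one_eq_univ,
    Nat.card_coe_set_eq, Set.ncard_univ] at h4
  obtain rfl : k = Nat.card Ω - 1 := by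
    have : (k : ℂ) + 1 = Nat.card Ω := by rw [h4]; ring
    norm_cast at this
    omega
  exact ⟨ρ, h1⟩

open Classical in
/-- Counting the members of a normal subset by their action on a point. -/
theorem count (A : Act G Ω) (C : Finset G) (hC : ∀ g, ∀ c ∈ C, g * c * g⁻¹ ∈ C) (a : Ω) :
    Nat.card Ω * (C.filter (· • a = a)).card = ∑ c ∈ C, Nat.card (fixedBy Ω c) ∧
    ∃ b, C.card = (C.filter (· • a = a)).card + (Nat.card Ω - 1) * b := by
  have := Fintype.ofFinite Ω
  have := trans A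
  have := nontriv A
  have h1 : ∀ (g : G) (x y : Ω), (C.filter (· • x = y)).card =
      (C.filter (· • (g • x) = g • y)).card := fun g x y => by
    refine Finset.card_bij' (fun c _ => g * c * g⁻¹) (fun c _ => g⁻¹ * c * g⁻¹⁻¹) ?_ ?_ ?_ ?_
    · intro c hc
      rw [Finset.mem_filter] at hc ⊢
      exact ⟨hC _ _ hc.1, by rw [mul_smul, inv_smul_smul, mul_smul, hc.2]⟩
    · intro c hc
      rw [Finset.mem_filter] at hc ⊢
      exact ⟨hC _ _ hc.1, by rw [inv_inv, mul_smul, mul_smul, hc.2, inv_smul_smul]⟩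
    · intro c _; group
    · intro c _; group
  constructor
  · have h2 : ∀ x : Ω, (C.filter (· • a = a)).card = (C.filter (· • x = x)).card := fun x => by
      obtain ⟨g, rfl⟩ := exists_smul_eq G a x
      exact h1 g a a
    rw [Nat.card_eq_fintype_card, ← Finset.card_univ, ← smul_eq_mul, ← Finset.sum_const,
      Finset.sum_congr rfl fun x _ => h2 x]
    simp only [Finset.card_filter]
    rw [Finset.sum_comm]
    refine Finset.sum_congr rfl fun c _ => ?_
    rw [← Finset.card_filter, Nat.card_eq_fintype_card, Fintype.card_subtype]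
    rfl
  · obtain ⟨b, hb⟩ := exists_ne a
    refine ⟨(C.filter (· • a = b)).card, ?_⟩
    rw [Finset.card_eq_sum_card_fiberwise (f := (· • a)) (t := Finset.univ) (fun _ _ => by simp),
      ← Finset.add_sum_erase _ _ (Finset.mem_univ a), Nat.card_eq_fintype_card, ← Finset.card_univ,
      ← Finset.card_erase_of_mem (Finset.mem_univ a), ← smul_eq_mul, ← Finset.sum_const]
    congr 1
    refine Finset.sum_congr rfl fun y hy => ?_
    obtain ⟨g, h2, h3⟩ := is_two_pretransitive_iff.1 A.two hb.symm (Finset.ne_of_mem_erase hy).symm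
    rw [h1 g a b, h2, h3]

end H38.CK
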