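/- CKS (S2193): `G₂(q)` has no doubly transitive action with `U` transitive. -/
import Cfsg.Agent.H12.CX1
import Cfsg.Agent.H32.CKKit2
import Cfsg.Agent.H38.CKR0
import Cfsg.Agent.H63.AdMat
import Cfsg.Agent.H63.RSG2
import Cfsg.Agent.H65.MatOK
import Cfsg.Agent.H65.CommG2
import Cfsg.Agent.H65.ChkG2
import Cfsg.Agent.S1059

set_option autoImplicit false
set_option linter.unusedSectionVars false

namespace H38.CK
open Subgroup MulAction H32.CK Cfsg.Lie H63 H64 H12.CX
open scoped commutatorElement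

variable {G Ω : Type} [Group G] [Finite G] [MulAction G Ω] [Finite Ω]

variable (Ω) in
/-- The subgroup is transitive. -/
def Tr (T : Subgroup G) : Prop := ∀ a b : Ω, ∃ t ∈ T, t • a = b

theorem Tr.card_le (H : Act G Ω) {T : Subgroup G} (h : Tr Ω T) : Nat.card Ω ≤ Nat.card T := by
  have := H.nontrivial
  obtain ⟨a⟩ : Nonempty Ω := inferInstance
  exact Nat.card_le_card_of_surjective (fun t : T => t.1 • a) fun b =>
    let ⟨t, ht, e⟩ := h a b; ⟨⟨t, ht⟩, e⟩

theorem Tr.semi (H : Act G Ω) {T : Subgroup G} (h : Tr Ω T) {z : G} (hz : ∀ t ∈ T, z * t = t * z)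
    {a : Ω} (ha : z • a = a) : z = 1 := H.eq_one fun b => by
  obtain ⟨t, ht, rfl⟩ := h a b
  rw [← mul_smul, hz t ht, mul_smul, ha]

theorem Tr.inj (H : Act G Ω) {T C : Subgroup G} (h : Tr Ω T) (hC : ∀ z ∈ C, ∀ t ∈ T, z * t = t * z)
    (a : Ω) : Function.Injective fun z : C => z.1 • a := fun z z' e => by
  have := h.semi H (hC _ (z⁻¹ * z').2) (a := a) (by
    simp only at e
    rw [coe_mul, coe_inv, mul_smul, ← e, inv_smul_smul])
  exact inv_mul_eq_one.1 (Subtype.ext this)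

theorem kill3 (H : Act G Ω) {R Z : Subgroup G} (h : Tr Ω R) (hC : ∀ z ∈ Z, ∀ t ∈ R, z * t = t * z)
    (h1 : Nat.card Ω ≤ Nat.card Z) (h2 : Nat.card Z < Nat.card R) : False := by
  have := H.nontrivial
  obtain ⟨a⟩ : Nonempty Ω := inferInstance
  have hZ : Tr Ω Z := fun a b => by
    obtain ⟨z, e⟩ := ((Nat.bijective_iff_injective_and_card _).2 ⟨h.inj H hC a, le_antisymm
      (Nat.card_le_card_of_injective _ (h.inj H hC a)) h1⟩).2 b
    exact ⟨z.1, z.2, e⟩
  have := Nat.card_le_card_of_injective _ (hZ.inj H (fun t ht z hz => (hC z hz t ht).symm) a)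
  omega

variable (Ω) in
/-- The hypothesis of the Harish-Chandra argument. -/
def HP (A B : Subgroup G) (g : G) : Prop := ∀ y z : Ω, ∃ t ∈ normalizer (A : Set G),
  g * t * g⁻¹ ∈ B ∧ ∃ r ∈ A, r • t • y = z

theorem HP.left {A B : Subgroup G} {g b : G} (h : HP Ω A B g) (hb : b ∈ normalizer (B : Set G)) :
    HP Ω A B (b * g) := fun y z => by
  obtain ⟨t, h1, h2, h3⟩ := h y z
  exact ⟨t, h1, by simpa [mul_assoc] using (mem_normalizer_iff.1 hb _).1 h2, h3⟩

theorem HP.right {A B : Subgroup G} {g b : G} (h : HP Ω A B g) (hb : b ∈ normalizer (A : Set G)) :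
    HP Ω A B (g * b) := fun y z => by
  obtain ⟨t, h1, h2, r, h3, h4⟩ := h (b • y) (b • z)
  refine ⟨b⁻¹ * t * b, mul_mem (mul_mem (inv_mem hb) h1) hb, by simpa [mul_assoc] using h2,
    b⁻¹ * r * b⁻¹⁻¹, (mem_normalizer_iff.1 (inv_mem hb) _).1 h3, ?_⟩
  simp only [mul_smul, inv_inv, smul_inv_smul, h4, inv_smul_smul]

open Finset in
theorem hc (H : Act G Ω) {A B : Subgroup G} (h : ∀ g, HP Ω A B g) : Tr Ω A ∨ Tr Ω B := by
  classical
  by_contra hn
  simp only [Tr, not_or, not_forall, not_exists, not_and] at hn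
  obtain ⟨⟨α, β, h1⟩, a, b, h2⟩ := hn
  have := Fintype.ofFinite G
  obtain ⟨O, hO⟩ : ∃ O : Ω → Prop, ∀ y, O y ↔ ∃ s ∈ B, s • α = y := ⟨_, fun _ => Iff.rfl⟩
  have o1 : ∀ s ∈ B, ∀ y, O y → O (s • y) := fun s hs y hy => by
    obtain ⟨s', h3, rfl⟩ := (hO y).1 hy
    exact (hO _).2 ⟨s * s', mul_mem hs h3, mul_smul _ _ _⟩
  have o2 : ∀ s ∈ B, ∀ y, O (s • y) ↔ O y := fun s hs y =>
    ⟨fun hy => by simpa using o1 _ (inv_mem hs) _ hy, o1 s hs y⟩
  have o3 : O α := (hO _).2 ⟨1, one_mem _, one_smul _ _⟩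
  obtain ⟨γ, hγ⟩ : ∃ γ, ¬ O γ := by
    by_contra hh
    simp only [not_exists, not_not] at hh
    obtain ⟨s, hs, e⟩ := (hO _).1 (hh a)
    obtain ⟨s', hs', e'⟩ := (hO _).1 (hh b)
    exact h2 (s' * s⁻¹) (mul_mem hs' (inv_mem hs)) (by rw [mul_smul, ← e, inv_smul_smul, e'])
  obtain ⟨f, hf⟩ : ∃ f : Ω → ℕ, ∀ y, f y = ∑ g : stabilizer G α, if O (g.1 • y) then 1 else 0 :=
    ⟨_, fun _ => rfl⟩
  have f1 : ∀ y z, y ≠ α → z ≠ α → f y = f z := fun y z hy hz => by
    obtain ⟨k, k1, rfl⟩ := H.ex hy.symm hz.symm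
    rw [hf, hf]
    exact (Fintype.sum_equiv (Equiv.mulRight ⟨k, k1⟩) _ _ fun g => by simp [mul_smul]).symm
  have hβ : ∀ r : A, r.1 • β ≠ α := fun r e => h1 r⁻¹ (inv_mem r.2) (by rw [← e, inv_smul_smul])
  have f3 : f β < f α := by
    rw [f1 β γ (by simpa using hβ 1) (by rintro rfl; exact hγ o3), hf, hf]
    refine sum_lt_sum (fun g _ => ?_) ⟨1, mem_univ _, by simp [hγ, o3]⟩
    rw [show g.1 • α = α from g.2, if_pos o3]
    split_ifs <;> simp
  have e : ∑ r : A, f (r.1 • β) = ∑ r : A, f (r.1 • α) := by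
    simp only [hf]
    rw [sum_comm, sum_comm (s := univ) (t := (univ : Finset (stabilizer G α)))]
    refine sum_congr rfl fun g _ => ?_
    obtain ⟨t, t1, t2, r, r1, rfl⟩ := h g α β
    refine Fintype.sum_bijective (fun s : A => ⟨t⁻¹ * (s * r) * t⁻¹⁻¹,
      (mem_normalizer_iff.1 (inv_mem t1) _).1 (mul_mem s.2 r1)⟩)
      (Finite.injective_iff_bijective.1 ?_) _ _ fun s => ?_
    · intro s s' e
      simpa using e
    have := o2 _ t2 (g.1 • (t⁻¹ * (s * r) * t⁻¹⁻¹) • α)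
    simp only [mul_smul, inv_smul_smul, smul_inv_smul, inv_inv] at this ⊢
    simp only [this]
  refine (sum_lt_sum (fun r _ => ?_) ⟨1, mem_univ _, by simpa using f3⟩).ne e
  rw [f1 _ β (hβ r) (by simpa using hβ 1)]
  by_cases h3 : r.1 • α = α
  · rw [h3]; exact f3.le
  · exact (f1 _ _ (by simpa using hβ 1) h3).le

section G2
variable [RS chevG2] {F : Type} [Field F] [Fintype F] {x : ℕ → F → G} (h : StB chevG2 x)
include h

theorem B_le_N {T : List ℕ} (hT : Nm chevG2 0 T) {b : G} (hb : b ∈ h.rgd.B) :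
    b ∈ normalizer (GS chevG2 x T : Set G) := by
  obtain ⟨u, hu, k, hk, rfl⟩ := h.rgd.mem_B.1 hb
  exact mul_mem (hT.le_N (L := []) ⟨by simp, by simp⟩ h.toSt (GS_PP (D := chevG2) (x := x) ▸ hu)) (H_le_N h T hk)

theorem g2_hc (hG : GG chevG2 x = ⊤) (H : Act G Ω) (hU : Tr Ω (GS chevG2 x chevG2.posRoots)) :
    Tr Ω (GS chevG2 x [6, 8, 9, 10, 11]) ∨ Tr Ω (GS chevG2 x [7, 8, 9, 10, 11]) := by
  have c : Ch F 0 [] := ⟨by simp, by simp⟩
  have na : Nm chevG2 0 [6, 8, 9, 10, 11] := by decide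
  have nb : Nm chevG2 0 [7, 8, 9, 10, 11] := by decide
  let i : Fin chevG2.rank := ⟨0, by decide⟩
  let j : Fin chevG2.rank := ⟨1, by decide⟩
  have key : ∀ m w, h.rgd.Act m w → Pos (w.1 (simpleR i)) →
      HP Ω (GS chevG2 x [6, 8, 9, 10, 11]) (GS chevG2 x [7, 8, 9, 10, 11]) m := by
    intro m w hw hp y z
    obtain ⟨g, hg, rfl⟩ := hU y z
    obtain ⟨t, v, hv, rfl⟩ := split c h.toSt nm_PP na (r := 7) (by decide) (by decide) hg
    have h7 : x 7 t ∈ GS chevG2 x chevG2.posRoots := x_mem (by decide) (by decide) t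
    refine ⟨x 7 t, na.le_N c h.toSt h7, ?_, _, na.conj c h.toSt h7 hv, by simp [mul_smul]⟩
    refine le_gen (XR chevG2 x) (c := w.1 (simpleR i)) ?_ (hw.conj_mem (x_mem_XR chevG2 x _ t))
    have h1 : w.1 (simpleR i) ≠ simpleR j := fun e => by
      have h2 := (isLin_W w).len_apply (simpleR i)
      have h3 := pairing_mul_len_comm (simpleR i : Rt chevG2) (simpleR j)
      rw [e] at h2
      rw [← h2] at h3
      have h4 : chevG2.pairing 7 6 = chevG2.pairing 6 7 := mul_left_cancel₀ (len_pos _).ne' h3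
      exact absurd h4 (by decide)
    have h2 := (pos_iff _).1 hp
    have h3 : ((w.1 (simpleR i) : Rt chevG2) : ℕ) ≠ 6 := fun e => h1 (Fin.ext e)
    rw [show chevG2.posRoots = [6, 7, 8, 9, 10, 11] by decide] at h2
    exact (List.mem_cons.1 h2).resolve_left h3
  refine hc H fun g => ?_
  obtain ⟨w, b, hb, m, -, b', hb', hw, rfl⟩ := h.rgd.exists_cell (g := g) (by simp [h.rgd_Gp, hG])
  refine (HP.left ?_ (B_le_N h nb hb)).right (B_le_N h na hb')
  by_cases hp : Pos (w.1 (simpleR i))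
  · exact key m w hw hp
  · have := (key _ _ (hw.mul (h.rgd.act_n i)) (by
      change Pos (w.1 (sref i (simpleR i)))
      rwa [sref_simpleR_self, (isLin_W w).apply_negR, pos_negR])).right
        (inv_mem (n_mem_N h i (by decide)))
    simpa using this

omit [Finite G] in
theorem mem_Z (c : Ch F 0 [1, -1, 3, -3]) {z : G} (hz : z ∈ GS chevG2 x [11]) : ∃ t, z = x 11 t := by
  obtain ⟨t, v, hv, rfl⟩ := split c h.toSt (S := [11]) (by decide) nm_nil (r := 11) (by decide)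
    (by simp) hz
  rw [GS_nil, mem_bot] at hv
  exact ⟨t, by rw [hv, mul_one]⟩

omit [Finite G] in
theorem cm {m : ℤ} {L : List ℤ} (c : Ch F m L) {S S' : List ℕ} (hc : Cm chevG2 m S S' []) {u v : G}
    (hu : u ∈ GS chevG2 x S) (hv : v ∈ GS chevG2 x S') : u * v = v * u :=
  commutatorElement_eq_one_iff_mul_comm.1
    (mem_bot.1 (GS_nil (D := chevG2) (x := x) ▸ hc.comm c h.toSt nm_nil hu hv))

/-- `p ≠ 3`: an abelian subgroup `Z ≤ W ≤ Q` normalised by `U` and `n_a` is `Z`. -/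
theorem abel (c : Ch F 0 [1, -1, 3, -3]) (hq : 3 ≤ Fintype.card F) {W : Subgroup G}
    (hZ : GS chevG2 x [11] ≤ W) (hQ : W ≤ GS chevG2 x [6, 8, 9, 10, 11])
    (hab : ∀ a ∈ W, ∀ b ∈ W, a * b = b * a) (hU : ∀ u, x 7 u ∈ normalizer (W : Set G))
    (hn : nn chevG2 x (chevG2.simple 0) 1 ∈ normalizer (W : Set G)) : W ≤ GS chevG2 x [11] := by
  have n6 : Nm chevG2 0 [6, 8, 9, 10, 11] := by decide
  have n8 : Nm chevG2 0 [8, 9, 10, 11] := by decide
  have n9 : Nm chevG2 0 [9, 10, 11] := by decide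
  have n10 : Nm chevG2 0 [10, 11] := by decide
  have n11 : Nm chevG2 0 [11] := by decide
  have hW : ∀ w ∈ W, ∀ u, ⁅w, x 7 u⁆ ∈ W := fun w hw u => by
    rw [commutatorElement_def, mul_assoc, mul_assoc, ← mul_assoc (x 7 u)]
    exact mul_mem hw ((mem_normalizer_iff.1 (hU u) _).1 (inv_mem hw))
  have x7 : ∀ u, x 7 u ∈ GS chevG2 x [7] := fun u => x_mem (by simp) (by decide) u
  have cf : ∀ r s : ℕ, r < 12 → s < 12 → s ≠ r → s ≠ chevG2.neg r → ∀ t u,
      ⁅x s u, x r t⁆ = wd x (chevG2.commWord F r s (-t) (-u)) := fun r s hr hs h1 h2 t u => by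
    have := h.toSt.commutator_eq (r := ⟨r, hr⟩) (s := ⟨s, hs⟩) (fun e => h1 (congrArg Fin.val e))
      (fun e => h2 (congrArg Fin.val e)) (-t) (-u)
    rwa [neg_neg, neg_neg] at this
  have a10 : ∀ w ∈ W, w ∈ GS chevG2 x [10, 11] → w ∈ GS chevG2 x [11] := fun w hw h1 => by
    obtain ⟨t, v, hv, rfl⟩ := split c h.toSt n10 n11 (r := 10) (by decide) (by simp) h1
    have h2 : x 10 t ∈ W := (mul_mem_cancel_right (hZ hv)).1 hw
    obtain ⟨η, h3, h4⟩ := n_conj h ⟨0, by decide⟩ (r := 10) (by decide)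
    have h5 := commutatorElement_eq_one_iff_mul_comm.2
      (hab _ h2 _ (h4 t ▸ (mem_normalizer_iff.1 hn _).1 h2))
    rw [show chevG2.reflectRoot 0 10 = 6 by decide, cf 6 10 (by decide) (by decide) (by decide)
      (by decide), ChevalleyDatum.commWord, show chevG2.commTerms 6 10 = [(11, 1, 1, 1)] by decide]
      at h5
    have h6 := h.eq_zero_of_x_eq_one ⟨11, by decide⟩ (by simpa using h5)
    obtain rfl : t = 0 := by simpa [h3] using h6
    rw [h.toSt.x_zero ⟨10, by decide⟩, one_mul]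
    exact hv
  have a9 : ∀ w ∈ W, w ∈ GS chevG2 x [9, 10, 11] → w ∈ GS chevG2 x [11] := fun w hw h1 => by
    by_contra h2
    obtain ⟨s, hs, -, h3⟩ := Cert.ex c h (S' := [7]) (by decide) n9 n10 n11 (by decide) h1
      fun h3 => h2 (a10 w hw h3)
    obtain rfl := List.mem_singleton.1 hs
    exact h3 1 one_ne_zero (a10 _ (hW w hw 1) (Cm.comm c h.toSt (by decide) n10 h1 (x7 1)))
  have a8 : ∀ w ∈ W, w ∈ GS chevG2 x [8, 9, 10, 11] → w ∈ GS chevG2 x [11] := fun w hw h1 => by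
    have k := fun u => a9 _ (hW w hw u) (Cm.comm c h.toSt (by decide) n9 h1 (x7 u))
    obtain ⟨t, v, hv, rfl⟩ := split c h.toSt n8 n9 (r := 8) (by decide) (by simp) h1
    obtain ⟨t', v, hv', rfl⟩ := split c h.toSt n9 n10 (r := 9) (by decide) (by simp) hv
    have k2 : ∀ u : F, 3 * u * t' - 3 * u ^ 2 * t = 0 := fun u => by
      have e1 := cm h c (S := [10, 11]) (S' := [7]) (by decide) hv' (x7 u)
      have e2 : ∀ a, x 8 t * x 10 a = x 10 a * x 8 t := fun a => cm h c (S := [8]) (S' := [10])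
        (by decide) (x_mem (by simp) (by decide) _) (x_mem (by simp) (by decide) _)
      have e3 : ∀ a b, x 10 a * x 9 b = x 9 b * x 10 a := fun a b => cm h c (S := [10]) (S' := [9])
        (by decide) (x_mem (by simp) (by decide) _) (x_mem (by simp) (by decide) _)
      have k1 := k u
      rw [show ⁅x 8 t * (x 9 t' * v), x 7 u⁆ = x 8 t * ⁅x 9 t', x 7 u⁆ * (x 8 t)⁻¹ * ⁅x 8 t, x 7 u⁆ by
        simp only [commutatorElement_def]
        rw [show x 8 t * (x 9 t' * v) * x 7 u = x 8 t * x 9 t' * (v * x 7 u) by group, e1]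
        group, cf 7 9 (by decide) (by decide) (by decide) (by decide),
        cf 7 8 (by decide) (by decide) (by decide) (by decide), ChevalleyDatum.commWord,
        ChevalleyDatum.commWord, show chevG2.commTerms 7 9 = [(10, 3, 1, 1)] by decide,
        show chevG2.commTerms 7 8 = [(9, -2, 1, 1), (10, -3, 2, 1), (11, 3, 1, 2)] by decide] at k1
      simp only [List.map_cons, List.map_nil, wd_cons, wd_nil, mul_one] at k1
      rw [e2, mul_inv_cancel_right, ← mul_assoc, e3, ← mul_assoc, mul_assoc (x 9 _),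
        h.add 10 (by decide), mul_mem_cancel_right (n11.x_mem (by simp) _)] at k1
      have k3 := n10.eq_zero c h (k := 9) (by decide) (by decide) ((mul_mem_cancel_right
        (n10.x_mem (by simp) _)).1 (GS_mono (by simp) k1))
      rw [k3, h.toSt.x_zero ⟨9, by decide⟩, one_mul] at k1
      have k4 := n11.eq_zero c h (k := 10) (by decide) (by decide) k1
      push_cast at k4
      linear_combination -k4
    obtain ⟨u, h0, h1⟩ : ∃ u : F, u ≠ 0 ∧ u ≠ 1 := by
      classical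
      obtain ⟨u, -, hu⟩ := Finset.exists_mem_notMem_of_card_lt_card (s := ({0, 1} : Finset F))
        (t := Finset.univ) (lt_of_le_of_lt Finset.card_le_two (by rw [Finset.card_univ]; omega))
      exact ⟨u, by simpa using hu⟩
    have h3 : (3 : F) ≠ 0 := by simpa using c.nz 3 (by simp)
    obtain rfl : t = 0 := by
      have : 3 * u * (1 - u) * t = 0 := by linear_combination k2 u - u * k2 1
      simpa [h3, h0, sub_eq_zero, h1.symm] using this
    rw [h.toSt.x_zero ⟨8, by decide⟩, one_mul] at hw ⊢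
    exact a9 _ hw hv
  intro w hw
  by_contra h2
  obtain ⟨s, hs, -, h3⟩ := Cert.ex c h (S' := [7]) (by decide) n6 n8 n9 (by decide) (hQ hw)
    fun h3 => h2 (a8 w hw h3)
  obtain rfl := List.mem_singleton.1 hs
  exact h3 1 one_ne_zero (GS_mono (by simp) (a8 _ (hW w hw 1)
    (Cm.comm c h.toSt (by decide) n8 (hQ hw) (x7 1))))

theorem card_GS {m : ℤ} {L : List ℤ} (c : Ch F m L) {T : List ℕ} (hT : Nm chevG2 m T)
    (hn : T.Pairwise (· < ·)) : Nat.card (GS chevG2 x T) = Fintype.card F ^ T.length := by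
  rw [hT.card c h hn, Nat.card_eq_fintype_card]

/-- `G₂(q)`, `q ≥ 3`: no doubly transitive action of small degree with `U` transitive. -/
theorem g2kill (hq : 3 ≤ Fintype.card F) (hG : GG chevG2 x = ⊤) (H : Act G Ω)
    (hU : ∀ a b : Ω, ∃ u ∈ GS chevG2 x chevG2.posRoots, u • a = b)
    (hn : Nat.card Ω ≤ Fintype.card F ^ 3 ∨ Nat.card Ω = Fintype.card F ^ 6) : False := by
  have c0 : Ch F 0 [] := ⟨by simp, by simp⟩
  have ca := card_GS h c0 (T := [6, 8, 9, 10, 11]) (by decide) (by decide)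
  have cb := card_GS h c0 (T := [7, 8, 9, 10, 11]) (by decide) (by decide)
  have lt : ∀ i j : ℕ, i < j → Fintype.card F ^ i < Fintype.card F ^ j := fun i j =>
    Nat.pow_lt_pow_right (by omega)
  have hh := g2_hc h hG H hU
  replace hn : Nat.card Ω ≤ Fintype.card F ^ 3 := hn.resolve_right fun e => by
    have := lt 5 6 (by omega)
    rcases hh with h1 | h1 <;> have := h1.card_le H
    · rw [ca] at this; exact absurd (e ▸ this) (not_le.2 ‹_›)
    · rw [cb] at this; exact absurd (e ▸ this) (not_le.2 ‹_›)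
  by_cases h3 : (3 : F) = 0
  · have c : Ch F 3 [] := ⟨by simpa using h3, by simp⟩
    rcases hh with h1 | h1
    · have cz := card_GS h c (T := [8, 9, 11]) (by decide) (by decide)
      exact kill3 H h1 (fun z hz t ht => cm h c (by decide) hz ht) (cz ▸ hn)
        (by rw [cz, ca]; exact lt _ _ (by simp))
    · have cz := card_GS h c (T := [9, 10, 11]) (by decide) (by decide)
      exact kill3 H h1 (fun z hz t ht => cm h c (by decide) hz ht) (cz ▸ hn)
        (by rw [cz, cb]; exact lt _ _ (by simp))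
  have c : Ch F 0 [1, -1, 3, -3] := ⟨by simp, by simp [h3]⟩
  have n6 : Nm chevG2 0 [6, 8, 9, 10, 11] := by decide
  have n11 : Nm chevG2 0 [11] := by decide
  have cz := card_GS h c n11 (by decide)
  have hZ : GS chevG2 x [11] ≤ GS chevG2 x [6, 8, 9, 10, 11] := GS_mono (by simp)
  have zc : ∀ z ∈ GS chevG2 x [11], ∀ u ∈ GS chevG2 x chevG2.posRoots, z * u = u * z :=
    fun z hz u hu => cm h c (by decide) hz hu
  have hk : ∀ u ∈ GS chevG2 x [6, 8, 9, 10, 11], ∀ v ∈ GS chevG2 x [6, 8, 9, 10, 11],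
      ⁅u, v⁆ ∈ GS chevG2 x [11] := fun u hu v hv => Cm.comm c h.toSt (by decide) n11 hu hv
  have sr : ∀ a : Ω, stabilizer G a ⊓ GS chevG2 x [11] = ⊥ := fun a =>
    eq_bot_iff.2 fun z hz => Tr.semi H hU (zc z hz.2) hz.1
  obtain ⟨p, _⟩ := CharP.exists F
  obtain ⟨f, hp, hf⟩ := FiniteField.card F p
  have := H.nontrivial
  obtain ⟨a⟩ : Nonempty Ω := inferInstance
  obtain ⟨-, h4, -⟩ := special_mod (d := 2) hp f.2 hZ (fun z hz u hu => (zc z hz u (n6.le hu)).symm)
    hk (fun g hg hg' z hz => by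
      obtain ⟨s, hs, hs', h1⟩ := Cert.ex c h (S' := [6, 8, 9, 10, 11]) (by decide) n6 n11 nm_nil
        (by decide) hg hg'
      have inj : Function.Injective fun u : F =>
          (⟨⁅g, x s u⁆, hk _ hg _ (n6.x_mem hs u)⟩ : GS chevG2 x [11]) := fun u u' e => by
        by_contra hne
        refine h1 (-u + u') (fun e => hne (neg_add_eq_zero.1 e)) ?_
        have e1 : ⁅g, x s u⁆ = ⁅g, x s u'⁆ := congrArg Subtype.val e
        rw [GS_nil, mem_bot, ← h.add s (lt_nr hs'), ← h.toSt.x_inv ⟨s, lt_nr hs'⟩,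
          show ⁅g, (x s u)⁻¹ * x s u'⁆ = (x s u)⁻¹ * (⁅g, x s u⁆⁻¹ * ⁅g, x s u'⁆) * x s u by
            simp only [commutatorElement_def]; group, e1, inv_mul_cancel, mul_one, inv_mul_cancel]
      obtain ⟨u, hu⟩ := ((Nat.bijective_iff_injective_and_card _).2 ⟨inj, by simp [cz]⟩).2 ⟨z, hz⟩
      exact ⟨_, n6.x_mem hs u, congrArg Subtype.val hu⟩)
    (by rw [cz, hf]; exact pow_one _) (by rw [ca, hf]; rfl) sr a
  have h5 : (stabilizer G a).relIndex (GS chevG2 x [6, 8, 9, 10, 11]) ≤ Nat.card Ω := by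
    rw [← card_orbit]; exact Finite.card_subtype_le _
  have ht := trans_of_relIndex (le_antisymm h5 (hn.trans (Nat.le_of_dvd
    (Nat.pos_of_ne_zero index_ne_zero_of_finite) (hf ▸ h4))))
  have hP := norm_YZ (P := normalizer (GS chevG2 x [6, 8, 9, 10, 11] : Set G) ⊓
    normalizer (GS chevG2 x [11] : Set G)) (le_inf le_normalizer
      (n6.le.trans (n11.le_N c h.toSt))) inf_le_left inf_le_right a ht
    fun u hu y hy => mem_sup_right (hk u hu y hy.2)
  have hY : ∀ u ∈ stabilizer G a ⊓ GS chevG2 x [6, 8, 9, 10, 11],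
      ∀ v ∈ stabilizer G a ⊓ GS chevG2 x [6, 8, 9, 10, 11] ⊔ GS chevG2 x [11], u * v = v * u := by
    intro u hu v hv
    refine (mem_centralizer_singleton_iff.1 ((sup_le (fun v hv => ?_) fun v hv =>
      mem_centralizer_singleton_iff.2 (zc v hv u (n6.le hu.2)) : _ ≤ centralizer {u}) hv)).symm
    rw [mem_inf] at hu hv
    rw [mem_centralizer_singleton_iff, ← commutatorElement_eq_one_iff_mul_comm, ← mem_bot, ← sr a]
    exact mem_inf.2 ⟨mul_mem (mul_mem (mul_mem hv.1 hu.1) (inv_mem hv.1)) (inv_mem hu.1),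
      hk v hv.2 u hu.2⟩
  have h7 : ∀ u, x 7 u ∈ GS chevG2 x chevG2.posRoots := x_mem (by decide) (by decide)
  have h6 := abel h c hq le_sup_right (sup_le inf_le_right hZ) (fun u hu v hv =>
    mem_centralizer_singleton_iff.1 ((sup_le (fun w hw => mem_centralizer_singleton_iff.2
      (hY w hw v hv)) (fun w hw => mem_centralizer_singleton_iff.2
        (zc w hw v (n6.le ((sup_le inf_le_right hZ) hv)))) : _ ≤ centralizer {v}) hu))
    (fun u => hP ⟨n6.le_N c h.toSt (h7 u), n11.le_N c h.toSt (h7 u)⟩)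
    (hP ⟨n_mem_N h ⟨0, by decide⟩ (by decide), n_mem_N h ⟨0, by decide⟩ (by decide)⟩)
  have h8 := Nat.card_le_card_of_injective (fun t : GS chevG2 x [6, 8, 9, 10, 11] => t.1 • a)
    fun u v e => by
      have h9 : (u⁻¹ * v).1 ∈ stabilizer G a := by
        simp only at e
        rw [mem_stabilizer_iff, coe_mul, coe_inv, mul_smul, ← e, inv_smul_smul]
      exact inv_mul_eq_one.1 (Subtype.ext (mem_bot.1 (sr a ▸
        ⟨h9, h6 (mem_sup_left ⟨h9, (u⁻¹ * v).2⟩)⟩)))
  rw [ca] at h8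
  exact absurd (h8.trans hn) (not_le.2 (lt _ _ (by simp)))

end G2

theorem xg2_arith : ∀ n < 2100, 3 ∣ n → n * (n - 1) ∣ 4245696 → n = 3 ^ 1 ∨ n = 3 ^ 2 ∨ n = 3 ^ 3 ∨
    n = 3 ^ 6 := by
  decide +kernel

theorem jobXG2 : JobXG2 := fun F _ _ hF => chX_of fun Ω _ _ _ H h3 => by
  have := H65.tabG2
  have := H65.commG2
  have h := stB_xG (H65.matOK chevG2 F)
  have hc : Nat.card (chevG2.group F) = 4245696 := by rw [Cfsg.Agent.S1059.result hF]; norm_num
  have h1 := hc ▸ H.dvd1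
  have h2 := xg2_arith _ (by
    have := Nat.le_of_dvd (by norm_num) h1
    by_contra hh
    have := Nat.mul_le_mul (not_lt.1 hh) (Nat.sub_le_sub_right (not_lt.1 hh) 1)
    omega) h3 h1
  obtain ⟨k, hk⟩ : ∃ k, Nat.card Ω = 3 ^ k := by rcases h2 with e | e | e | e <;> exact ⟨_, e⟩
  have := Fact.mk Nat.prime_three
  have cU := card_GS h (L := []) ⟨by simp, by simp⟩ (nm_PP (m := 0)) (by decide)
  refine (g2kill h hF.ge GG_xG H (H.ppow_trans hk (Sylow.ofCard
    (GS chevG2 (xG chevG2 F) chevG2.posRoots) ?_)) (by rw [hF]; omega)).elim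
  rw [cU, hc, hF, show chevG2.posRoots.length = 6 by decide, show 4245696 = 3 ^ 6 * 5824 by norm_num,
    Nat.factorization_mul (by norm_num) (by norm_num), Nat.prime_three.factorization_pow]
  simp [Nat.factorization_eq_zero_of_not_dvd (by norm_num : ¬ 3 ∣ 5824)]

end H38.CK
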