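/- CKS (S2193): odd orthogonal groups on `q ^ (2 m)` points, first step. -/
import Cfsg.Agent.H66.CKOSpec
import Cfsg.Agent.H62.C3U1

set_option autoImplicit false
set_option linter.unusedSectionVars false

namespace H38.CK
open Module MulAction QuadraticMap H56 H60 H66.CK

theorem dcount {X Ω : Type} [Finite X] [Finite Ω] (r : X → Ω → Prop) (x0 : X) (a0 : Ω)
    (h1 : ∀ x x', ∃ σ : Ω → Ω, Function.Injective σ ∧ ∀ a, r x a → r x' (σ a))
    (h2 : ∀ a a', ∃ φ : X → X, Function.Injective φ ∧ ∀ x, r x a → r (φ x) a') :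
    Nat.card X * Nat.card {a // r x0 a} = Nat.card Ω * Nat.card {x // r x a0} := by
  classical
  have := Fintype.ofFinite X
  have := Fintype.ofFinite Ω
  have k1 : ∀ x x', Nat.card {a // r x a} ≤ Nat.card {a // r x' a} := fun x x' => by
    obtain ⟨σ, hσ, h⟩ := h1 x x'
    exact Nat.card_le_card_of_injective (fun a => ⟨σ a.1, h _ a.2⟩) fun a b e =>
      Subtype.ext (hσ (congrArg Subtype.val e))
  have k2 : ∀ a a', Nat.card {x // r x a} ≤ Nat.card {x // r x a'} := fun a a' => by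
    obtain ⟨φ, hφ, h⟩ := h2 a a'
    exact Nat.card_le_card_of_injective (fun x => ⟨φ x.1, h _ x.2⟩) fun a b e =>
      Subtype.ext (hφ (congrArg Subtype.val e))
  have e : (Σ x : X, {a // r x a}) ≃ Σ a : Ω, {x // r x a} :=
    { toFun := fun z => ⟨z.2.1, z.1, z.2.2⟩
      invFun := fun z => ⟨z.2.1, z.1, z.2.2⟩
      left_inv := fun _ => rfl
      right_inv := fun _ => rfl }
  have := Nat.card_congr e
  rw [Nat.card_sigma, Nat.card_sigma,
    Finset.sum_congr rfl fun x _ => le_antisymm (k1 x x0) (k1 x0 x),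
    Finset.sum_congr rfl fun a _ => le_antisymm (k2 a a0) (k2 a0 a)] at this
  simpa using this

theorem oddA_arith {q m N k s n : ℕ} (hq : 2 ≤ q) (hm : 3 ≤ m) (hs : 0 < s)
    (hn : n = (q - 1) * q ^ (2 * m + 1 - 2) + q * N)
    (hc : n = q ^ (2 * m) + q ^ m ∨ n + q ^ m = q ^ (2 * m)) (h : N * k = q ^ (2 * m) * s) :
    q ^ 2 ≤ s + 1 := by
  obtain ⟨m, rfl⟩ : ∃ j, m = j + 1 := ⟨m - 1, by omega⟩
  obtain ⟨r, rfl⟩ : ∃ j, q = j + 1 := ⟨q - 1, by omega⟩
  have e1 : 2 * (m + 1) + 1 - 2 = m + m + 1 := by omega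
  have e2 : 2 * (m + 1) = m + m + 1 + 1 := by omega
  have hQ : (r + 1) ^ 2 ≤ (r + 1) ^ m := Nat.pow_le_pow_right (by omega) (by omega)
  rw [e1, Nat.add_sub_cancel] at hn
  rw [e2] at hc
  simp only [pow_succ, pow_add] at hn hc
  generalize hP : (r + 1) ^ m = P at *
  have hP0 : 0 < P := by rw [← hP]; positivity
  have key : ∀ D : ℕ, N = P * D → Nat.Coprime D (r + 1) → D ≤ s := fun D hD hco =>
    Nat.le_of_dvd hs ((hco.pow_right _).dvd_of_dvd_mul_left
      (h ▸ hD ▸ Dvd.dvd.mul_right (Dvd.intro_left _ rfl) k))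
  have hd : r + 1 ∣ P := hP ▸ dvd_pow_self _ (by omega)
  rcases hc with hc | hc
  · have := key (P + 1) (Nat.eq_of_mul_eq_mul_left (by omega : 0 < r + 1) (by nlinarith))
      (Nat.Coprime.coprime_dvd_right hd (by simp))
    omega
  · obtain ⟨P, rfl⟩ : ∃ j, P = j + 1 := ⟨P - 1, by omega⟩
    have := key P (Nat.eq_of_mul_eq_mul_left (by omega : 0 < r + 1) (by nlinarith))
      (Nat.Coprime.coprime_dvd_right hd (by simp))
    omega

section
variable {F V Ω : Type} [Field F] [Fintype F] [AddCommGroup V] [Module F V]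
  [FiniteDimensional F V] {Q : QuadraticForm F V} [Finite Ω] [MulAction (EG Q) Ω] {e f : V}

/-- In degree a power of `q`, the stabiliser of a singular vector is transitive. -/
theorem fix_trans [IsPretransitive (EG Q) Ω] (hQ : Q.polarBilin.Nondegenerate)
    (h5 : 5 ≤ finrank F V) {k : ℕ} (hn : Nat.card Ω = Fintype.card F ^ k) (he0 : e ≠ 0)
    (he : Q e = 0) (a b : Ω) : ∃ g : EG Q, (g : O Q) e = e ∧ g • a = b := by
  obtain ⟨p, hp⟩ := CharP.exists F
  obtain ⟨n, hpp, hn'⟩ := FiniteField.card F p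
  have := Fact.mk hpp
  obtain ⟨S⟩ : Nonempty (Sylow p (EG Q)) := inferInstance
  obtain ⟨e', h0, h1, h2⟩ := exists_fixed_sing hQ (by omega) S.2
    (fun u x => ((u : EG Q) : O Q) x) (fun _ => rfl) (fun _ _ _ => rfl) (fun _ => map_zero _)
    fun u x hx => by rw [O.map_Q, hx]
  obtain ⟨t, ht, hte⟩ := exists_EOin_apply_eq hQ (nondeg_top hQ) (by rwa [finrank_top])
    Submodule.mem_top Submodule.mem_top h0 he0 (h1.trans he.symm)
  rw [Submodule.top_coe] at ht
  obtain ⟨u, hu, hab⟩ := sylow_trans (hn.trans (by rw [hn', ← pow_mul])) S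
    ((⟨t, ht⟩ : EG Q)⁻¹ • a) ((⟨t, ht⟩ : EG Q)⁻¹ • b)
  refine ⟨⟨t, ht⟩ * u * ⟨t, ht⟩⁻¹, ?_, by rw [mul_smul, mul_smul, hab, smul_inv_smul]⟩
  have h3 : t⁻¹ e = e' := by rw [O.inv_apply_eq, hte]
  change t ((u : O Q) (t⁻¹ e)) = e
  rw [h3, h2 ⟨u, hu⟩, hte]

variable (Q e f) in
/-- The vectors whose Eichler transformation fixes `a`. -/
def BB (he : Q e = 0) (a : Ω) : AddSubgroup V where
  carrier := {u | u ∈ hperp Q e f ∧ eich Q e u ∈ St (EG Q) a}
  zero_mem' := ⟨zero_mem _, by rw [eich_zero]; exact one_mem _⟩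
  add_mem' := fun ha hb => ⟨add_mem ha.1 hb.1, by
    rw [eich_add he (mem_hperp.1 ha.1).1 (mem_hperp.1 hb.1).1]; exact mul_mem ha.2 hb.2⟩
  neg_mem' := fun ha => ⟨neg_mem ha.1, by rw [eich_neg]; exact inv_mem ha.2⟩

theorem eq_of_sub (h : IsHyp Q e f) {a b : V} (ha : a ∈ hperp Q e f) (hb : b ∈ hperp Q e f)
    {c : F} (hc : a - b = c • e) : a = b := by
  have := congrArg (polar Q f) hc
  rw [polar_sub_right, (mem_hperp.1 ha).2, (mem_hperp.1 hb).2, polar_smul_right, h.fe, smul_eq_mul,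
    mul_one, sub_zero] at this
  rw [← sub_eq_zero, hc, ← this, zero_smul]

theorem card_BB (hQ : Q.polarBilin.Nondegenerate) (h2 : (2 : F) ≠ 0) (h : IsHyp Q e f)
    (hR : RF Q Ω) (a : Ω) : Nat.card (BB Q e f h.qe a) ≤ Fintype.card F ^ 2 := by
  by_contra hlt
  obtain ⟨p, hp⟩ := CharP.exists F
  have hpp := CharP.char_is_prime F p
  have : Finite V := Module.finite_of_finite F
  have := H62.dvd_card_of_biadd hpp (U := BB Q e f h.qe a) (W := F)
    (fun u => Subtype.ext (by simp [← Nat.cast_smul_eq_nsmul F])) (fun w => by simp)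
    (AddMonoidHom.mk' (fun u => AddMonoidHom.mk' (fun v => polar Q u.1 v.1) fun v w => by
      simp [polar_add_right]) fun u u' => by ext; simp [polar_add_left])
    (by rw [Nat.card_eq_fintype_card (α := F), ← _root_.sq]; omega)
  refine hpp.not_dvd_one (this.trans (dvd_of_eq (Nat.card_eq_one_iff_exists.2
    ⟨⟨(0 : BB Q e f h.qe a), by simp⟩, fun v => Subtype.ext (Subtype.ext ?_)⟩)))
  · have h0 : Q v.1.1 = 0 := by
      have := v.2
      simp only [AddMonoidHom.mk'_apply, polar_self'] at this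
      exact (mul_eq_zero.1 this).resolve_left h2
    have h1 := (mem_hperp.1 v.1.2.1).1
    obtain ⟨c, hc⟩ := exists_smul_of_eich_eq_one hQ h.ne_zero h.qe h1 (hR a _ _ h.qe h0 h1 v.1.2.2)
    exact eq_of_sub h v.1.2.1 (zero_mem _) ((sub_zero _).trans hc)

theorem proj_mem (h : IsHyp Q e f) {w : V} (hw : polar Q e w = 0) :
    w - polar Q f w • e ∈ hperp Q e f := by
  have := h.polar_proj w
  rw [hw, zero_smul, sub_zero] at this
  exact mem_hperp.2 this

theorem eich_proj (h : IsHyp Q e f) {w : V} (hw : polar Q e w = 0) :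
    eich Q e (w - polar Q f w • e) = eich Q e w := by
  rw [sub_eq_add_neg, ← neg_smul, eich_add_smul_self _ h.qe hw]

theorem Q_proj (h : IsHyp Q e f) {w : V} (hw : polar Q e w = 0) :
    Q (w - polar Q f w • e) = Q w := by
  rw [Q_sub, Q_smul, h.qe, polar_smul_right, polar_comm _ w e, hw]; simp

theorem count_BB [IsPretransitive (EG Q) Ω] (hQ : Q.polarBilin.Nondegenerate)
    (h7 : 7 ≤ finrank F V) {k : ℕ} (hn : Nat.card Ω = Fintype.card F ^ k) (h : IsHyp Q e f)
    {c : F} (hc : c ≠ 0) (a0 : Ω) (x0 : {u : hperp Q e f // Q u = c}) :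
    ∃ j, Nat.card {u : hperp Q e f // Q u = c} * j = Nat.card Ω *
      Nat.card {x : {u : hperp Q e f // Q u = c} // eich Q e x.1.1 ∈ St (EG Q) a0} := by
  have : Finite V := Module.finite_of_finite F
  refine ⟨_, dcount (fun (x : {u : hperp Q e f // Q u = c}) a => eich Q e x.1.1 ∈ St (EG Q) a)
    x0 a0 (fun x x' => ?_) fun a a' => ?_⟩
  · have n0 : ∀ x : {u : hperp Q e f // Q u = c}, x.1.1 ≠ 0 := fun x h0 =>
      hc (by rw [← x.2, h0, map_zero])
    obtain ⟨g, hg, hx⟩ := exists_EOin_apply_eq hQ (h.nondeg_hperp hQ)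
      (by have := h.finrank_hperp; omega) x.1.2 x'.1.2 (n0 x) (n0 x') (x.2.trans x'.2.symm)
    have he : g e = e := EOin_le_fixer _ hg e (mem_perp'.2 fun w hw => (mem_hperp.1 hw).1)
    refine ⟨fun a => (⟨g, EOin_mono (Set.subset_univ _) hg⟩ : EG Q) • a, MulAction.injective _,
      fun a ha => ?_⟩
    have := (conj_mem_St (⟨g, EOin_mono (Set.subset_univ _) hg⟩ : EG Q)).2 ha
    rwa [conj_eich, he, hx] at this
  · obtain ⟨g, he, hg⟩ := fix_trans hQ (by omega) hn h.ne_zero h.qe a a'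
    have hw : ∀ x : hperp Q e f, polar Q e ((g : O Q) x) = 0 := fun x => by
      have := O.map_polar (g : O Q) e x
      rw [he] at this
      exact this.trans (mem_hperp.1 x.2).1
    refine ⟨fun x => ⟨⟨_, proj_mem h (hw x.1)⟩, by rw [Q_proj h (hw x.1), O.map_Q, x.2]⟩,
      fun x y hxy => ?_, fun x hx => ?_⟩
    · have h1 := congrArg (fun z => z.1.1) hxy
      refine Subtype.ext (Subtype.ext (eq_of_sub h x.1.2 y.1.2
        (c := polar Q f ((g : O Q) x.1) - polar Q f ((g : O Q) y.1)) ((g : O Q).injective ?_)))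
      rw [map_sub, map_smul, he, sub_smul]
      simp only at h1
      linear_combination (norm := module) h1
    · have := (conj_mem_St g).2 hx
      rw [conj_eich, he, hg] at this
      exact (eich_proj h (hw x.1)).symm ▸ this

end

theorem jobOddA : JobOddA := by
  intro F V Ω _ _ _ _ _ Q _ _ _ m hQ h2 hm hd hc hn hR a e w he hw ha
  by_cases he0 : e = 0
  · rw [he0, eich_zero_left]
  obtain ⟨f, h⟩ := exists_isHyp hQ he0 he
  by_cases h0 : Q w = 0
  · exact hR a e w he h0 hw ha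
  exfalso
  have : Finite V := Module.finite_of_finite F
  have hu0 : w - polar Q f w • e ∈ BB Q e f h.qe a := ⟨proj_mem h hw, (eich_proj h hw).symm ▸ ha⟩
  have hq0 := Q_proj h hw
  generalize w - polar Q f w • e = u0 at hu0 hq0
  generalize Q w = c at h0 hq0
  obtain ⟨j, hj⟩ := count_BB hQ (by omega) hn h h0 a ⟨⟨u0, hu0.1⟩, hq0⟩
  have hq : 3 ≤ Fintype.card F := by
    classical
    exact Fintype.two_lt_card_iff.2 ⟨0, 1, -1, by simp, by simp,
      fun h1 => h2 (by linear_combination h1)⟩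
  have e1 : {x : {u : hperp Q e f // Q u = c} // eich Q e x.1.1 ∈ St (EG Q) a} ≃
      {u : BB Q e f h.qe a // Q u = c} :=
    { toFun := fun x => ⟨⟨x.1.1.1, x.1.1.2, x.2⟩, x.1.2⟩
      invFun := fun u => ⟨⟨⟨u.1.1, u.1.2.1⟩, u.2⟩, u.1.2.2⟩
      left_inv := fun _ => rfl
      right_inv := fun _ => rfl }
  rw [Nat.card_congr e1, hn] at hj
  have : Nonempty {u : BB Q e f h.qe a // Q u = c} := ⟨⟨⟨u0, hu0⟩, hq0⟩⟩
  have k1 := oddA_arith (by omega) hm Nat.card_pos (hd ▸ card_Q_eq h c) (hc c h0) hj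
  have k2 := card_BB hQ h2 h hR a
  classical
  have := Fintype.ofFinite (BB Q e f h.qe a)
  rw [Nat.card_eq_fintype_card, Fintype.card_subtype] at k1
  rw [Nat.card_eq_fintype_card] at k2
  have k3 : (Finset.univ.filter fun u : BB Q e f h.qe a => Q u = c) = Finset.univ.erase 0 :=
    Finset.eq_of_subset_of_card_le (fun u hu => Finset.mem_erase.2 ⟨fun h1 => h0 (by
      rw [← (Finset.mem_filter.1 hu).2, h1]; simp), Finset.mem_univ _⟩)
      (by rw [Finset.card_erase_of_mem (Finset.mem_univ _), Finset.card_univ]; omega)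
  have k4 : ∀ u : BB Q e f h.qe a, u ≠ 0 → Q u = c := fun u hu =>
    (Finset.mem_filter.1 (k3.ge (Finset.mem_erase.2 ⟨hu, Finset.mem_univ _⟩))).2
  obtain ⟨u, -, hu⟩ := Finset.exists_mem_notMem_of_card_lt_card
    (s := ({0, ⟨u0, hu0⟩, -⟨u0, hu0⟩} : Finset (BB Q e f h.qe a))) (t := Finset.univ) (by
      have := Finset.card_le_three (a := (0 : BB Q e f h.qe a)) (b := ⟨u0, hu0⟩) (c := -⟨u0, hu0⟩)
      have h3 := Finset.card_le_univ (Finset.univ.filter fun u : BB Q e f h.qe a => Q u = c)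
      rw [Finset.card_univ]
      nlinarith)
  simp only [Finset.mem_insert, Finset.mem_singleton, not_or] at hu
  have a1 := k4 u hu.1
  have a2 := k4 (u - ⟨u0, hu0⟩) (sub_ne_zero.2 hu.2.1)
  have a3 := k4 (u + ⟨u0, hu0⟩) fun h1 => hu.2.2 (eq_neg_of_add_eq_zero_left h1)
  simp only [AddSubgroup.coe_add, AddSubgroup.coe_sub, Q_add, Q_sub, a1, hq0] at a2 a3
  exact h0 ((mul_eq_zero.1 (by linear_combination a2 + a3 : (2 : F) * c = 0)).resolve_left h2)

end H38.CK
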