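/- CKS (S2193): the ovoid lemma. -/
import Cfsg.Agent.H66.CKOSpec
import Mathlib.Analysis.Fourier.FiniteAbelian.PontryaginDuality

set_option autoImplicit false
set_option linter.unusedSectionVars false

namespace H38.CK
open Finset H59 Polynomial

open Classical in
theorem dual {D X F : Type} [AddCommGroup D] [AddCommGroup X] [AddCommGroup F] [Fintype D]
    [Fintype X] (χ : AddChar F ℂ) (f : D → X → F) (h1 : ∀ l l' x, f (l + l') x = f l x + f l' x)
    (h2 : ∀ l x x', f l (x + x') = f l x + f l x') :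
    (univ.filter fun l => ∀ x, χ (f l x) = 1).card * Fintype.card X =
      (univ.filter fun x => ∀ l, χ (f l x) = 1).card * Fintype.card D := by
  have e1 : ∀ l, ∑ x, χ (f l x) = if ∀ x, χ (f l x) = 1 then (Fintype.card X : ℂ) else 0 := fun l => by
    have := (χ.compAddMonoidHom (AddMonoidHom.mk' (f l) (h2 l))).sum_eq_ite
    simpa [DFunLike.ext_iff] using this
  have e2 : ∀ x, ∑ l, χ (f l x) = if ∀ l, χ (f l x) = 1 then (Fintype.card D : ℂ) else 0 := fun x => by
    have := (χ.compAddMonoidHom (AddMonoidHom.mk' (f · x) (h1 · · x))).sum_eq_ite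
    simpa [DFunLike.ext_iff] using this
  have e3 := sum_comm (s := univ) (t := univ) (f := fun l x => χ (f l x))
  simp only [e1, e2, ← sum_filter, sum_const, nsmul_eq_mul] at e3
  exact_mod_cast e3

section
variable {F : Type} [Field F] [Fintype F] {q : ℕ} (hF : Fintype.card F = q ^ 2)

/-- elements of trace zero -/
def Fm : AddSubgroup F where
  carrier := {a | a + frob hF a = 0}
  zero_mem' := by simp
  add_mem' := fun {a b} ha hb => by
    simp only [Set.mem_ofPred_eq, map_add] at *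
    linear_combination ha + hb
  neg_mem' := fun {a} ha => by
    simp only [Set.mem_ofPred_eq, map_neg] at *
    linear_combination -ha

variable {hF}

theorem fr_m (a : Fm hF) : frob hF a = -a := (eq_neg_of_add_eq_zero_right a.2)

theorem inv_m {a : F} (h : frob hF a = -a) : a⁻¹ ∈ Fm hF := by
  change a⁻¹ + frob hF a⁻¹ = 0
  rw [map_inv₀, h, inv_neg, add_neg_cancel]

/-- the pairing -/
def pr (l : Fm hF × F × Fm hF) (x : F × F × F) : F :=
  l.1 * x.1 + l.2.2 * x.2.2 + (l.2.1 * x.2.1 + frob hF (l.2.1 * x.2.1))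

theorem pr_left (l l' : Fm hF × F × Fm hF) (x : F × F × F) : pr (l + l') x = pr l x + pr l' x := by
  simp [pr, add_mul]; ring

theorem pr_right (l : Fm hF × F × Fm hF) (x x' : F × F × F) : pr l (x + x') = pr l x + pr l x' := by
  simp [pr, mul_add]; ring

theorem pr_nondeg {x : F × F × F} (h1 : x.1 ∈ Fm hF) (h2 : x.2.2 ∈ Fm hF) (h : x ≠ 0) :
    ∃ l : Fm hF × F × Fm hF, pr l x = 1 := by
  by_cases a : x.1 = 0
  · by_cases c : x.2.2 = 0
    · have b : x.2.1 ≠ 0 := fun b => h (Prod.ext a (Prod.ext b c))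
      obtain ⟨y, hy⟩ := exists_trace_eq (frob_ne_id hF) (frob_frob hF) (map_one _)
      exact ⟨(0, y / x.2.1, 0), by simp [pr, b, hy]⟩
    · exact ⟨(0, 0, ⟨_, inv_m (fr_m ⟨_, h2⟩)⟩), by simp [pr, c]⟩
  · exact ⟨(⟨_, inv_m (fr_m ⟨_, h1⟩)⟩, 0, 0), by simp [pr, a]⟩

variable (hF) in
/-- the points of the ovoid -/
def zz (s t a : F) : F × F × F := (a * (s * frob hF s), a * (s * frob hF t), a * (t * frob hF t))

/-- the Hermitian form of `l` -/
def hh (l : Fm hF × F × Fm hF) (s t : F) : F :=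
  l.1 * (s * frob hF s) + l.2.2 * (t * frob hF t) + (l.2.1 * (s * frob hF t) -
    frob hF (l.2.1 * (s * frob hF t)))

theorem pr_zz (l : Fm hF × F × Fm hF) (s t : F) (a : Fm hF) : pr l (zz hF s t a) = a * hh l s t := by
  simp [pr, zz, hh, fr_m]; ring

theorem fr_hh (l : Fm hF × F × Fm hF) (s t : F) : frob hF (hh l s t) = -hh l s t := by
  simp [hh, fr_m, frob_frob]; ring

/-- representatives of the projective line -/
def pt : Option F → F × F := fun o => o.elim (1, 0) fun t => (t, 1)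

open Classical in
theorem card_zero_le {l : Fm hF × F × Fm hF} (hl : l ≠ 0) :
    (univ.filter fun i : Option F => hh l (pt i).1 (pt i).2 = 0).card ≤ q + 1 := by
  have hq := two_le_q hF
  set P : F[X] := C (l.1 : F) * X ^ (q + 1) + C (-frob hF l.2.1) * X ^ q + C l.2.1 * X ^ 1 +
    C (l.2.2 : F) * X ^ 0 with hP
  have h0 : P ≠ 0 := fun h => by
    have c := fun n => congrArg (coeff · n) h
    have c0 := c 0
    have c1 := c 1
    have c2 := c (q + 1)
    simp only [hP, coeff_add, coeff_C_mul, coeff_X_pow, coeff_zero] at c0 c1 c2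
    rw [if_neg (by omega), if_neg (by omega)] at c0 c1
    rw [if_neg (show ¬ q + 1 = q by omega), if_neg (show ¬ q + 1 = 1 by omega)] at c2
    simp at c0 c1 c2
    exact hl (Prod.ext c2 (Prod.ext c1 c0))
  have h1 : (univ.filter fun t : F => hh l t 1 = 0).card ≤ P.natDegree := by
    refine le_trans (card_le_card fun t ht => ?_) ((Multiset.toFinset_card_le _).trans (card_roots' P))
    rw [Multiset.mem_toFinset, mem_roots h0, IsRoot, ← (mem_filter.1 ht).2]
    simp [hP, hh, pow_succ, ← frob_apply hF]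
    ring
  have h2 : (univ.filter fun i : Option F => hh l (pt i).1 (pt i).2 = 0).card =
      (if (l.1 : F) = 0 then 1 else 0) + (univ.filter fun t : F => hh l t 1 = 0).card := by
    rw [card_filter, card_filter, Fintype.sum_option]
    simp [pt, hh]
  rw [h2]
  split_ifs with h
  · have : P.natDegree ≤ q := by
      rw [hP, h, C_0, zero_mul, zero_add]
      compute_degree <;> omega
    omega
  · have : P.natDegree ≤ q + 1 := by
      rw [hP]
      compute_degree <;> omega
    omega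

theorem exists_zero (l : Fm hF × F × Fm hF) : ∃ i : Option F, hh l (pt i).1 (pt i).2 = 0 := by
  by_cases h : (l.1 : F) = 0
  · exact ⟨none, by simp [pt, hh, h]⟩
  obtain ⟨x, hx⟩ := exists_norm_eq' (frob_ne_id hF) (frob_frob hF)
    (μ := -(l.2.1 * frob hF l.2.1 / l.1 ^ 2) - l.2.2 / l.1) (by simp [fr_m, frob_frob, mul_comm])
  refine ⟨some (x + frob hF l.2.1 / l.1), ?_⟩
  simp [pt, hh, fr_m, frob_frob]
  field_simp at hx ⊢
  linear_combination hx

end

theorem jobOv : H66.CK.JobOv := fun F _ _ q hF W ρ hρ => by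
  classical
  have hq := two_le_q hF
  obtain ⟨χ, hχ⟩ := (AddChar.exists_apply_ne_zero (a := (1 : F))).2 one_ne_zero
  let W' : AddSubgroup (F × F × F) := W ⊓ (Fm hF).prod ((⊤ : AddSubgroup F).prod (Fm hF))
  have cm : Fintype.card (Fm hF) = q := by
    rw [← Nat.card_eq_fintype_card]; exact H26.MU.card_trace_zero hF
  have nd : ∀ x : F × F × F, x.1 ∈ Fm hF → x.2.2 ∈ Fm hF →
      ((∀ l : Fm hF × F × Fm hF, χ (pr l x) = 1) ↔ x = 0) := fun x h1 h2 =>
    ⟨fun h => by_contra fun h0 => by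
      obtain ⟨l, hl⟩ := pr_nondeg h1 h2 h0
      exact hχ (hl ▸ h l), fun h l => by simp [h, pr]⟩
  set A := univ.filter fun l : Fm hF × F × Fm hF => ∀ x : W', χ (pr l x) = 1 with hA
  have d1 : A.card * Fintype.card W' = Fintype.card (Fm hF × F × Fm hF) := by
    rw [hA, dual χ (fun l (x : W') => pr l x) (fun _ _ _ => pr_left _ _ _)
      (fun _ _ _ => pr_right _ _ _), card_eq_one.2 ⟨0, ?_⟩, one_mul]
    ext x
    rw [mem_filter, nd x x.2.2.1 x.2.2.2.2]
    simp
  have zm : ∀ (s t : F) (a : Fm hF), (zz hF s t a).1 ∈ Fm hF ∧ (zz hF s t a).2.2 ∈ Fm hF :=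
    fun s t a => ⟨by change _ + _ = _; simp [zz, fr_m, frob_frob]; ring,
      by change _ + _ = _; simp [zz, fr_m, frob_frob]; ring⟩
  have d2 : ∀ i : Option F, (A.filter fun l => hh l (pt i).1 (pt i).2 = 0).card * q =
      ρ * A.card := fun i => by
    set s := (pt i).1
    set t := (pt i).2
    have h1 := dual χ (fun (l : Fm hF × F × Fm hF) (x : W' × Fm hF) => pr l (x.1 + zz hF s t x.2))
      (fun _ _ _ => pr_left _ _ _) (fun l x x' => by
        simp only [pr_right, pr_zz, Prod.fst_add, Prod.snd_add, AddSubgroup.coe_add]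
        rw [← AddSubgroup.coe_add, pr_zz, AddSubgroup.coe_add]
        ring)
    have h2 : (univ.filter fun l : Fm hF × F × Fm hF => ∀ x : W' × Fm hF,
        χ (pr l (x.1 + zz hF s t x.2)) = 1) = A.filter fun l => hh l s t = 0 := by
      ext l
      simp only [hA, mem_filter, mem_univ, true_and, pr_right, pr_zz]
      refine ⟨fun h => ⟨fun x => by simpa using h (x, 0), by_contra fun h0 => hχ ?_⟩, fun h x => ?_⟩
      · simpa [h0, pr] using h (0, ⟨_, inv_m (fr_hh l s t)⟩)
      · rw [h.2, mul_zero, add_zero, h.1]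
    have h3 : (univ.filter fun x : W' × Fm hF => ∀ l : Fm hF × F × Fm hF,
        χ (pr l (x.1 + zz hF s t x.2)) = 1).card = ρ := by
      rw [← hρ s t (by cases i <;> simp [s, t, pt]), ← Fintype.card_subtype,
        ← Nat.card_eq_fintype_card]
      have h4 := fun x : W' × Fm hF => nd (x.1 + zz hF s t x.2) (add_mem x.1.2.2.1 (zm s t x.2).1)
        (add_mem x.1.2.2.2.2 (zm s t x.2).2)
      refine Nat.card_congr ⟨fun x => ⟨x.1.2, x.1.2.2, ?_⟩, fun a => ⟨(⟨-zz hF s t a, neg_mem ⟨a.2.2,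
        (zm s t ⟨a, a.2.1⟩).1, trivial, (zm s t ⟨a, a.2.1⟩).2⟩⟩, ⟨a, a.2.1⟩), (h4 _).2 (by simp)⟩,
        fun x => ?_, fun a => rfl⟩
      · have := eq_neg_of_add_eq_zero_right ((h4 _).1 x.2)
        change zz hF s t _ ∈ W
        rw [this]
        exact neg_mem x.1.1.2.1
      · exact Subtype.ext (Prod.ext (Subtype.ext
          (eq_neg_of_add_eq_zero_left ((h4 _).1 x.2)).symm) rfl)
    rw [h2, h3, ← d1, Fintype.card_prod, cm, mul_comm _ q, ← mul_assoc, ← mul_assoc] at h1
    exact Nat.eq_of_mul_eq_mul_right Fintype.card_pos h1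
  have A0 : (0 : Fm hF × F × Fm hF) ∈ A := by simp [hA, pr]
  obtain ⟨w, hw⟩ : ∃ w, A.card = w + 1 := ⟨A.card - 1, by have := card_pos.2 ⟨_, A0⟩; omega⟩
  have d3 : ∀ i : Option F, (((A.erase 0).filter fun l => hh l (pt i).1 (pt i).2 = 0).card + 1) * q =
      ρ * (w + 1) := fun i => by
    rw [← hw, ← d2 i, filter_erase, card_erase_add_one (mem_filter.2 ⟨A0, by simp [hh]⟩)]
  set k := ((A.erase 0).filter fun l => hh l (pt none).1 (pt none).2 = 0).card
  have d4 : ∀ i : Option F, ((A.erase 0).filter fun l => hh l (pt i).1 (pt i).2 = 0).card = k :=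
    fun i => Nat.succ_injective (Nat.eq_of_mul_eq_mul_right (by omega) ((d3 i).trans (d3 none).symm))
  have d5 : (q ^ 2 + 1) * k = ∑ l ∈ A.erase 0,
      (univ.filter fun i : Option F => hh l (pt i).1 (pt i).2 = 0).card := by
    rw [← hF, ← Fintype.card_option, ← card_univ, ← smul_eq_mul, ← sum_const,
      ← sum_congr rfl fun i _ => d4 i]
    simp only [card_filter]
    exact sum_comm
  have cA : (A.erase 0).card = w := by rw [card_erase_of_mem A0, hw, Nat.add_sub_cancel]
  have d6 : (q ^ 2 + 1) * k ≤ w * (q + 1) := by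
    rw [d5, ← cA]
    exact sum_le_card_nsmul _ _ _ fun l hl => card_zero_le (ne_of_mem_erase hl)
  have d7 : w * 1 ≤ (q ^ 2 + 1) * k := by
    rw [d5, ← cA]
    exact card_nsmul_le_sum _ _ 1 fun l _ => Nat.succ_le_of_lt <| card_pos.2
      ((exists_zero l).imp fun i hi => mem_filter.2 ⟨mem_univ _, hi⟩)
  have d8 := d3 none
  change (k + 1) * q = _ at d8
  clear_value k
  clear hρ d1 d2 d3 d4 d5 cA hw A0 zm nd cm hA A W' hF
  rcases Nat.eq_zero_or_pos k with h | h
  · obtain rfl : w = 0 := by rw [h] at d7; omega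
    right
    rw [h] at d8
    omega
  · left
    by_contra h1
    have h2 : 2 ≤ ρ := by
      rcases ρ with _ | _ | ρ
      · simp at d8; omega
      · omega
      · omega
    have h3 : 2 * (w + 1) ≤ (k + 1) * q := d8 ▸ Nat.mul_le_mul_right _ h2
    obtain ⟨k, rfl⟩ : ∃ j, k = j + 1 := ⟨k - 1, by omega⟩
    obtain ⟨q, rfl⟩ : ∃ j, q = j + 1 := ⟨q - 1, by omega⟩
    nlinarith [Nat.zero_le (k * q * q), Nat.zero_le (k * q)]

end H38.CK
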