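/- CKS (S2193): chapter B for the large Ree groups. -/
import Cfsg.Agent.H45.CKGen
import Cfsg.Agent.H63.OcAsm2
import Cfsg.Agent.H14.OcBC
import Cfsg.Agent.H78.ParId
import Cfsg.Agent.H54.ParModel
import Cfsg.Agent.S1068

set_option autoImplicit false
set_option linter.unusedSectionVars false
set_option linter.unusedSimpArgs false
set_option linter.unnecessarySeqFocus false

namespace H38.CK
open Subgroup MulAction H32.CK H63.Oc H63.Oc.Asm Module
open H98 (cj mem_cj)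

theorem pair_le {K A B ι : Type} [Field K] [Finite K] [Fintype ι] {α : A → ι → K} {β : B → ι → K}
    (h1 : Function.Injective α) (h2 : Function.Injective β) (h : ∀ a b, β b ⬝ᵥ α a = 0) :
    Nat.card A * Nat.card B ≤ Nat.card K ^ Fintype.card ι := by
  classical
  let W := Submodule.span K (Set.range α)
  have : Finite (Dual K (ι → K)) := Module.finite_of_finite K
  rw [← finrank_fintype_fun_eq_card K, ← Subspace.finrank_add_finrank_dualAnnihilator_eq W, pow_add,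
    ← Module.natCard_eq_pow_finrank (V := W), ← Module.natCard_eq_pow_finrank (V := W.dualAnnihilator)]
  refine Nat.mul_le_mul (Nat.card_le_card_of_injective (fun a => ⟨α a, Submodule.subset_span ⟨a, rfl⟩⟩)
    fun a b e => h1 (congrArg Subtype.val e)) (Nat.card_le_card_of_injective
    (fun b => ⟨dotProductEquiv K ι (β b), (Submodule.mem_dualAnnihilator _).2 fun w hw => ?_⟩)
    fun a b e => h2 ((dotProductEquiv K ι).injective (congrArg Subtype.val e)))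
  exact (Submodule.span_le (p := LinearMap.ker (dotProductEquiv K ι (β b)))).2
    (by rintro _ ⟨a, rfl⟩; simpa using h a b) hw

theorem rf4_arith {q n : ℕ} (hq : 3 ≤ q) (h1 : q ^ 6 ∣ n) (h2 : 2 ≤ n)
    (h3 : n - 1 ∣ (q ^ 3 + 1) * (q ^ 2 - 1) * (q ^ 6 + 1)) : False := by
  obtain ⟨a, rfl⟩ := h1
  obtain ⟨r, hr⟩ := h3
  have ha : 1 ≤ a := Nat.pos_of_ne_zero (by rintro rfl; simp at h2)
  have h4 : 9 ≤ q ^ 2 := by nlinarith
  have h5 : 2 * ((q ^ 3 + 1) * (q ^ 2 - 1)) + 1 < q ^ 6 := by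
    obtain ⟨x, rfl⟩ := Nat.exists_eq_add_of_le' hq
    zify [show 1 ≤ (x + 3) ^ 2 by omega]
    rw [← sub_pos]
    ring_nf
    positivity
  have h6 : 0 < (q ^ 3 + 1) * (q ^ 2 - 1) := Nat.mul_pos (by positivity) (by omega)
  generalize (q ^ 3 + 1) * (q ^ 2 - 1) = s at *
  generalize q ^ 6 = M at *
  zify [show 1 ≤ M * a by omega] at *
  have h7 : (s : ℤ) + r = M * (a * r - s) := by linear_combination hr
  have h8 : (0 : ℤ) < a * r - s := by
    by_contra h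
    nlinarith [mul_nonneg (by omega : (0 : ℤ) ≤ M) (by omega : (0 : ℤ) ≤ -(a * r - s))]
  have h9 : (r : ℤ) ≤ a * r := le_mul_of_one_le_left (by omega) ha
  nlinarith [mul_le_mul_of_nonneg_left (by omega : (1 : ℤ) ≤ a * r - s) (by omega : (0 : ℤ) ≤ M - 1)]

section Co
variable {K : Type} [Field K] [Finite K] [CharP K 2] {T : TF K}

theorem card_sQ : Nat.card (sQ T) = Nat.card K ^ 10 := by
  have e : sQ T ≃ (Fin 10 → K) :=
    { toFun := fun c => ![c.1.a1, c.1.b2, c.1.a2, c.1.a3, c.1.b4, c.1.a4, c.1.a5, c.1.b6, c.1.a6, c.1.a7]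
      invFun := fun f => ⟨⟨f 0, f 1, f 2, f 3, f 4, f 5, f 6, f 7, f 8, f 9, 0, 0⟩, rfl, rfl⟩
      left_inv := fun c => Subtype.ext (by ext <;> simp [c.2.1, c.2.2])
      right_inv := fun f => by ext i; fin_cases i <;> rfl }
  rw [Nat.card_congr e, Nat.card_fun]
  simp

theorem card_Y {Y : Subgroup (Co T)} (hQ : Y ≤ sQ T) (hZ : ∀ t, x4 T t ∈ Y → t = 0) :
    Nat.card Y ≤ Nat.card K ^ 4 := by
  have q1 : ∀ c : Y, c.1.b8 = 0 := fun c => (hQ c.2).1
  have q2 : ∀ c : Y, c.1.a8 = 0 := fun c => (hQ c.2).2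
  let φ : Y →* Multiplicative (Fin 4 → K) := MonoidHom.mk'
    (fun c => Multiplicative.ofAdd ![c.1.a1, c.1.b2, c.1.b6, c.1.a7]) fun c d => by
      rw [← ofAdd_add]
      congr 1
      ext i
      fin_cases i <;> simp [q1, q2]
  have k1 : ∀ v : φ.ker, v.1.1.a1 = 0 ∧ v.1.1.b2 = 0 ∧ v.1.1.b6 = 0 ∧ v.1.1.a7 = 0 := fun v =>
    have := congrArg Multiplicative.toAdd (MonoidHom.mem_ker.1 v.2)
    ⟨congrFun this 0, congrFun this 1, congrFun this 2, congrFun this 3⟩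
  have k2 : ∀ v : φ.ker, v.1.1.b4 = 0 := fun v => by
    have : v.1.1 * v.1.1 = x4 T (v.1.1.b4 * T.σ v.1.1.b4) := by
      ext <;> simp [x4, q1, q2, k1] <;> grind
    simpa using hZ (v.1.1.b4 * T.σ v.1.1.b4) (this ▸ mul_mem v.1.2 v.1.2)
  rw [← φ.ker.index_mul_card, index_ker]
  refine pair_le (ι := Fin 4) (α := fun a : φ.range => Multiplicative.toAdd a.1)
    (β := fun v : φ.ker => ![v.1.1.a6, v.1.1.a5, v.1.1.a3, v.1.1.a2])
    (fun a b e => Subtype.ext (Multiplicative.toAdd.injective e)) (fun v w e => ?_) ?_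
  · have e0 : v.1.1.a6 = w.1.1.a6 := congrFun e 0
    have e1 : v.1.1.a5 = w.1.1.a5 := congrFun e 1
    have e2 : v.1.1.a3 = w.1.1.a3 := congrFun e 2
    have e3 : v.1.1.a2 = w.1.1.a2 := congrFun e 3
    have : v.1.1 * w.1.1 = x4 T (v.1.1.a4 + w.1.1.a4) := by
      ext <;> simp [x4, q1, q2, k1, k2, e0, e1, e2, e3] <;> grind
    have e4 := hZ _ (this ▸ mul_mem v.1.2 w.1.2)
    refine Subtype.ext (Subtype.ext ?_)
    have e5 : v.1.1.a4 = w.1.1.a4 := by grind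
    refine Co.ext ?_ ?_ ?_ ?_ ?_ ?_ ?_ ?_ ?_ ?_ ?_ ?_ <;> simp only [q1, q2, k1, k2, e0, e1, e2, e3, e5]
  · rintro ⟨_, y, rfl⟩ v
    have : y.1 * v.1.1 = v.1.1 * y.1 * x4 T (v.1.1.a6 * y.1.a1 + v.1.1.a5 * y.1.b2 +
        v.1.1.a3 * y.1.b6 + v.1.1.a2 * y.1.a7) := by
      ext <;> simp [x4, q1, q2, k1, k2] <;> grind
    have e4 := hZ _ ((mul_mem_cancel_left (mul_mem v.1.2 y.2)).1 (this ▸ mul_mem y.2 v.1.2))
    simpa [φ, dotProduct, Fin.sum_univ_four] using e4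

theorem card_of {G : Type} [Group G] {H : Subgroup G} {f : K → G} (h1 : Function.Injective f)
    (h2 : ∀ g, g ∈ H ↔ ∃ t, g = f t) : Nat.card H = Nat.card K :=
  (Nat.card_congr (Equiv.ofBijective (fun t => (⟨f t, (h2 _).2 ⟨t, rfl⟩⟩ : H))
    ⟨fun _ _ e => h1 (congrArg Subtype.val e), fun g =>
      let ⟨t, e⟩ := (h2 _).1 g.2; ⟨t, Subtype.ext e.symm⟩⟩)).symm

theorem ww_mul (s r s' r' : K) : ww T s r * ww T s' r' = ww T (s + s') (r + r') := by
  ext <;> simp [ww]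

end Co

theorem job2F4 : Job2F4 := fun K _ _ m hm hK => H45.CK.of_false fun Ω _ _ _ H => by
  have := H68.charP_two hK
  obtain ⟨T, A, hb, ht, hs⟩ := H54.Par.jobModel K m hK
  have bc := H14.Oc.jobBC K T _ A.toCS
  have hc := (H78.Par.jobId.{0, 0, 0} H14.Oc.jobEq K T _ A bc hb).1
  have cG := Cfsg.Agent.S1068.result hK
  have cK : Nat.card K = 2 ^ (2 * m + 1) := Nat.card_eq_fintype_card.trans hK
  generalize Cfsg.Lie.twistedF4 K (2 ^ m) = G at *
  obtain ⟨U, hU⟩ := ((isPGroup_Co (T := T)).of_surjective _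
    A.ι.rangeRestrict_surjective).exists_le_sylow
  replace hU : A.S = U := eq_of_le_of_card_ge hU (by
    obtain ⟨g, hg⟩ := hs U U.2
    exact Nat.card_le_card_of_injective (fun x : U => (⟨g * x * g⁻¹, hg _ x.2⟩ : A.S))
      fun a b e => by simpa using e)
  have mZ : ∀ g, g ∈ A.im (sZ T) ↔ ∃ t, g = A.ι (ww T 0 t) := fun g =>
    ⟨by rintro ⟨c, hc, rfl⟩; exact ⟨_, congrArg _ (eq_x4 hc)⟩, by
      rintro ⟨t, rfl⟩; exact ⟨_, x4_mem t, rfl⟩⟩
  have mW : ∀ g, g ∈ cj A.n1 (A.im (sZ T)) ↔ ∃ t, g = A.ι (ww T t 0) := fun g => by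
    rw [mem_cj, mZ]
    exact exists_congr fun t => by rw [← n1_ww A 0 t, mul_assoc, inv_mul_eq_iff_eq_mul,
      eq_mul_inv_iff_mul_eq]
  let φ : Multiplicative K →* G := A.ι.comp (MonoidHom.mk' (fun t => x1 T t.toAdd) fun a b => by
    ext <;> simp [x1])
  have mX : ∀ g, g ∈ φ.range ↔ ∃ t, g = A.ι (x1 T t) := fun g =>
    ⟨by rintro ⟨t, rfl⟩; exact ⟨_, rfl⟩, by rintro ⟨t, rfl⟩; exact ⟨Multiplicative.ofAdd t, rfl⟩⟩
  have fr := fun a : Ω => (H45.CK.line H U (Z := A.im (sZ T)) (X := φ.range) (f := 2 * m + 1)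
    (fun g hg => mem_normalizer_fintype fun z hz => ?_) (k := A.n1) rfl (by omega)
    ((card_of (fun a b e => congrArg Co.a4 (A.inj e)) mZ).trans cK)
    ((card_of (fun a b e => congrArg Co.a1 (A.inj e)) mX).trans cK)
    (sup_le (fun g hg => ?_) fun g hg => ?_) (eq_bot_iff.2 fun g hg => ?_)
    (fun g hg => bc.nor _ (by simp) ?_) (fun y hy a ha => ?_) (fun a ha h1 z hz => ?_) a).1 1
  rotate_left
  · rw [← hU] at hg
    obtain ⟨c, hc'⟩ := (mem_normalizer_iff.1 hg z).1 (map_le_range _ _ hz)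
    refine bc.cenQ _ (hc' ▸ A.ι_mem c) fun d _ => ?_
    obtain ⟨e, he⟩ := (mem_normalizer_iff.1 (inv_mem hg) _).1 (⟨d, rfl⟩ : A.ι d ∈ A.S)
    calc _ = g * (z * (g⁻¹ * A.ι d * g⁻¹⁻¹)) * g⁻¹ := by group
      _ = _ := by rw [← he, ← cen_of_Z bc hz (A.ι_mem e), he]; group
  · exact hU ▸ map_le_range _ _ hg
  · obtain ⟨t, rfl⟩ := (mW g).1 hg
    exact hU ▸ ⟨_, rfl⟩
  · obtain ⟨t, rfl⟩ := (mZ g).1 hg.1
    obtain ⟨s, e⟩ := (mW _).1 hg.2
    obtain rfl : t = 0 := congrArg Co.a4 (A.inj e)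
    exact map_one A.ι
  · obtain ⟨t, rfl⟩ := (mW g).1 hg
    exact A.ι_mem _
  · obtain ⟨t, rfl⟩ := (mX y).1 hy
    obtain ⟨s, rfl⟩ := (mW a).1 ha
    refine (mZ _).2 ⟨t * s, ?_⟩
    rw [mul_inv_eq_iff_eq_mul, ← map_inv, ← map_mul, ← map_mul, ← map_mul, x1_ww, ww_mul]
    simp
  · obtain ⟨s, rfl⟩ := (mW a).1 ha
    obtain ⟨t, rfl⟩ := (mZ z).1 hz
    have h0 : s ≠ 0 := by rintro rfl; exact h1 (map_one A.ι)
    refine ⟨_, (mX _).2 ⟨t / s, rfl⟩, ?_⟩
    rw [← map_inv, ← map_mul, ← map_mul, ← map_mul, x1_ww, ww_mul]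
    simp [h0]
  have fz : ∀ (a : Ω) t, A.ι (x4 T t) • a = a → t = 0 := fun a t e => by
    have h1 : A.ι (x4 T t) ∈ stabilizer G a ⊓ cj 1 (A.im (sZ T)) :=
      ⟨e, mem_cj.2 (by simpa using ⟨_, x4_mem t, rfl⟩)⟩
    rw [fr a, mem_bot, map_eq_one_iff _ A.inj] at h1
    exact congrArg Co.a4 h1
  have h1 := H.toAct.chi (z := A.τ) fun a e => one_ne_zero (fz a 1 e)
  have h2 : centralizer {A.τ} = A.C := le_antisymm (fun g hg => hc g (ht ▸ mem_top g)
    (mem_centralizer_singleton_iff.1 hg)) fun g hg => mem_centralizer_singleton_iff.2 (bc.cenZ g hg 1)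
  have := H.toAct.nontrivial
  obtain ⟨a⟩ : Nonempty Ω := inferInstance
  have h3 := (pow_dvd_deg (Q := A.im (sQ T)) (N := (2 * m + 1) * 10) (k := (2 * m + 1) * 4)
    Nat.prime_two (by rw [card_map_of_injective A.inj, card_sQ, cK, pow_mul]) (fun a => by
      have e : stabilizer G a ⊓ A.im (sQ T) = (sQ T ⊓ (stabilizer G a).comap A.ι).map A.ι :=
        le_antisymm (by rintro _ ⟨h1, c, hc, rfl⟩; exact ⟨c, ⟨hc, h1⟩, rfl⟩)
          (by rintro _ ⟨c, hc, rfl⟩; exact ⟨hc.2, c, hc.1, rfl⟩)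
      rw [pow_mul, ← cK, e, card_map_of_injective A.inj]
      exact card_Y inf_le_left fun t ht => fz a t ht.2) a).2
  have hq : 8 ≤ Nat.card K := cK ▸ Nat.pow_le_pow_right (n := 2) (i := 3) (by omega) (by omega)
  rw [← Nat.mul_sub, pow_mul, ← cK] at h3
  refine rf4_arith (by omega) h3 H.toAct.two_le (h1.trans (dvd_of_eq ?_))
  have h4 := A.C.index_mul_card
  rw [bc.card_C, cG, ← cK] at h4
  have h5 : 0 < Nat.card K ^ 12 * (Nat.card K - 1) * (Nat.card K ^ 2 + 1) :=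
    Nat.mul_pos (Nat.mul_pos (by positivity) (by omega)) (by positivity)
  rw [h2]
  refine Nat.eq_of_mul_eq_mul_right h5 (h4.trans ?_)
  zify [show 1 ≤ Nat.card K by omega, Nat.one_le_pow 2 _ (by omega : 0 < Nat.card K),
    Nat.one_le_pow 4 _ (by omega : 0 < Nat.card K)]
  ring

end H38.CK
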