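import Cfsg.Agent.H11.FBSpec
import Cfsg.Agent.H26.NilpComm

/-! # Tower FB (S3404), job AL2a: fusion of the central involutions of `P` -/

set_option autoImplicit false

namespace H38.FBA

open MulAction Subgroup H11.FB

universe u v

variable {G : Type u} {Ω : Type v} [Group G] [MulAction G Ω]

/-- A nilpotent group centralises the centre of its Sylow 2-subgroup. -/
theorem cenK [Finite G] {L K H P : Subgroup G} (f : Fr L K H) (pd : Pd L K P) {z k : G}
    (hz : ZI P z) (hk : k ∈ K) : k * z = z * k := by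
  obtain ⟨j, m, hm, e⟩ := Nat.exists_eq_two_pow_mul_odd (orderOf_pos k).ne'
  have h1 : Commute (k ^ m) z := by
    refine hz.2.2.2 _ (pd.all _ (f.Kle (K.pow_mem hk m)) j ?_)
    rw [← pow_mul, mul_comm, ← e, pow_orderOf_eq_one]
  have h2 : Commute (k ^ 2 ^ j) z := by
    refine H26.commute_of_coprime_orderOf_of_mem f.nil (K.pow_mem hk _) (pd.le hz.1) ?_
    have d1 : orderOf (k ^ 2 ^ j) ∣ m :=
      orderOf_dvd_of_pow_eq_one (by rw [← pow_mul, ← e, pow_orderOf_eq_one])
    have d2 : orderOf z ∣ 2 := orderOf_dvd_of_pow_eq_one (by rw [pow_two]; exact hz.2.2.1)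
    exact Nat.Coprime.coprime_dvd_left d1
      (Nat.Coprime.coprime_dvd_right d2 (Nat.coprime_two_right.2 hm))
  have hc : Nat.Coprime m (2 ^ j) := Nat.Coprime.pow_right j (Nat.coprime_two_right.2 hm)
  have hb := Nat.gcd_eq_gcd_ab m (2 ^ j)
  rw [hc.gcd_eq_one] at hb
  have e2 : k = (k ^ m) ^ Nat.gcdA m (2 ^ j) * (k ^ 2 ^ j) ^ Nat.gcdB m (2 ^ j) := by
    rw [← zpow_natCast, ← zpow_natCast, ← zpow_mul, ← zpow_mul, ← zpow_add, ← hb]
    simp
  have : Commute k z := by
    rw [e2]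
    exact (h1.zpow_left _).mul_left (h2.zpow_left _)
  exact this

/-- In even degree a 2-group fixing three points fixes a fourth one. -/
theorem fourth [Fintype Ω] {T : Subgroup G} (hT : IsPGroup 2 T) (hn : Even (Fintype.card Ω))
    {a b c : Ω} (hab : a ≠ b) (hac : a ≠ c) (hbc : b ≠ c) (hX : T ≤ X3 G a b c) :
    ∃ w, w ≠ a ∧ w ≠ b ∧ w ≠ c ∧ ∀ x ∈ T, x • w = w := by
  by_contra hno
  push Not at hno
  have e : fixedPoints T Ω = {a, b, c} := by
    ext w
    simp only [Set.mem_insert_iff, Set.mem_singleton_iff]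
    constructor
    · intro hw
      by_contra h
      push Not at h
      obtain ⟨x, hx, hxw⟩ := hno w h.1 h.2.1 h.2.2
      exact hxw (hw ⟨x, hx⟩)
    · intro hw x
      have := mem_X3.1 (hX x.2)
      rcases hw with rfl | rfl | rfl
      · exact this.1
      · exact this.2.1
      · exact this.2.2
  have := hT.card_modEq_card_fixedPoints Ω
  rw [e, Nat.card_coe_set_eq, Set.ncard_eq_three.2 ⟨a, b, c, hab, hac, hbc, rfl⟩,
    Nat.card_eq_fintype_card] at this
  obtain ⟨r, hr⟩ := hn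
  unfold Nat.ModEq at this
  omega

theorem jobAL2a : JobAL2a.{u, v} := by
  intro G Ω _ _ _ _ _ _ a b c d K H P h z z' g cx hn hh h5 hz hz' hg e
  obtain ⟨hab, hac, had, hbc, hbd, hcd⟩ := cx.hy.ne
  have fr := cx.hy.fr
  have PL : P ≤ L4 G a b c d := cx.pd.le.trans fr.Kle
  have LX : L4 G a b c d ≤ X3 G a b c := inf_le_left
  -- the fixed points of `P`
  have hPh : ∀ w : Ω, (∀ x ∈ P, x • w = w) → w = a ∨ w = b ∨ w = c ∨ w = d := by
    have par := cx.ph1.par
    obtain ⟨r, hr⟩ := hn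
    have n7 : (fixedPoints P Ω).ncard ≠ 7 := by omega
    have sub : fixedPoints P Ω ⊆ fixedBy Ω h := fun w hw => cx.ph1.fixL n7 h (fr.Hle hh) w hw
    have le5 := Set.ncard_le_ncard sub
    have c4 : (fixedPoints P Ω).ncard = 4 := by
      have := cx.ph1.card
      omega
    have sub4 : ({a, b, c, d} : Set Ω) ⊆ fixedPoints P Ω := by
      intro w hw x
      have := mem_L4.1 (PL x.2)
      simp only [Set.mem_insert_iff, Set.mem_singleton_iff] at hw
      rcases hw with rfl | rfl | rfl | rfl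
      · exact this.1
      · exact this.2.1
      · exact this.2.2.1
      · exact this.2.2.2
    have n4 : ({a, b, c, d} : Set Ω).ncard = 4 := by
      rw [Set.ncard_insert_of_notMem (by simp [hab, hac, had]),
        Set.ncard_eq_three.2 ⟨b, c, d, hbc, hbd, hcd, rfl⟩]
    have eq4 := Set.eq_of_subset_of_ncard_le sub4 (by omega)
    intro w hw
    have : w ∈ ({a, b, c, d} : Set Ω) := eq4 ▸ fun x => hw x x.2
    simpa using this
  set C : Subgroup G := X3 G a b c ⊓ centralizer {z'} with hC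
  have memC : ∀ x, x ∈ C ↔ x ∈ X3 G a b c ∧ x * z' = z' * x := fun x => by
    rw [hC, mem_inf, mem_centralizer_singleton_iff]
  have PC : P ≤ C := fun x hx => (memC x).2 ⟨LX (PL hx), hz'.2.2.2 x hx⟩
  have QC : cj g P ≤ C := by
    intro x hx
    have hx' := mem_cj.1 hx
    refine (memC x).2 ⟨?_, ?_⟩
    · have := (X3 G a b c).mul_mem ((X3 G a b c).mul_mem hg (LX (PL hx')))
        ((X3 G a b c).inv_mem hg)
      simpa [mul_assoc] using this
    · have := hz.2.2.2 _ hx'
      calc x * z' = g * (g⁻¹ * x * g * z) * g⁻¹ := by rw [← e]; group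
        _ = z' * x := by rw [this, ← e]; group
  have : Fact (Nat.Prime 2) := ⟨Nat.prime_two⟩
  obtain ⟨S, hS⟩ := (cx.pd.pg.comap_subtype (K := C)).exists_le_sylow
  obtain ⟨S', hS'⟩ := ((cx.pd.pg.map (MulAut.conj g).toMonoidHom).comap_subtype
    (K := C)).exists_le_sylow
  obtain ⟨t, ht⟩ := MulAction.exists_smul_eq C S' S
  have Tp : IsPGroup 2 ((S : Subgroup C).map C.subtype) := S.isPGroup'.map _
  have TX : (S : Subgroup C).map C.subtype ≤ X3 G a b c := (map_subtype_le _).trans inf_le_left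
  obtain ⟨w, wa, wb, wc, hw⟩ := fourth Tp hn hab hac hbc TX
  have wd : w = d := by
    have := hPh w fun x hx => hw x ⟨⟨x, PC hx⟩, hS hx, rfl⟩
    tauto
  subst wd
  have TP : (S : Subgroup C).map C.subtype ≤ P := by
    intro x hx
    obtain ⟨k, hk⟩ := Tp ⟨x, hx⟩
    exact cx.pd.all x ⟨TX hx, hw x hx⟩ k (congrArg Subtype.val hk)
  have tC := (memC t).1 t.2
  have lX : (t : G) * g ∈ X3 G a b c := (X3 G a b c).mul_mem tC.1 hg
  have lP : ∀ x ∈ P, (t : G) * g * x * ((t : G) * g)⁻¹ ∈ P := by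
    intro x hx
    have m1 : (⟨g * x * g⁻¹, QC (conj_mem_cj hx)⟩ : C) ∈ (S' : Subgroup C) := hS' (conj_mem_cj hx)
    have m2 : t * (⟨g * x * g⁻¹, QC (conj_mem_cj hx)⟩ : C) * t⁻¹ ∈ (S : Subgroup C) := by
      rw [← ht, Sylow.coe_subgroup_smul]
      exact ⟨_, m1, rfl⟩
    have := TP ⟨_, m2, rfl⟩
    simpa [mul_assoc] using this
  have lX' := mem_X3.1 lX
  have ld : ((t : G) * g) • w = w := by
    have := hPh (((t : G) * g)⁻¹ • w) fun x hx => by
      have := (mem_L4.1 (PL (lP x hx))).2.2.2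
      rw [mul_smul, mul_smul] at this
      rw [eq_inv_smul_iff]
      exact this
    rcases this with h1 | h1 | h1 | h1 <;> rw [inv_smul_eq_iff] at h1
    · exact absurd (h1.trans lX'.1) wa
    · exact absurd (h1.trans lX'.2.1) wb
    · exact absurd (h1.trans lX'.2.2) wc
    · exact h1.symm
  obtain ⟨k, hk, x, hx, ek⟩ := fr.fac ((t : G) * g) ⟨lX, ld⟩
  refine ⟨x, hx, ?_⟩
  have kz := cenK fr cx.pd hz' hk
  have e1 : k * x * z * (k * x)⁻¹ = z' := by
    rw [← ek]
    calc (t : G) * g * z * ((t : G) * g)⁻¹ = t * (g * z * g⁻¹) * (t : G)⁻¹ := by group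
      _ = z' := by rw [e, tC.2]; group
  calc x * z * x⁻¹ = k⁻¹ * (k * x * z * (k * x)⁻¹) * k := by group
    _ = k⁻¹ * (z' * k) := by rw [e1]; group
    _ = z' := by rw [← kz]; group

end H38.FBA
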