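import Cfsg.Agent.H38.HeK0
/-! Fixed points in `S` of the elements of the coset of the graph automorphism. -/
set_option autoImplicit false
set_option maxRecDepth 100000
set_option Elab.async false
namespace H38.He
open H49 H71 Subgroup

noncomputable def pB (s : ℕ × ℕ) : Bool := frc (cnt (fxB s.1) SP) fun n =>
  andB (Nat.ble n 32) (impB (Nat.beq s.1 s.2) (andB (Nat.ble n 16)
    (anyB (fun y : ℕ × ℕ => Nat.beq (m5r y.1 y.2) s.1) SP)))

theorem pB0 : allB pB SP0 = true := by decide +kernel
theorem pB1 : allB pB SP1 = true := by decide +kernel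
theorem pB2 : allB pB SP2 = true := by decide +kernel
theorem pB3 : allB pB SP3 = true := by decide +kernel
theorem pB4 : allB pB SP4 = true := by decide +kernel
theorem pB5 : allB pB SP5 = true := by decide +kernel
theorem pB6 : allB pB SP6 = true := by decide +kernel
theorem pB7 : allB pB SP7 = true := by decide +kernel

theorem pB_all {s : X} (hs : s ∈ S) : pB (s.c, tr s.c) = true :=
  S_all8 pB0 pB1 pB2 pB3 pB4 pB5 pB6 pB7 hs

end H38.He
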