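import Cfsg.Agent.H38.HeK0
import Cfsg.Agent.H2.Core
/-! Orders and structure of the subgroups `S`, `Q`, `E1`, `E2` of the coded centraliser. -/
set_option autoImplicit false
set_option maxRecDepth 100000
set_option Elab.async false
namespace H38.He
open H49 H71 Subgroup

theorem finX : Finite X := Nat.finite_of_card_ne_zero (by rw [card_X]; norm_num)

/-- Clearing entries, with the check that the steps can be undone. -/
noncomputable def sieve2 (L : List ℕ) : ℕ → Bool :=
  List.rec (motive := fun _ => ℕ → Bool) (fun c => Nat.beq c 17043521)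
    (fun e _ ih c => Bool.rec (motive := fun _ => Bool)
      (frc (m5r e c) fun d => andB (Nat.beq (m5r e d) c) (ih d)) (ih c)
      (Nat.beq (Nat.land c (Nat.xor e 17043521)) 0)) L

theorem of_sieve2 {H : Subgroup X} {L : List X} (hL : ∀ y ∈ L, y ∈ H) {c : ℕ}
    (h : sieve2 (L.map UG.c) c = true) : ∃ x ∈ H, x.c = c := by
  induction L generalizing c with
  | nil => exact ⟨1, one_mem _, (Nat.eq_of_beq_eq_true h).symm⟩
  | cons y L ih =>
    have ih' := @ih fun b hb => hL b (List.mem_cons_of_mem _ hb)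
    have h' : Bool.rec (motive := fun _ => Bool)
      (frc (m5r y.c c) fun d => andB (Nat.beq (m5r y.c d) c) (sieve2 (L.map UG.c) d))
      (sieve2 (L.map UG.c) c) (Nat.beq (Nat.land c (Nat.xor y.c 17043521)) 0) = true := h
    cases hb : Nat.beq (Nat.land c (Nat.xor y.c 17043521)) 0 <;> rw [hb] at h'
    · simp only [frc_eq, andB_iff] at h'
      obtain ⟨x, hx, e⟩ := ih' h'.2
      exact ⟨y * x, mul_mem (hL y List.mem_cons_self) hx, by
        rw [mul_c, e]; exact Nat.eq_of_beq_eq_true h'.1⟩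
    · exact ih' h'

theorem of_SP {q : ℕ × ℕ} (hq : q ∈ SP) : ∃ x ∈ S, (x.c, tr x.c) = q := by
  have := andB_iff.1 (allB_iff.1 (show allB (fun q : ℕ × ℕ => andB (sieve2
    ([xa, xb, xc, xd, x13, x24, x35, x14, x25, xz].map UG.c) q.1) (Nat.beq (tr q.1) q.2)) SP = true by
      decide +kernel) q hq)
  obtain ⟨x, hx, e⟩ := of_sieve2 (H := S) (fun _ => mem_cl) this.1
  exact ⟨x, hx, Prod.ext e (by rw [e]; exact Nat.eq_of_beq_eq_true this.2)⟩

theorem SP_nodup : SP.Nodup := by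
  have : List.IsChain (fun a b : ℕ × ℕ => a.1 < b.1) SP := by decide +kernel
  have : Trans (fun a b : ℕ × ℕ => a.1 < b.1) (fun a b : ℕ × ℕ => a.1 < b.1)
    (fun a b : ℕ × ℕ => a.1 < b.1) := ⟨lt_trans⟩
  exact (List.isChain_iff_pairwise.1 ‹_›).imp fun h e => by rw [e] at h; exact lt_irrefl _ h

theorem card_eq_cnt {P : X → Prop} {p : ℕ × ℕ → Bool}
    (h : ∀ x, P x ↔ x ∈ S ∧ p (x.c, tr x.c) = true) : Nat.card {x // P x} = cnt p SP := by
  classical
  rw [cnt_eq, ← List.toFinset_card_of_nodup (SP_nodup.filter _), ← Nat.card_eq_finsetCard]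
  refine Nat.card_eq_of_bijective (fun a => ⟨(a.1.c, tr a.1.c), List.mem_toFinset.2
    (List.mem_filter.2 ⟨mem_SP ((h _).1 a.2).1, ((h _).1 a.2).2⟩)⟩) ⟨fun a b e => ?_, fun q => ?_⟩
  · exact Subtype.ext (UG.ext' (congrArg (fun q => q.1.1) e))
  · obtain ⟨h1, h2⟩ := List.mem_filter.1 (List.mem_toFinset.1 q.2)
    obtain ⟨x, hx, e⟩ := of_SP h1
    exact ⟨⟨x, (h x).2 ⟨hx, e ▸ h2⟩⟩, Subtype.ext e⟩

theorem le_S {L : List X} (h : allB (inB 30840801) (L.map UG.c) = true) : cl L ≤ S :=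
  cl_le fun _ hx => mem_S.2 (allB_iff.1 h _ (List.mem_map_of_mem hx))

theorem Q_le : Q ≤ S := le_S (by decide +kernel)
theorem E1_le : E1 ≤ S := le_S (by decide +kernel)
theorem E2_le : E2 ≤ S := le_S (by decide +kernel)
theorem J_le : J ≤ S := le_S (by decide +kernel)
theorem W_le1 : W ≤ E1 := cl_le fun x hx => mem_E1.2 (by revert x; decide +kernel)
theorem W_le2 : W ≤ E2 := cl_le fun x hx => mem_E2.2 (by revert x; decide +kernel)

theorem card_in {H : Subgroup X} (hS : H ≤ S) {M n : ℕ} (h : ∀ {x}, x ∈ H ↔ inB M x.c = true)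
    (e : cnt (fun q : ℕ × ℕ => inB M q.1) SP = n) : Nat.card H = n :=
  e ▸ card_eq_cnt fun _ => ⟨fun hx => ⟨hS hx, h.1 hx⟩, fun hx => h.2 hx.2⟩

theorem card_S : Nat.card S = 2 ^ 10 := card_in le_rfl mem_S (by decide +kernel)
theorem card_Q : Nat.card Q = 2 ^ 7 := card_in Q_le mem_Q (by decide +kernel)
theorem card_E1 : Nat.card E1 = 64 := card_in E1_le mem_E1 (by decide +kernel)
theorem card_E2 : Nat.card E2 = 64 := card_in E2_le mem_E2 (by decide +kernel)
theorem card_J : Nat.card J = 256 := card_in J_le mem_J (by decide +kernel)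
theorem card_W : Nat.card W = 16 := card_in (W_le1.trans E1_le) mem_W (by decide +kernel)

theorem S_p : IsPGroup 2 S := IsPGroup.of_card card_S

theorem τ_of_tr {x y : X} (h : tr (x⁻¹).c = y.c) : τ x = y := by
  rw [tr_c, inv_inv] at h; exact UG.ext' h

theorem τ_mem {A B : Subgroup X} (hS : A ≤ S) {M N : ℕ} (hA : ∀ {x}, x ∈ A ↔ inB M x.c = true)
    (hB : ∀ {x}, x ∈ B ↔ inB N x.c = true)
    (e : allB (fun q : ℕ × ℕ => impB (inB M q.1) (inB N q.2)) SP = true) {x : X} (hx : x ∈ A) :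
    τ x ∈ B := by
  have := impB_iff.1 (S_all e (hS (inv_mem hx))) (hA.1 (inv_mem hx))
  simp only [tr_c, inv_inv] at this
  exact hB.2 this

theorem τ_S {x : X} (hx : x ∈ S) : τ x ∈ S := τ_mem le_rfl mem_S mem_S (by decide +kernel) hx
theorem τ_Q {x : X} (hx : x ∈ Q) : τ x ∈ Q := τ_mem Q_le mem_Q mem_Q (by decide +kernel) hx
theorem τ_J {x : X} (hx : x ∈ J) : τ x ∈ J := τ_mem J_le mem_J mem_J (by decide +kernel) hx
theorem τ_E1 {x : X} (hx : x ∈ E1) : τ x ∈ E2 := τ_mem E1_le mem_E1 mem_E2 (by decide +kernel) hx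
theorem τ_E2 {x : X} (hx : x ∈ E2) : τ x ∈ E1 := τ_mem E2_le mem_E2 mem_E1 (by decide +kernel) hx

/-- An element that commutes with the entries of the list is `1` or `z`. -/
theorem cen_of {L : List X} (e : allX (fun c => impB (allB (cmB c) (L.map UG.c))
    (orB (Nat.beq c 17043521) (Nat.beq c 17043523))) = true) {x : X}
    (h : ∀ y ∈ L, x * y = y * x) : x = 1 ∨ x = xz := by
  have := impB_iff.1 (X_all e x) (allB_iff.2 fun c hc => by
    obtain ⟨y, hy, rfl⟩ := List.mem_map.1 hc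
    exact cmB_iff.2 (h y hy))
  exact (orB_iff.1 this).imp beq_one.1 (beq_c (y := xz)).1

theorem cen_S {x : X} (h : ∀ y ∈ S, x * y = y * x) : x = 1 ∨ x = xz :=
  cen_of (L := [xa, xb, xc, xd]) (by decide +kernel) fun y hy =>
    h y (mem_S.2 (by revert y; decide +kernel))

theorem cen_Q {x : X} (h : ∀ y ∈ Q, x * y = y * x) : x = 1 ∨ x = xz :=
  cen_of (L := [xa, xd, x13, x35, x14, x25]) (by decide +kernel) fun y hy =>
    h y (mem_Q.2 (by revert y; decide +kernel))

theorem normal_of {H : Subgroup X} {M : ℕ} (h : ∀ {x}, x ∈ H ↔ inB M x.c = true)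
    (e : allX (fun c => impB (inB M c) (allB (fun g => inB M (m5 (m5r g c) g))
      ([xa, xb, xc, xd, xm, xn].map UG.c))) = true) : H.Normal := by
  refine ⟨fun x hx g => ?_⟩
  induction g using X_ind with
  | h1 => simpa using hx
  | h a ha g ih =>
    have := allB_iff.1 (impB_iff.1 (X_all e _) (h.1 ih)) _ (List.mem_map_of_mem ha)
    rw [mul_c'', mul_c', ← h] at this
    rw [mul_inv_rev, gens_inv a ha]
    simpa only [mul_assoc] using this

instance Q_normal : Q.Normal := normal_of mem_Q (by decide +kernel)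
instance A1_normal : A1.Normal := normal_of mem_A1 (by decide +kernel)
instance A2_normal : A2.Normal := normal_of mem_A2 (by decide +kernel)

theorem Q_cl {a b : X} (ha : a ∈ Q) (hb : b ∈ Q) : a * b = b * a ∨ a * b = xz * (b * a) := by
  have := impB_iff.1 (S_all (p := fun a => impB (inB 31389665 a.1) (allB (fun b : ℕ × ℕ =>
    impB (inB 31389665 b.1) (frc (m5r a.1 b.1) fun u => frc (m5r b.1 a.1) fun w =>
      orB (Nat.beq u w) (Nat.beq u (m5r 17043523 w)))) SP)) (by decide +kernel) (Q_le ha)) (mem_Q.1 ha)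
  have := impB_iff.1 (S_all this (Q_le hb)) (mem_Q.1 hb)
  simp only [frc_eq, orB_iff, mul_c'', show 17043523 = xz.c from rfl, beq_c] at this
  exact this

theorem z_mem_of_normal {N : Subgroup X} (hN : N.Normal) (h : N ≠ ⊥) : xz ∈ N := by
  by_contra hz
  have k : ∀ y ∈ N, y ∈ Q → y = 1 := fun y hy hQ => by
    refine (cen_Q fun q hq => (Q_cl hQ hq).resolve_right fun e => hz ?_).resolve_right
      fun e => hz (e ▸ hy)
    have := mul_mem hy (hN.conj_mem _ (inv_mem hy) q)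
    rwa [← mul_assoc, ← mul_assoc, e, show xz * (q * y) * y⁻¹ * q⁻¹ = xz by group] at this
  refine h (eq_bot_iff.2 fun n hn => (cen_Q fun q hq => ?_).resolve_right fun e => hz (e ▸ hn))
  have := k (n * q * n⁻¹ * q⁻¹) (by simpa only [mul_assoc] using mul_mem hn (hN.conj_mem _ (inv_mem hn) q))
    (mul_mem (Q_normal.conj_mem q hq n) (inv_mem hq))
  rwa [mul_inv_eq_one, mul_inv_eq_iff_eq_mul] at this

/-- A `2`-subgroup normalised by `S` lies in `S`. -/
theorem le_S_of_two {N : Subgroup X} (hp : IsPGroup 2 N) (hn : S ≤ normalizer (N : Set X)) :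
    N ≤ S := by
  have := finX
  have := Fact.mk Nat.prime_two
  obtain ⟨k, hk⟩ := IsPGroup.iff_card.1 (hp.to_sup_of_normal_left' S_p hn)
  have e : S = N ⊔ S := eq_of_le_of_card_ge le_sup_right (by
    rw [hk, card_S]
    refine Nat.pow_le_pow_right (by norm_num) (not_lt.1 fun r => ?_)
    have := ((pow_dvd_pow 2 r).trans (hk ▸ card_subgroup_dvd_card _)).trans card_X.dvd
    revert this; norm_num)
  exact e ▸ le_sup_left

theorem pCore_X : Cfsg.pCore 2 X = Q := by
  have := finX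
  have := Fact.mk Nat.prime_two
  refine le_antisymm (fun x hx => ?_) (H2.le_pCore (S_p.to_le Q_le))
  have k : Cfsg.pCore 2 X ≤ S := le_S_of_two (H2.pCore_isPGroup 2 X) (le_normalizer_of_normal)
  have k2 : ∀ g : X, g * x * g⁻¹ ∈ S := fun g => k (Subgroup.Normal.conj_mem inferInstance x hx g)
  have := impB_iff.1 (S_all (p := fun q => impB (allB (fun g : ℕ × ℕ =>
    inB 30840801 (m5 (m5r g.1 q.1) g.2)) ([xm, xn, xm * xn, xn * xm].map fun g => (g.c, (g⁻¹).c)))
      (inB 31389665 q.1)) (by decide +kernel) (k hx)) (allB_iff.2 fun g hg => by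
    obtain ⟨g, -, rfl⟩ := List.mem_map.1 hg
    simp only [mul_c'', mul_c']
    exact mem_S.1 (k2 g))
  exact mem_Q.2 this

theorem sq_of {H : Subgroup X} (hS : H ≤ S) {M : ℕ} (h : ∀ {x}, x ∈ H ↔ inB M x.c = true)
    (e : allB (fun q : ℕ × ℕ => impB (inB M q.1) (sqB q.1)) SP = true) {x : X} (hx : x ∈ H) :
    x * x = 1 := sqB_iff.1 (impB_iff.1 (S_all e (hS hx)) (h.1 hx))

theorem sq_E1 {x : X} (hx : x ∈ E1) : x * x = 1 := sq_of E1_le mem_E1 (by decide +kernel) hx
theorem sq_E2 {x : X} (hx : x ∈ E2) : x * x = 1 := sq_of E2_le mem_E2 (by decide +kernel) hx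

/-- The elementary abelian subgroups of order at least `64` of `S`. -/
theorem eq_E {Y : Subgroup X} (hS : Y ≤ S) (h2 : ∀ y ∈ Y, y * y = 1) (h : 64 ≤ Nat.card Y) :
    Y = E1 ∨ Y = E2 := by
  have := finX
  have cm : ∀ x ∈ Y, ∀ y ∈ Y, x * y = y * x := fun x hx y hy => by
    rw [eq_inv_of_mul_eq_one_left (h2 _ (mul_mem hx hy)), mul_inv_rev,
      ← eq_inv_of_mul_eq_one_left (h2 x hx), ← eq_inv_of_mul_eq_one_left (h2 y hy)]
  have k : ∀ y ∈ Y, y ∈ E1 ∨ y ∈ E2 := fun y hy => by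
    have := impB_iff.1 (S_all (p := fun y => impB (sqB y.1) (orB (inB 33527781 y.1)
      (orB (inB 32946157 y.1) (Nat.ble (cnt (fun x : ℕ × ℕ => andB (sqB x.1) (cmB x.1 y.1)) SP) 63))))
      (by decide +kernel) (hS hy)) (sqB_iff.2 (h2 y hy))
    rw [orB_iff, orB_iff, ← mem_E1, ← mem_E2, ← or_assoc] at this
    refine this.resolve_right fun e => ?_
    have := card_le_cnt (f := fun a : Y => a.1) Subtype.val_injective
      (p := fun x : ℕ × ℕ => andB (sqB x.1) (cmB x.1 y.c)) fun a =>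
        ⟨mem_SP (hS a.2), andB_iff.2 ⟨sqB_iff.2 (h2 _ a.2), cmB_iff.2 (cm _ a.2 y hy)⟩⟩
    exact absurd ((h.trans this).trans (Nat.le_of_ble_eq_true e)) (by norm_num)
  by_cases h1 : Y ≤ E1
  · exact Or.inl (eq_of_le_of_card_ge h1 (card_E1 ▸ h))
  · obtain ⟨y, hy, n⟩ := SetLike.not_le_iff_exists.1 h1
    refine Or.inr (eq_of_le_of_card_ge (fun x hx => (k x hx).elim (fun e => ?_) id) (card_E2 ▸ h))
    exact (mul_mem_cancel_right ((k y hy).resolve_left n)).1
      ((k _ (mul_mem hx hy)).resolve_left fun r => n ((mul_mem_cancel_left e).1 r))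

end H38.He
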