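import Cfsg.Agent.H38.KLIdx
import Cfsg.Agent.H53.CKMain

/-! KL-AF: rank three on points, `2`-transitive on every line. -/

set_option autoImplicit false
set_option linter.unusedSectionVars false

namespace H38.KL

open Module Submodule H53.CK H51.KL

universe u v

theorem dcount {α β : Type*} [Finite α] [Finite β] (s : Set α) (t : Set β) (r : α → β → Prop)
    {m n : ℕ} (hm : ∀ a ∈ s, {b ∈ t | r a b}.ncard = m) (hn : ∀ b ∈ t, {a ∈ s | r a b}.ncard = n) :
    s.ncard * m = t.ncard * n := by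
  classical
  rw [Set.ncard_eq_toFinset_card s, Set.ncard_eq_toFinset_card t]
  refine Finset.card_mul_eq_card_mul r (fun a ha => ?_) fun b hb => ?_
  · rw [← hm a (by simpa using ha), Set.ncard_eq_toFinset_card]
    congr 1; ext; simp
  · rw [← hn b (by simpa using hb), Set.ncard_eq_toFinset_card]
    congr 1; ext; simp

theorem af_arith {q n w c : ℕ} (hq : 2 ≤ q)
    (h : (q ^ w - q ^ 1) * (q ^ w - q ^ (w - 1)) = (q ^ n - q ^ w) * (q ^ c - q ^ 0)) (h1 : 2 ≤ w)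
    (h2 : w < n) (h3 : c + 1 = w ∨ c + 2 = w) : w + 1 = n ∨ (c = 1 ∧ w = 3 ∧ n = 5) := by
  have le : ∀ {a b : ℕ}, a ≤ b → q ^ a ≤ q ^ b := Nat.pow_le_pow_right (by omega)
  have inj : ∀ {a b : ℕ}, (q : ℤ) ^ a = q ^ b → a = b := fun e =>
    Nat.pow_right_injective hq (by exact_mod_cast e)
  obtain ⟨r, rfl⟩ := Nat.exists_eq_add_of_lt h2
  zify [le (show 1 ≤ w by omega), le (show w - 1 ≤ w by omega), le h2.le, le (Nat.zero_le c)] at h
  have q2 : (2 : ℤ) ≤ q := by exact_mod_cast hq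
  have p0 : ∀ a : ℕ, (0 : ℤ) < q ^ a := fun a => by positivity
  have le' : ∀ {a b : ℕ}, a ≤ b → (q : ℤ) ^ a ≤ q ^ b := fun e => by exact_mod_cast le e
  rcases h3 with rfl | rfl
  · left
    have a1 : (q : ℤ) ^ 1 ≤ q ^ c := le' (by omega)
    have : (q : ℤ) ^ (c + 1) * (q ^ c - 1) * (q ^ (r + 1) - q ^ 1) = 0 := by
      rw [Nat.add_sub_cancel] at h; linear_combination -h
    have := inj (sub_eq_zero.1 ((mul_eq_zero.1 this).resolve_left
      (mul_ne_zero (p0 _).ne' (by nlinarith))))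
    omega
  · have e : ((q : ℤ) * q ^ c - 1) * (q - 1) = (q * q ^ r - 1) * (q ^ c - 1) :=
      mul_left_cancel₀ (p0 (c + 2)).ne' (by
        rw [show c + 2 - 1 = c + 1 from rfl] at h; linear_combination h)
    rcases Nat.eq_zero_or_pos r with rfl | r0
    · exact .inl rfl
    have b1 : (q : ℤ) ^ 1 ≤ q ^ r := le' r0
    obtain rfl | rfl | c2 : c = 0 ∨ c = 1 ∨ 2 ≤ c := by omega
    · nlinarith
    · have : (q : ℤ) ^ r = q ^ 1 := mul_left_cancel₀ (show (q : ℤ) * (q - 1) ≠ 0 by nlinarith)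
        (by linear_combination -e)
      obtain rfl := inj this
      exact .inr ⟨rfl, rfl, rfl⟩
    · have a1 : (q : ℤ) ^ 2 ≤ q ^ c := le' c2
      have : ((q : ℤ) * q - 1) * (q ^ c - 1) ≤ (q * q ^ r - 1) * (q ^ c - 1) :=
        mul_le_mul_of_nonneg_right (by nlinarith) (by nlinarith)
      have : ((q : ℤ) - 1) * (q ^ c - q) ≤ 0 := by nlinarith
      nlinarith

variable {F : Type u} [Field F] [Finite F] {V : Type v} [AddCommGroup V] [Module F V]
  [FiniteDimensional F V] {K : Subgroup (V ≃ₗ[F] V)} {D : V → V → Prop} {x y z x' y' z' : V}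
  {g : V ≃ₗ[F] V} {w : ℕ}

theorem span_eq2 (h : Ind F x y) (h' : Ind F x' y') (h1 : x' ∈ span F {x, y})
    (h2 : y' ∈ span F {x, y}) : span F {x', y'} = span F {x, y} :=
  eq_of_le_of_finrank_eq (span_le.2 (Set.pair_subset h1 h2)) ((rk2 h').trans (rk2 h).symm)

theorem lm (x y : V) : x ∈ span F {x, y} := subset_span (by simp)
theorem rm (x y : V) : y ∈ span F {x, y} := subset_span (by simp)

theorem D_iff (L : LC K D) (hg : g ∈ K) (h : Ind F x y) (h' : Ind F x' y')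
    (h1 : g x ∈ span F {x', y'}) (h2 : g y ∈ span F {x', y'}) : D x y ↔ D x' y' := by
  have e := span_eq2 h' (h.map g) h1 h2
  refine ⟨fun d => L.congr _ _ _ _ (L.map g hg _ _ d) h' (e ▸ lm _ _) (e ▸ rm _ _), fun d => ?_⟩
  simpa only [inv_app] using L.map _ (K.inv_mem hg) _ _ (L.congr _ _ _ _ d (h.map g) h1 h2)

theorem pr_of_iff (L : LC K D) (hD : ∀ x y x' y', D x y → D x' y' → PrEq K x y x' y')
    (h : Ind F x y) (h' : Ind F x' y') (e : D x y ↔ D x' y') : PrEq K x y x' y' := by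
  by_cases d : D x y
  · exact hD _ _ _ _ d (e.1 d)
  · exact L.out _ _ _ _ h d h' (mt e.2 d)

theorem af_of (mom : JobMom.{u, v}) (hs : Sc K) (pt : PT K) (L : LC K D)
    (hD : ∀ x y x' y', D x y → D x' y' → PrEq K x y x' y') : AF K := by
  intro x x' φ φ' h h'
  have hx : x ≠ 0 := fun e => by simp [e] at h
  obtain ⟨k, hk, rfl⟩ := pt x x' hx fun e => by simp [e] at h'
  obtain ⟨a, b, d1⟩ := L.ex
  obtain ⟨a', b', i2, d2⟩ := L.ex'
  obtain ⟨g, hg, rfl⟩ := pt a x (L.ind _ _ d1).1 hx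
  obtain ⟨g', hg', e⟩ := pt a' _ i2.1 hx
  replace d1 := L.map g hg _ _ d1
  have i1 := L.ind _ _ d1
  have i3 : Ind F (g a) (g' b') := e ▸ i2.map g'
  replace d2 : ¬ D (g a) (g' b') := mt (D_iff L hg' i2 i3 (e ▸ lm _ _) (rm _ _)).2 d2
  have mv : ∀ {y y'}, Ind F (g a) y → Ind F (g a) y' → (D (g a) y ↔ D (g a) y') →
      ∃ t ∈ stab K (g a), t y = y' := fun {y y'} i i' e => by
    obtain ⟨t, ht, t1, t2⟩ := pr_of_iff L hD i i' e
    obtain ⟨c, t2⟩ := mem_span_singleton.1 t2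
    have c0 : c ≠ 0 := fun e => (i.map t).symm.1 (by rw [← t2, e, zero_smul])
    obtain ⟨s, hs, s1⟩ := hs.stab (g a) c⁻¹ (inv_ne_zero c0)
    exact ⟨s * t, Subgroup.mul_mem _ hs (mem_stab.2 ⟨ht, t1⟩), by
      rw [LinearEquiv.mul_apply, s1, ← t2, inv_smul_smul₀ c0]⟩
  have nc : ∀ {y y'}, Ind F (g a) y → Ind F (g a) y' → ∀ t ∈ stab K (g a),
      t y ∈ span F {g a, y'} → (D (g a) y ↔ D (g a) y') := fun i i' t ht e =>
    D_iff L (mem_stab.1 ht).1 i i' (span_mono (by simp) (mem_stab.1 ht).2) e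
  obtain ⟨f, -, hf⟩ := (mom F V _ hx).1 (stab K (g a)) 2 2 1 (hs.stab _)
    (fun t ht => (mem_stab.1 ht).2) rfl ⟨![g b, g' b'], fun i => by fin_cases i; exacts [i1.2, i3.2],
      fun i j t ht e => by
        fin_cases i <;> fin_cases j
        exacts [rfl, (d2 ((nc i1 i3 t ht e).1 d1)).elim, (d2 ((nc i3 i1 t ht e).2 d1)).elim, rfl]⟩
    ⟨![g b, g' b'], fun y hy => by
      by_cases d : D (g a) y
      · exact ⟨0, mv i1 ⟨hx, hy⟩ (iff_of_true d1 d)⟩
      · exact ⟨1, mv i3 ⟨hx, hy⟩ (iff_of_false d2 d)⟩⟩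
  obtain ⟨i, s, hs, s1, s2⟩ := hf φ h
  obtain ⟨j, t, ht, t1, t2⟩ := hf (φ' ∘ₗ (k : V →ₗ[F] V)) h'
  obtain rfl := Subsingleton.elim i j
  refine ⟨k * t⁻¹ * s, K.mul_mem (K.mul_mem hk (K.inv_mem (mem_stab.1 ht).1)) (mem_stab.1 hs).1,
    by rw [LinearEquiv.mul_apply, LinearEquiv.mul_apply, s1, inv_eq t1], fun v => ?_⟩
  rw [← s2, ← app_inv t (s v), t2]; rfl

variable (S : WS K)

theorem W_iff (hg : g ∈ K) : g y ∈ S.W (g x) ↔ y ∈ S.W x :=
  ⟨fun h => by simpa only [inv_app] using S.map _ (K.inv_mem hg) _ _ h, S.map g hg _ _⟩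

theorem W_map (hg : g ∈ K) (hx : x ≠ 0) (h : g x ∈ F ∙ x') :
    S.W x' = (S.W x).map (g : V →ₗ[F] V) := by
  obtain ⟨c, e⟩ := mem_span_singleton.1 h
  rw [← S.smul c x' fun h => hx (g.injective (by rw [← e, h, zero_smul, map_zero])), e]
  ext v
  rw [mem_map_equiv, ← W_iff S hg (y := g.symm v), g.apply_symm_apply]

theorem W_sp (h : y ∈ F ∙ x) : y ∈ S.W x := (span_singleton_le_iff_mem _ _).2 (S.self x) h

theorem W_ind (hx : x ≠ 0) (h : y ∉ S.W x) : Ind F x y := ⟨hx, fun e => h (W_sp S e)⟩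

theorem in_iff (L : LC K D) (h : Ind F x y) (h' : Ind F x' y') (m : y ∈ S.W x) (m' : y' ∈ S.W x') :
    D x y ↔ D x' y' := by
  obtain ⟨φ, a, b⟩ := H62.exists_dual_pair h.2
  obtain ⟨φ', a', b'⟩ := H62.exists_dual_pair h'.2
  obtain ⟨g, hg, c, e1, e2, -⟩ := S.key x y x' y' φ φ' h.1 h'.1 m m' b a b' a'
  exact D_iff L hg h h' (e1 ▸ smul_mem _ _ (lm _ _)) (e2 ▸ rm _ _)

theorem out_rk (L : LC K D) (hD : ∀ x y x' y', D x y → D x' y' → PrEq K x y x' y') (hx : x ≠ 0)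
    (hx' : x' ≠ 0) (m : y ∉ S.W x) (m' : y' ∉ S.W x') :
    finrank F ↥(S.W x' ⊓ S.W y') = finrank F ↥(S.W x ⊓ S.W y) := by
  obtain ⟨b, hb, i⟩ := S.nt x hx
  have k : ∀ {x' y'}, x' ≠ 0 → y' ∉ S.W x' → ¬ (D x b ↔ D x' y') := fun {x' y'} h m e => by
    obtain ⟨g, hg, e1, e2⟩ := pr_of_iff L hD ⟨hx, i⟩ (W_ind S h m) e
    obtain ⟨c, e2⟩ := mem_span_singleton.1 e2
    have c0 : c ≠ 0 := fun e => (Ind.map ⟨hx, i⟩ g).symm.1 (by rw [← e2, e, zero_smul])
    exact m ((smul_mem_iff _ c0).1 (e2 ▸ W_map S hg hx e1 ▸ mem_map_of_mem hb))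
  obtain ⟨g, hg, e1, e2⟩ := pr_of_iff L hD (W_ind S hx m) (W_ind S hx' m')
    (by have := k hx m; have := k hx' m'; tauto)
  rw [W_map S hg hx e1, W_map S hg (W_ind S hx m).symm.1 e2, ← map_inf _ g.injective,
    LinearEquiv.finrank_map_eq]

theorem back (h : Ind3 F x y z) (h' : Ind3 F x' y' z')
    (e : ∀ v ∈ span F {x, y, z}, g v ∈ span F {x', y', z'}) :
    ∀ v ∈ span F {x', y', z'}, g⁻¹ v ∈ span F {x, y, z} := fun v hv => by
  have l : (span F {x, y, z}).map (g : V →ₗ[F] V) ≤ span F {x', y', z'} := map_le_iff_le_comap.2 e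
  rw [← eq_of_le_of_finrank_eq l (by rw [LinearEquiv.finrank_map_eq, rk3 h, rk3 h'])] at hv
  exact (mem_map_equiv _).1 hv

theorem f4_of (h2 : Nat.card F = 2) (hr : ∀ x, x ≠ 0 → finrank F (S.W x) = 2) (ω : V →ₗ[F] V)
    (hω : ∀ y, ω y ∈ S.W y ∧ ω (ω y) + ω y + y = 0) : F4 K := by
  have hF : ∀ c : F, c = 0 ∨ c = 1 := fun c => by
    obtain ⟨y, -, hy⟩ := (Nat.card_eq_two_iff' (0 : F)).1 h2
    by_cases hc : c = 0
    · exact .inl hc
    · exact .inr ((hy c hc).trans (hy 1 one_ne_zero).symm)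
  have hv : ∀ v : V, v + v = 0 := fun v => by
    rw [← one_smul F v, ← add_smul, (hF (1 + 1)).resolve_right (by simp), zero_smul]
  have ind : ∀ y, y ≠ 0 → Ind F y (ω y) := fun y hy => ⟨hy, fun e => hy (by
    obtain ⟨c, e⟩ := mem_span_singleton.1 e
    have := (hω y).2
    rcases hF c with rfl | rfl
    · rwa [← e, zero_smul, map_zero, zero_add, zero_add] at this
    · rw [one_smul] at e
      rwa [← e, ← e, hv, zero_add] at this)⟩
  refine ⟨h2, ω, fun y => (hω y).2, fun g hg y => ?_⟩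
  rcases eq_or_ne y 0 with rfl | hy
  · simp
  have i := (ind y hy).map g
  have m := S.map g hg _ _ (hω y).1
  rw [← eq_of_le_of_finrank_eq (span_le.2 (Set.pair_subset (S.self _) (hω (g y)).1))
    ((rk2 (ind _ i.1)).trans (hr _ i.1).symm)] at m
  obtain ⟨a, b, e⟩ := mem_span_pair.1 m
  rcases hF b with rfl | rfl
  · exact (i.2 (mem_span_singleton.2 ⟨a, by rw [← e, zero_smul, add_zero]⟩)).elim
  · rcases hF a with rfl | rfl
    · exact .inl (by rw [← e, zero_smul, zero_add, one_smul])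
    · refine .inr ?_
      rw [← e, one_smul, one_smul]
      linear_combination (norm := abel1) (hω (g y)).2 - hv (ω (ω (g y)))

theorem exists_z (hr : ∀ x, x ≠ 0 → finrank F (S.W x) = w) (hn : w + 3 ≤ finrank F V)
    (i : Ind F x y) : ∃ z, ∀ u ∈ span F {x, y}, u ≠ 0 → z ∉ S.W u ⊔ span F {x, y} := by
  have := finV F V
  have := Fintype.ofFinite F
  let T : Option F → Submodule F V := fun o =>
    o.elim (S.W x ⊔ F ∙ y) fun t => S.W (y + t • x) ⊔ F ∙ x
  have q2 : 2 ≤ Nat.card F := Finite.one_lt_card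
  have b : ∀ u v, u ≠ 0 → ((S.W u ⊔ F ∙ v : Submodule F V) : Set V).ncard ≤ Nat.card F ^ (w + 1) :=
    fun u v hu => by
      rw [ncard_sub]
      refine Nat.pow_le_pow_right (by omega) ((finrank_add_le_finrank_add_finrank _ _).trans ?_)
      rw [hr u hu]
      exact Nat.add_le_add_left (by simpa using finrank_span_le_card (R := F) ({v} : Set V)) _
  by_contra hz
  push Not at hz
  have e : (Set.univ : Set V) ⊆ ⋃ o, (T o : Set V) := fun z _ => by
    obtain ⟨u, hu, u0, m⟩ := hz z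
    obtain ⟨s, t, rfl⟩ := mem_span_pair.1 hu
    rcases eq_or_ne t 0 with rfl | t0
    · rw [zero_smul, add_zero] at u0 m
      rw [S.smul s x (left_ne_zero_of_smul u0), span_pair, ← sup_assoc,
        sup_eq_left.2 ((span_singleton_le_iff_mem _ _).2 (S.self x))] at m
      exact Set.mem_iUnion.2 ⟨none, m⟩
    · rw [show s • x + t • y = t • (y + (t⁻¹ * s) • x) by
        rw [smul_add, smul_smul, mul_inv_cancel_left₀ t0, add_comm], S.smul t _ t0] at m
      refine Set.mem_iUnion.2 ⟨some (t⁻¹ * s), (sup_le le_sup_left (span_le.2 (Set.pair_subset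
        (self_mem _ _) ?_)) : _ ≤ T (some _)) m⟩
      simpa [T] using sub_mem (mem_sup_left (S.self (y + (t⁻¹ * s) • x)))
        (smul_mem _ (t⁻¹ * s) (self_mem (S.W (y + (t⁻¹ * s) • x)) x))
  have h1 := (Set.ncard_le_ncard e).trans (Set.ncard_iUnion_le_of_fintype _)
  have h2 : ∑ o, (T o : Set V).ncard ≤ _ := Finset.sum_le_card_nsmul _ _ (Nat.card F ^ (w + 1))
    fun o _ => by
      rcases o with _ | t
      · exact b _ _ i.1
      · exact b _ _ fun e => i.2 (eq_neg_of_add_eq_zero_left e ▸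
          neg_mem (smul_mem _ _ (mem_span_singleton_self x)))
  rw [Finset.card_univ, Fintype.card_option, ← Nat.card_eq_fintype_card, smul_eq_mul] at h2
  rw [Set.ncard_univ, Module.natCard_eq_pow_finrank (K := F)] at h1
  have h3 := (Nat.pow_le_pow_right (n := Nat.card F) (by omega) hn).trans (h1.trans h2)
  rw [show w + 3 = 2 + (w + 1) by omega, pow_add] at h3
  have := Nat.le_of_mul_le_mul_right h3 (by positivity)
  nlinarith

theorem pl3_of (hr : ∀ x, x ≠ 0 → finrank F (S.W x) = w) (h3 : 3 ≤ w) (hn : w + 3 ≤ finrank F V)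
    (hb : ∀ x y, y ≠ 0 → y ∈ S.W x → S.W y = S.W x) : Pl3 K := by
  obtain ⟨x, hx⟩ := exists_notMem (U := (⊥ : Submodule F V)) (by rw [finrank_bot]; omega)
  obtain ⟨y, hy⟩ := exists_notMem (U := S.W x) (by rw [hr x hx]; omega)
  obtain ⟨a, ha, i⟩ := S.nt x hx
  replace i : Ind F x a := ⟨hx, i⟩
  obtain ⟨b, hb', j⟩ := H62.exists_mem_notMem (W := S.W x) (Z := span F {x, a})
    (by rw [rk2 i, hr x hx]; omega)
  have i' := W_ind S hx hy
  obtain ⟨z, hz⟩ := exists_z S hr hn i'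
  have l2 : span F {x, a} ≤ S.W x := span_le.2 (Set.pair_subset (S.self x) ha)
  have j1 : Ind3 F x a y := ⟨i, fun e => hy (l2 e)⟩
  have j2 : Ind3 F x y z := ⟨i', fun e => hz x (lm _ _) hx (mem_sup_right e)⟩
  have n0 : ∀ g ∈ K, ∀ E : Submodule F V, x ∈ E → y ∈ E →
      ¬ ∀ v ∈ E, g v ∈ span F {x, a, b} := fun g hg E h1 h2 e => by
    have l : span F {x, a, b} ≤ S.W x := by
      rw [span_triple]; exact sup_le l2 ((span_singleton_le_iff_mem _ _).2 hb')
    exact hy ((W_iff S hg).1 ((hb x _ (i.map g).1 (l (e x h1))).symm ▸ l (e y h2)))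
  have n2 : ∀ g ∈ K, ∀ E : Submodule F V, x ∈ E → a ∈ E →
      ¬ ∀ v ∈ E, g v ∈ span F {x, y, z} := fun g hg E h1 h2 e => by
    have m := S.map g hg _ _ ha
    have k := i.map g
    have e1 := e x h1
    have e2 := e a h2
    rw [span_triple] at e1 e2
    obtain ⟨c, hc, _, h1, e1⟩ := mem_sup.1 e1
    obtain ⟨d, hd, _, h2, e2⟩ := mem_sup.1 e2
    obtain ⟨s, rfl⟩ := mem_span_singleton.1 h1
    obtain ⟨t, rfl⟩ := mem_span_singleton.1 h2
    have um : t • g x - s • g a ∈ span F {x, y} := by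
      rw [← e1, ← e2, show t • (c + s • z) - s • (d + t • z) = t • c - s • d by module]
      exact sub_mem (smul_mem _ _ hc) (smul_mem _ _ hd)
    have uw : t • g x - s • g a ∈ S.W (g x) := sub_mem (smul_mem _ _ (S.self _)) (smul_mem _ _ m)
    have fin : ∀ {r : F} {p c : V}, r ≠ 0 → c ∈ span F {x, y} → c + r • z = p → p ∈ S.W (g x) →
        t • g x - s • g a = 0 := fun r0 hc e hp => by
      by_contra u0
      refine hz _ um u0 ((smul_mem_iff _ r0).1 ?_)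
      rw [hb _ _ u0 uw, eq_sub_of_add_eq' e]
      exact sub_mem (mem_sup_left hp) (mem_sup_right hc)
    rcases eq_or_ne s 0 with rfl | s0
    · rcases eq_or_ne t 0 with rfl | t0
      · rw [zero_smul, add_zero] at e1 e2
        have l : span F {x, y} ≤ S.W (g x) := span_eq2 i' k (e1 ▸ hc) (e2 ▸ hd) ▸
          span_le.2 (Set.pair_subset (S.self _) m)
        exact hy ((hb _ _ hx (l (lm _ _))).symm ▸ l (rm _ _))
      · exact hx (by simpa [t0] using fin t0 hd e2 m)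
    · exact k.2 ((smul_mem_iff _ s0).1
        (sub_eq_zero.1 (fin s0 hc e1 (S.self _)) ▸ smul_mem _ _ (mem_span_singleton_self _)))
  have m1 : ∀ a b c : V, a ∈ span F {a, b, c} := fun _ _ _ => subset_span (by simp)
  have m2 : ∀ a b c : V, b ∈ span F {a, b, c} := fun _ _ _ => subset_span (by simp)
  have m3 : ∀ a b c : V, c ∈ span F {a, b, c} := fun _ _ _ => subset_span (by simp)
  refine ⟨![x, x, x], ![a, a, y], ![b, y, z], fun i => ?_, fun i j g hg e => ?_⟩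
  · fin_cases i
    exacts [⟨i, j⟩, j1, j2]
  · fin_cases i <;> fin_cases j
    exacts [rfl, (n0 _ (K.inv_mem hg) _ (m1 _ _ _) (m3 _ _ _) (back ⟨‹_›, ‹_›⟩ j1 e)).elim,
      (n2 g hg _ (m1 _ _ _) (m2 _ _ _) e).elim, (n0 g hg _ (m1 _ _ _) (m3 _ _ _) e).elim, rfl,
      (n2 g hg _ (m1 _ _ _) (m2 _ _ _) e).elim, (n0 g hg _ (m1 _ _ _) (m2 _ _ _) e).elim,
      (n2 _ (K.inv_mem hg) _ (m1 _ _ _) (m2 _ _ _) (back j2 j1 e)).elim, rfl]

omit S in
theorem jobAF : JobAF.{u, v} := by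
  intro mom F _ _ V _ _ _ K D hs pt hn L hD
  have af := af_of mom hs pt L hD
  have := finV F V
  obtain ⟨S⟩ := jobs.ws F V K hs af (by omega)
  obtain ⟨w, hw⟩ := jobs.wf F V K S hs af (by omega)
  obtain ⟨x, y₀, d⟩ := L.ex
  have hx := (L.ind _ _ d).1
  have wn : w < finrank F V := by
    refine ((hw.rk x hx) ▸ finrank_le _).lt_of_ne fun e => ?_
    have t : ∀ a b, a ≠ 0 → b ∈ S.W a := fun a b ha =>
      eq_top_of_finrank_eq ((hw.rk a ha).trans e) ▸ mem_top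
    obtain ⟨a, b, i, n⟩ := L.ex'
    exact n ((in_iff S L (L.ind _ _ d) i (t _ _ hx) (t _ _ i.1)).1 d)
  obtain ⟨y, hy⟩ := exists_notMem (U := S.W x) (by rwa [hw.rk x hx])
  have hy0 := (W_ind S hx hy).symm.1
  rcases hw.dich with hb | hc
  · have e := finrank_sup_add_finrank_inf_eq (S.W x) (S.W y)
    rw [show S.W x ⊓ S.W y = ⊥ from eq_bot_iff.2 fun z hz => by_contra fun z0 =>
      hy (hb _ _ z0 hz.1 ▸ (hb _ _ z0 hz.2).symm ▸ S.self y), finrank_bot, hw.rk x hx, hw.rk y hy0] at e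
    have := finrank_le (S.W x ⊔ S.W y)
    by_cases h2 : 2 * w < finrank F V
    · obtain ⟨q2, rfl, ω, hω⟩ := jobs.b1 F V K S w hw.rk hb h2
      exact .inr (.inl (f4_of S q2 hw.rk ω hω))
    · exact .inr (.inr (pl3_of S hw.rk (by omega) (by omega) hb))
  have oc : ∀ x' y', x' ≠ 0 → y' ∉ S.W x' → finrank F ↥(S.W x' ⊓ S.W y') = _ := fun x' y' h h' =>
    out_rk S L hD hx h hy h'
  generalize finrank F ↥(S.W x ⊓ S.W y) = c at oc
  obtain ⟨a, ha, i⟩ := S.nt x hx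
  have a0 := (Ind.symm ⟨hx, i⟩).1
  have w2 : 2 ≤ w := rk2 ⟨hx, i⟩ ▸ hw.rk x hx ▸
    finrank_mono (span_le.2 (Set.pair_subset (S.self x) ha))
  have cnt := dcount ((S.W x : Set V) \ (F ∙ x : Submodule F V)) (((⊤ : Submodule F V) : Set V) \ S.W x)
    (fun z y => y ∈ S.W z) (m := Nat.card F ^ w - Nat.card F ^ (w - 1))
    (n := Nat.card F ^ c - Nat.card F ^ 0) (fun z hz => by
      have := hc x z hx hz.1 hz.2
      rw [← hw.rk z (Ind.symm ⟨hx, hz.2⟩).1, show finrank F (S.W z) - 1 = finrank F ↥(S.W x ⊓ S.W z) by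
        rw [hw.rk z (Ind.symm ⟨hx, hz.2⟩).1]; omega, ← ncard_sdiff inf_le_right]
      congr 1; ext; simp; tauto) fun y hy => by
      rw [← oc x y hx hy.2, ← finrank_bot F V, ← ncard_sdiff bot_le]
      congr 1; ext z
      refine ⟨fun h => ⟨⟨h.1.1, S.symm _ _ (W_ind S hx hy.2).symm.1 h.2⟩, (Ind.symm ⟨hx, h.1.2⟩).1⟩,
        fun h => ⟨⟨h.1.1, fun e => hy.2 ?_⟩, S.symm _ _ h.2 h.1.2⟩⟩
      obtain ⟨s, rfl⟩ := mem_span_singleton.1 e
      exact S.smul s x (left_ne_zero_of_smul h.2) ▸ S.symm _ _ h.2 h.1.2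
  rw [ncard_sdiff ((span_singleton_le_iff_mem _ _).2 (S.self x)), ncard_sdiff le_top, finrank_top,
    hw.rk x hx, finrank_span_singleton hx] at cnt
  have c1 : c < w := oc x y hx hy ▸ hw.rk y hy0 ▸ finrank_lt_finrank_of_lt
    (inf_le_right.lt_of_ne fun e => hy (inf_eq_right.1 e (S.self y)))
  have c2 : w ≤ c + 2 := by
    have e1 := hc x a hx ha i
    obtain ⟨b, hb, nb⟩ := H62.exists_mem_notMem (W := S.W x) (Z := S.W x ⊓ S.W a)
      (by rw [hw.rk x hx]; omega)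
    replace nb : b ∉ S.W a := fun e => nb ⟨hb, e⟩
    have e2 := hc x b hx hb fun e =>
      nb ((span_singleton_le_iff_mem _ _).2 (S.symm _ _ a0 ha) e)
    have e3 := finrank_sup_add_finrank_inf_eq (S.W x ⊓ S.W a) (S.W x ⊓ S.W b)
    have e4 := finrank_mono (sup_le inf_le_left inf_le_left : S.W x ⊓ S.W a ⊔ S.W x ⊓ S.W b ≤ _)
    have e5 := finrank_mono (inf_le_inf inf_le_right inf_le_right :
      S.W x ⊓ S.W a ⊓ (S.W x ⊓ S.W b) ≤ _)
    rw [oc a b a0 nb] at e5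
    rw [hw.rk x hx] at e4
    omega
  rcases af_arith Finite.one_lt_card cnt w2 wn (by omega) with e | ⟨rfl, rfl, e⟩
  · exact .inl ⟨S.W, fun x hx => (hw.rk x hx).symm ▸ e, S.self, fun x y _ => S.symm x y,
      fun g hg x y _ => S.map g hg x y⟩
  · exact (jobs.pent F V S.W e S.self S.smul (fun x y _ => S.symm x y) hw.rk
      (fun x y h1 h2 h3 => by have := hc x y h1 h2 h3; omega) oc).elim

end H38.KL
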