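import Cfsg.Agent.H38.KLIdx

/-! KL tower: job DC (numbers of double cosets). -/

set_option autoImplicit false

namespace H38.KL

open Module Submodule H53.CK H51.KL

universe u v

section grp

variable {G : Type*} [Group G] {S A B : Subgroup G} {g : G}

/-- the double coset of `g` -/
def cl (A B : Subgroup G) (g : G) : Set G := {g' | DC A B g g'}

theorem ncard_image_eq {α β γ : Type*} {s : Set α} (f : α → β) (k : α → γ)
    (h : ∀ a ∈ s, ∀ b ∈ s, f a = f b ↔ k a = k b) : (f '' s).ncard = (k '' s).ncard := by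
  refine Set.ncard_congr (fun b hb => k hb.choose) (fun b hb => ⟨_, hb.choose_spec.1, rfl⟩)
    (fun b b' hb hb' e => ?_) ?_
  · rw [← hb.choose_spec.2, ← hb'.choose_spec.2]
    exact (h _ hb.choose_spec.1 _ hb'.choose_spec.1).2 e
  · rintro _ ⟨a, ha, rfl⟩
    have hb : f a ∈ f '' s := ⟨a, ha, rfl⟩
    exact ⟨f a, hb, (h _ hb.choose_spec.1 _ ha).1 hb.choose_spec.2⟩

theorem dc_le_card (κ : G → ℕ) (s : Finset ℕ) (h1 : ∀ g ∈ S, κ g ∈ s)
    (h2 : ∀ g ∈ S, ∀ g' ∈ S, κ g = κ g' → DC A B g g') : dc S A B ≤ s.card := by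
  have : ∀ i, ∃ k : G, ∀ g ∈ S, κ g = i → DC A B k g := fun i => by
    by_cases e : ∃ k ∈ S, κ k = i
    · obtain ⟨k, hk, e⟩ := e
      exact ⟨k, fun g hg r => h2 k hk g hg (e.trans r.symm)⟩
    · exact ⟨1, fun g hg r => absurd ⟨g, hg, r⟩ e⟩
  choose f hf using this
  refine (Set.ncard_le_ncard (t := (fun i => cl A B (f i)) '' s) ?_ (s.finite_toSet.image _)).trans
    ((Set.ncard_image_le s.finite_toSet).trans_eq (Set.ncard_coe_finset s))
  rintro _ ⟨g, hg, rfl⟩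
  exact ⟨κ g, h1 g hg, setOf_DC_eq.2 (hf _ g hg rfl)⟩

variable [Finite G]

theorem two_le_dc (hg : g ∈ S) (h : ¬ DC A B 1 g) : 2 ≤ dc S A B :=
  le_dc ![1, g] (fun i => by fin_cases i <;> simp [hg]) fun i j e => by
    fin_cases i <;> fin_cases j
    exacts [rfl, absurd e h, absurd e.symm h, rfl]

theorem ncard_cl_union {M N : Set G} (h : ∀ g ∈ M, ∀ g' ∈ N, ¬ DC A B g g') :
    (cl A B '' (M ∪ N)).ncard = (cl A B '' M).ncard + (cl A B '' N).ncard := by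
  rw [Set.image_union, Set.ncard_union_eq (Set.disjoint_left.2 ?_)]
  rintro _ ⟨g, hg, rfl⟩ ⟨g', hg', e⟩
  exact h g hg g' hg' (setOf_DC_eq.1 e).symm

theorem ncard_cl_one {N : Set G} (hg : g ∈ N) (h : ∀ g' ∈ N, DC A B g g') :
    (cl A B '' N).ncard = 1 :=
  Set.ncard_eq_one.2 ⟨cl A B g, Set.eq_singleton_iff_unique_mem.2 ⟨⟨g, hg, rfl⟩, by
    rintro _ ⟨g', hg', rfl⟩; exact setOf_DC_eq.2 (h g' hg').symm⟩⟩

end grp

variable {F : Type u} [Field F] {V : Type v} [AddCommGroup V] [Module F V] [FiniteDimensional F V]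
  {S H H' : Subgroup (V ≃ₗ[F] V)} {A B : Submodule F V} {x y z : V} {a g g' w : V ≃ₗ[F] V}

theorem mem_Pt (hg : g ∈ S) (e : g x ∈ F ∙ x) : g ∈ Pt S x := mem_stabSub.2 ⟨hg, fun _ hv =>
  (span_singleton_le_iff_mem x ((F ∙ x).comap (g : V →ₗ[F] V))).2 e hv⟩

theorem mem_Ln (hg : g ∈ S) (e : g x ∈ span F {x, y}) (e' : g y ∈ span F {x, y}) : g ∈ Ln S x y :=
  mem_stabSub.2 ⟨hg, fun _ hv => (span_le (p := (span F {x, y}).comap (g : V →ₗ[F] V))).2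
    (Set.pair_subset e e') hv⟩

omit [FiniteDimensional F V] in
theorem conj_Rl (ha : a ∈ Ln S x y) (hg : g ∈ Rl S x y) : a * g * a⁻¹ ∈ Rl S x y := by
  obtain ⟨h1, c, h2, h3⟩ := mem_Rl.1 hg
  refine mem_Rl.2 ⟨mul_mem (mul_mem ha.1 h1) (inv_mem ha.1), c, h2, fun v hv => ?_⟩
  rw [LinearEquiv.mul_apply, LinearEquiv.mul_apply, h3 _ (((inv_mem ha).2 v).2 hv), map_smul, app_inv]

variable (hS : AllTv S)
include hS

theorem dc_stab_le (s : Finset ℕ)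
    (h : ∀ B' : Submodule F V, finrank F B' = finrank F B → finrank F ↥(B' ⊓ A) ∈ s) :
    dc S (stabSub S A) (stabSub S B) ≤ s.card := by
  refine dc_le_card (fun g : V ≃ₗ[F] V => finrank F ↥(B.map (g : V →ₗ[F] V) ⊓ A)) s
    (fun g _ => h _ (g.finrank_map_eq B)) fun g hg g' hg' e => ?_
  obtain ⟨k, hk, e⟩ := pair hS e ((g.finrank_map_eq B).trans (g'.finrank_map_eq B).symm)
  refine ⟨k, hk, (k * g)⁻¹ * g', mem_stabSub.2 ⟨mul_mem (inv_mem (mul_mem hk.1 hg)) hg', fun v hv => ?_⟩,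
    by group⟩
  obtain ⟨_, ⟨u, hu, rfl⟩, r⟩ := e.ge ⟨v, hv, rfl⟩
  exact (inv_eq (g := k * g) r).symm ▸ hu

theorem two_le_stab [Finite F] (hx : x ∈ B) (h0 : x ≠ 0) (h : B ≤ A) (hA : finrank F A < finrank F V)
    (hn : 2 ≤ finrank F V) : 2 ≤ dc S (stabSub S A) (stabSub S B) := by
  have := finGL F V
  obtain ⟨v, hv⟩ := exists_notMem hA
  obtain ⟨g, hg, -, e⟩ := st hS (U := ⊥) (b := v) h0 (fun r => hv ((mem_bot F).1 r ▸ A.zero_mem))
    (by rwa [finrank_bot])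
  refine two_le_dc hg ?_
  rintro ⟨a, ha, b, hb, rfl⟩
  exact hv (e ▸ (ha.2 _).2 (h ((hb.2 x).2 hx)))

variable [Finite F] (h : Ind F x y) (hn : 5 ≤ finrank F V)
include h hn

omit [Finite F] in
theorem ln_trans {v : V} (hv : v ∈ span F {x, y}) (h0 : v ≠ 0) : ∃ a ∈ Ln S x y, a x = v := by
  obtain ⟨a, ha, -, e⟩ := stu hS (W := ⊥) bot_le (subset_span (by simp)) hv h.1 h0
    (by rw [finrank_bot]; omega)
  exact ⟨a, ha, e⟩

theorem dc_fl : dc (Ln S x y) (Fl S x y) (Fl S x y) = 2 := by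
  classical
  have := finGL F V
  have hx : x ∈ span F {x, y} := subset_span (by simp)
  refine le_antisymm (dc_le_card (fun g => if g x ∈ F ∙ x then 0 else 1) {0, 1}
    (fun g _ => by split_ifs <;> simp) fun g hg g' hg' e => ?_) ?_
  · by_cases c : g x ∈ F ∙ x <;> by_cases c' : g' x ∈ F ∙ x <;> simp only [c, c'] at e
    · exact ⟨1, one_mem _, g⁻¹ * g', mul_mem (inv_mem ⟨mem_Pt hg.1 c, hg⟩) ⟨mem_Pt hg'.1 c', hg'⟩,
        by group⟩
    · simp at e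
    · simp at e
    obtain ⟨k, hk, k1, k2⟩ := stu hS ((span_singleton_le_iff_mem _ _).2 hx) ((hg.2 x).2 hx)
      ((hg'.2 x).2 hx) c c' (by rw [finrank_span_singleton h.1]; omega)
    have m : (k * g)⁻¹ * g' ∈ Ln S x y := mul_mem (inv_mem (mul_mem hk hg)) hg'
    exact ⟨k, ⟨mem_Pt hk.1 ((k1 x (mem_span_singleton_self x)).symm ▸ mem_span_singleton_self x), hk⟩,
      _, ⟨mem_Pt m.1 ((inv_eq (g := k * g) k2).symm ▸ mem_span_singleton_self x :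
        (k * g)⁻¹ (g' x) ∈ _), m⟩, by group⟩
  · obtain ⟨a, ha, e⟩ := ln_trans hS h hn (v := y) (subset_span (by simp)) h.symm.1
    refine two_le_dc ha ?_
    rintro ⟨c, hc, b, hb, rfl⟩
    exact h.2 (e ▸ (hc.1.2 _).2 ((hb.1.2 x).2 (mem_span_singleton_self x)))

omit [Finite F] in
theorem fix_move {v v' : V} (hv : v ∉ span F {x, y}) (hv' : v' ∉ span F {x, y}) :
    ∃ r ∈ Rl S x y, (∀ u ∈ span F {x, y}, r u = u) ∧ r v = v' := by
  obtain ⟨r, hr, r1, r2⟩ := st hS hv hv' (by rw [rk2 h]; omega)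
  exact ⟨r, mem_Rl.2 ⟨hr, 1, one_ne_zero, fun u hu => (r1 u hu).trans (one_smul F u).symm⟩, r1, r2⟩

theorem dc_pt (h1 : Rl S x y ≤ H) (h2 : H ≤ Ln S x y) :
    dc S H (Pt S x) = dc (Ln S x y) H (Fl S x y) + 1 := by
  have := finGL F V
  have hx : x ∈ span F {x, y} := subset_span (by simp)
  obtain ⟨v, hv⟩ := exists_notMem (U := span F {x, y}) (by rw [rk2 h]; omega)
  obtain ⟨w, hw, -, w1⟩ := st hS (U := ⊥) (b := v) h.1 (fun r => hv ((mem_bot F).1 r ▸ zero_mem _))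
    (by rw [finrank_bot]; omega)
  have e : (S : Set (V ≃ₗ[F] V)) = {g | g ∈ S ∧ g x ∈ span F {x, y}} ∪
      {g | g ∈ S ∧ g x ∉ span F {x, y}} := Set.ext fun g => by
    simp only [Set.mem_union, Set.mem_ofPred_eq, SetLike.mem_coe]; tauto
  change (cl _ _ '' _).ncard = (cl _ _ '' _).ncard + 1
  rw [e, ncard_cl_union, ncard_cl_one (N := {g | g ∈ S ∧ g x ∉ span F {x, y}}) ⟨hw, w1 ▸ hv⟩
    fun g hg => ?_, ← ncard_image_eq (cl H (Pt S x)) (cl H (Fl S x y)) fun g hg g' hg' =>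
      setOf_DC_eq.trans (Iff.trans ?_ setOf_DC_eq.symm)]
  · congr 2
    refine Set.Subset.antisymm ?_ (Set.image_mono fun g hg => ⟨hg.1, (hg.2 x).2 hx⟩)
    rintro _ ⟨g, hg, rfl⟩
    obtain ⟨a, ha, e⟩ := ln_trans hS h hn hg.2 (by simpa using h.1)
    exact ⟨a, ha, setOf_DC_eq.2 ⟨1, one_mem _, a⁻¹ * g, mem_Pt (mul_mem (inv_mem ha.1) hg.1)
      ((inv_eq e).symm ▸ mem_span_singleton_self x : a⁻¹ (g x) ∈ _), by group⟩⟩
  · refine ⟨?_, fun ⟨a, ha, b, hb, e⟩ => ⟨a, ha, b, hb.1, e⟩⟩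
    rintro ⟨a, ha, b, hb, rfl⟩
    exact ⟨a, ha, b, ⟨hb, (Subgroup.mul_mem_cancel_left _ (mul_mem (h2 ha) hg)).1 hg'⟩, rfl⟩
  · obtain ⟨r, hr, -, r2⟩ := fix_move hS h hn hv hg.2
    exact ⟨r, h1 hr, (r * w)⁻¹ * g, mem_Pt (mul_mem (inv_mem (mul_mem hr.1 hw)) hg.1)
      ((inv_eq (g := r * w) (w1 ▸ r2)).symm ▸ mem_span_singleton_self x : (r * w)⁻¹ (g x) ∈ _), by group⟩
  · rintro g hg _ hg' ⟨a, ha, b, hb, rfl⟩
    obtain ⟨c, e⟩ := mem_span_singleton.1 ((hb.2 x).2 (mem_span_singleton_self x))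
    refine hg'.2 (((h2 ha).2 (g (b x))).2 ?_)
    rw [← e, map_smul]
    exact smul_mem _ _ hg.2

omit [Finite F] in
/-- the elements fixing the point `x` and moving the line -/
theorem rwr (hw : w ∈ S) (w1 : w x = x) (w2 : w y ∉ span F {x, y}) (hg : g ∈ S) (g1 : g x ∈ F ∙ x)
    (g2 : g y ∉ span F {x, y}) : ∃ r ∈ Rl S x y, ∃ r' ∈ Rl S x y, g = r * w * r' := by
  obtain ⟨c, e⟩ := mem_span_singleton.1 g1
  have c0 : c ≠ 0 := fun r => h.1 (by simpa [r] using e.symm)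
  obtain ⟨r, hr, r1, r2⟩ := fix_move hS h hn (v := c • w y) (by rwa [smul_mem_iff _ c0]) g2
  refine ⟨r, hr, (r * w)⁻¹ * g, ⟨mul_mem (inv_mem (mul_mem hr.1 hw)) hg, Units.mk0 c c0,
    inv_eq (g := r * w) ?_, inv_eq (g := r * w) ?_⟩, by group⟩
  · rw [LinearEquiv.mul_apply, map_smul, w1, r1 _ (smul_mem _ _ (subset_span (by simp)))]
    exact e
  · rw [LinearEquiv.mul_apply, map_smul]
    exact r2

theorem dc_ln (h1 : Rl S x y ≤ H) (h2 : H ≤ Ln S x y) (h3 : Rl S x y ≤ H') (h4 : H' ≤ Ln S x y) :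
    dc S H H' = dc (Ln S x y) H H' + dc (Ln S x y) H (Fl S x y) * dc (Ln S x y) H' (Fl S x y) + 1 := by
  have := finGL F V
  have hx : x ∈ span F {x, y} := subset_span (by simp)
  have hy : y ∈ span F {x, y} := subset_span (by simp)
  set ℓ := span F {x, y} with hℓ
  obtain ⟨v, hv⟩ := exists_notMem (U := ℓ) (by rw [rk2 h]; omega)
  obtain ⟨v', hv'⟩ := exists_notMem (U := ℓ ⊔ F ∙ v)
    (by rw [finrank_sup_span_singleton hv, rk2 h]; omega)
  have le : ∀ t, (F ∙ t) ≤ ℓ ⊔ F ∙ t := fun _ => le_sup_right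
  obtain ⟨w, hw, w1, w2⟩ := tr2 hS h (x' := x) (y' := v)
    ⟨h.1, fun r => hv ((span_singleton_le_iff_mem _ _).2 hx r)⟩ (by omega)
  obtain ⟨n, hn', n1, n2⟩ := tr2 hS h (x' := v) (y' := v')
    ⟨fun r => hv (r ▸ zero_mem _), fun r => hv' (le v r)⟩ (by omega)
  have wp := mem_Pt (x := x) hw (w1.symm ▸ mem_span_singleton_self x)
  have wx : ∀ t ∈ ℓ, w t ∈ ℓ → t ∈ F ∙ x := fun t ht e => by
    obtain ⟨a, b, rfl⟩ := mem_span_pair.1 ht
    rw [map_add, map_smul, map_smul, w1, w2, Submodule.add_mem_iff_right _ (smul_mem _ _ hx)] at e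
    rw [by_contra fun r => hv ((smul_mem_iff _ r).1 e), zero_smul, add_zero]
    exact smul_mem _ _ (mem_span_singleton_self x)
  have nN : ∀ g : V ≃ₗ[F] V, (∀ t ∈ ℓ, g t ∈ ℓ → t = 0) ↔ g x ∉ ℓ ∧ g y ∉ ℓ ⊔ F ∙ g x := fun g => by
    refine ⟨fun e => ⟨fun r => h.1 (e x hx r), fun r => ?_⟩, fun e t ht r => ?_⟩
    · obtain ⟨u, hu, _, hw, r⟩ := mem_sup.1 r
      obtain ⟨c, rfl⟩ := mem_span_singleton.1 hw
      exact h.2 (mem_span_singleton.2 ⟨c, (sub_eq_zero.1 (e _ (sub_mem hy (smul_mem _ c hx))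
        (by rwa [map_sub, map_smul, ← r, add_sub_cancel_right]))).symm⟩)
    · obtain ⟨a, b, rfl⟩ := mem_span_pair.1 ht
      rw [map_add, map_smul, map_smul] at r
      obtain rfl : b = 0 := by_contra fun c => e.2 ((smul_mem_iff _ c).1
        ((Submodule.add_mem_iff_right _ (smul_mem _ a (self_mem ℓ _))).1 (mem_sup_left r)))
      rw [zero_smul, add_zero] at r ⊢
      rw [by_contra fun c => e.1 ((smul_mem_iff _ c).1 r), zero_smul]
  let f : (V ≃ₗ[F] V) × (V ≃ₗ[F] V) → V ≃ₗ[F] V := fun p => p.1 * w * p.2⁻¹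
  let P : Set (V ≃ₗ[F] V) := Ln S x y
  have e : (S : Set (V ≃ₗ[F] V)) = (P ∪ f '' P ×ˢ P) ∪ {g | g ∈ S ∧ ∀ t ∈ ℓ, g t ∈ ℓ → t = 0} := by
    refine Set.ext fun g => ⟨fun hg => or_iff_not_imp_right.2 fun r => ?_, ?_⟩
    · obtain ⟨t, ht, t1, t0⟩ : ∃ t ∈ ℓ, g t ∈ ℓ ∧ t ≠ 0 := by simpa using mt (And.intro hg) r
      obtain ⟨a, ha, e⟩ := ln_trans hS h hn t1 (by simpa using t0)
      obtain ⟨b, hb, e'⟩ := ln_trans hS h hn ht t0
      have m : a⁻¹ * g * b ∈ S := mul_mem (mul_mem (inv_mem ha.1) hg) hb.1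
      have m1 : (a⁻¹ * g * b) x = x := inv_eq (e.trans (congrArg g e'.symm))
      by_cases c : (a⁻¹ * g * b) y ∈ ℓ
      · exact .inl ((Subgroup.mul_mem_cancel_left _ (inv_mem ha)).1
          ((Subgroup.mul_mem_cancel_right _ hb).1 (mem_Ln m (m1.symm ▸ hx) c)))
      · obtain ⟨r, hr, r', hr', e⟩ := rwr hS h hn hw w1 (w2 ▸ hv) m
          (m1.symm ▸ mem_span_singleton_self x) c
        exact .inr ⟨(a * r, b * r'⁻¹), ⟨mul_mem ha (Rl_le hr), mul_mem hb (inv_mem (Rl_le hr'))⟩, by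
          calc _ = a * (r * w * r') * b⁻¹ := by simp only [f]; group
            _ = g := by rw [← e]; group⟩
    · rintro ((r | ⟨p, hp, rfl⟩) | r)
      exacts [r.1, mul_mem (mul_mem hp.1.1 hw) (inv_mem hp.2.1), r.1]
  change (cl _ _ '' _).ncard = (cl _ _ '' _).ncard + (cl _ _ '' _).ncard * (cl _ _ '' _).ncard + 1
  rw [e, ncard_cl_union, ncard_cl_union, ncard_cl_one (N := {g | g ∈ S ∧ ∀ t ∈ ℓ, g t ∈ ℓ → t = 0})
    ⟨hn', (nN n).2 ⟨n1 ▸ hv, n1 ▸ n2 ▸ hv'⟩⟩ fun g hg => ?_, ← Set.ncard_prod, Set.prod_image_image_eq,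
    Set.image_image, ncard_image_eq (s := P ×ˢ P) _
      (fun p => (cl H (Fl S x y) p.1, cl H' (Fl S x y) p.2)) ?_]
  · rintro ⟨a, b⟩ ⟨ha, hb⟩ ⟨a', b'⟩ ⟨ha', hb'⟩
    refine setOf_DC_eq.trans (Iff.trans ?_ (Prod.ext_iff.trans (and_congr setOf_DC_eq setOf_DC_eq)).symm)
    refine ⟨fun ⟨k, hk, k', hk', e⟩ => ?_, ?_⟩
    · have m : a'⁻¹ * k * a ∈ Ln S x y := mul_mem (mul_mem (inv_mem ha') (h2 hk)) ha
      have m' : b'⁻¹ * k'⁻¹ * b ∈ Ln S x y := mul_mem (mul_mem (inv_mem hb') (inv_mem (h4 hk'))) hb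
      have e' : a'⁻¹ * k * a * w = w * (b'⁻¹ * k'⁻¹ * b) := by
        calc _ = a'⁻¹ * (k * f (a, b) * k') * k'⁻¹ * b := by simp only [f]; group
          _ = _ := by rw [← e]; simp only [f]; group
      have e1 : (a'⁻¹ * k * a) (w x) = w ((b'⁻¹ * k'⁻¹ * b) x) := congrArg (· x) e'
      rw [w1] at e1
      have q := wx _ ((m'.2 x).2 hx) (e1 ▸ (m.2 x).2 hx)
      exact ⟨⟨k, hk, _, (Fl S x y).inv_mem ⟨mem_Pt m.1 (e1 ▸ (wp.2 _).2 q), m⟩, by group⟩,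
        ⟨k'⁻¹, H'.inv_mem hk', _, (Fl S x y).inv_mem ⟨mem_Pt m'.1 q, m'⟩, by group⟩⟩
    · rintro ⟨⟨k, hk, l, hl, rfl⟩, k', hk', l', hl', rfl⟩
      obtain ⟨l1, l2⟩ : l ∈ Pt S x ∧ l ∈ Ln S x y := hl
      obtain ⟨l3, l4⟩ : l' ∈ Pt S x ∧ l' ∈ Ln S x y := hl'
      have m := mul_mem (mul_mem l1 wp) (inv_mem l3)
      obtain ⟨r, hr, r', hr', e⟩ := rwr hS h hn hw w1 (w2 ▸ hv) m.1
        ((m.2 x).2 (mem_span_singleton_self x)) fun r => h.2 (((inv_mem l3).2 y).1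
          (wx _ (((inv_mem l4).2 y).2 hy) ((l2.2 _).1 r)))
      exact ⟨k * (a * r * a⁻¹), mul_mem hk (h1 (conj_Rl ha hr)), b * r' * b⁻¹ * k'⁻¹,
        mul_mem (h3 (conj_Rl hb hr')) (inv_mem hk'), by
          calc _ = k * a * (l * w * l'⁻¹) * b⁻¹ * k'⁻¹ := by simp only [f]; group
            _ = _ := by rw [e]; simp only [f]; group⟩
  · obtain ⟨g1, g2⟩ := (nN g).1 hg.2
    obtain ⟨r, hr, r1, r2⟩ := st hS hv g1 (by rw [rk2 h]; omega)
    obtain ⟨s, hs, s1, s2⟩ := st hS (a := r v') (fun c => hv' (inv_app r v' ▸ map_sup_le (g := r⁻¹)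
      (fun u hu => (inv_eq (r1 u hu)).symm ▸ mem_sup_left hu) ((inv_eq r2).symm ▸ self_mem _ _) _ c)) g2
      (by rw [finrank_sup_span_singleton g1, rk2 h]; omega)
    have m := mul_mem hs hr
    refine ⟨s * r, h1 (mem_Rl.2 ⟨m, 1, one_ne_zero, fun u hu => ?_⟩), (s * r * n)⁻¹ * g,
      h3 ⟨mul_mem (inv_mem (mul_mem m hn')) hg.1, 1, inv_eq (g := s * r * n) ?_,
        inv_eq (g := s * r * n) ?_⟩, by group⟩
    · rw [LinearEquiv.mul_apply, r1 u hu, s1 u (mem_sup_left hu), one_smul]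
    · simp [n1, r2, s1 _ (self_mem _ _)]
    · simp [n2, s2]
  · rintro g hg _ ⟨p, hp, rfl⟩ ⟨k, hk, k', hk', e⟩
    have m : f p ∈ Ln S x y := e ▸ mul_mem (mul_mem (h2 hk) hg) (h4 hk')
    exact hv (w2 ▸ (((Subgroup.mul_mem_cancel_left _ hp.1).1
      ((Subgroup.mul_mem_cancel_right _ (inv_mem hp.2)).1 m)).2 y).2 hy)
  · rintro g hg _ hg' ⟨k, hk, k', hk', rfl⟩
    obtain ⟨t, ht, t1, t0⟩ : ∃ t ∈ ℓ, g t ∈ ℓ ∧ t ≠ 0 := by
      rcases hg with hg | ⟨p, hp, rfl⟩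
      · exact ⟨x, hx, (hg.2 x).2 hx, h.1⟩
      · exact ⟨p.2 x, (hp.2.2 x).2 hx, by simpa [f, inv_app, w1] using (hp.1.2 x).2 hx,
          by simpa using h.1⟩
    have := hg'.2 (k'⁻¹ t) (((inv_mem (h4 hk')).2 t).2 ht)
      (by simpa [app_inv] using ((h2 hk).2 _).2 t1)
    exact t0 (by simpa using this)

omit hS h hn in
theorem jobDC : JobDC.{u, v} := by
  intro F _ _ V _ _ _ S _ hS hn
  refine ⟨fun φ h0 => ?_, fun x y h => ⟨le_antisymm (dc_stab_le hS {0, 1} fun B _ => ?_)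
    (two_le_stab hS (mem_span_singleton_self x) h.1 le_rfl ?_ (by omega)), dc_fl hS h hn,
    fun H => dc_pt hS h hn, fun H H' => dc_ln hS h hn, fun z hz =>
      ⟨dc_stab_le hS (Finset.range 4) fun B _ => ?_, two_le_stab hS (mem_span_singleton_self x) h.1
        ((span_singleton_le_iff_mem _ _).2 (subset_span (by simp))) ?_ (by omega)⟩⟩⟩
  · have e := Dual.finrank_ker_add_one_of_ne_zero h0
    obtain ⟨x, hx, x0⟩ := H62.exists_mem_notMem (W := LinearMap.ker φ) (Z := ⊥)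
      (by rw [finrank_bot]; omega)
    refine le_antisymm ((dc_stab_le hS {finrank F V - 1, finrank F V - 2} fun B hB => ?_).trans
      Finset.card_le_two) (two_le_stab hS hx x0 le_rfl (by omega) (by omega))
    have := finrank_sup_add_finrank_inf_eq B (LinearMap.ker φ)
    have := finrank_le (B ⊔ LinearMap.ker φ)
    have := finrank_mono (inf_le_right : B ⊓ LinearMap.ker φ ≤ _)
    simp only [Finset.mem_insert, Finset.mem_singleton]
    omega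
  · have := finrank_mono (inf_le_right : B ⊓ F ∙ x ≤ _)
    rw [finrank_span_singleton h.1] at this
    simp only [Finset.mem_insert, Finset.mem_singleton]
    omega
  · rw [finrank_span_singleton h.1]; omega
  · have := finrank_mono (inf_le_right : B ⊓ span F {x, y, z} ≤ _)
    rw [rk3 hz] at this
    exact Finset.mem_range.2 (by omega)
  · rw [rk3 hz]; omega

end H38.KL
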