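import Cfsg.Agent.H38.KLTr

/-! KL tower: job IDX. -/

set_option autoImplicit false

namespace H38.KL

open Module Submodule H53.CK H51.KL

universe u v

variable {F : Type u} [Field F] {V : Type v} [AddCommGroup V] [Module F V]
  {S R T : Subgroup (V ≃ₗ[F] V)} {U W : Submodule F V} {a x y z : V} {g : V ≃ₗ[F] V}

/-- the elements of `S` stabilising `U` and fixing `W` pointwise -/
def Gs (S : Subgroup (V ≃ₗ[F] V)) (W U : Submodule F V) : Subgroup (V ≃ₗ[F] V) where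
  carrier := {g | g ∈ stabSub S U ∧ ∀ w ∈ W, g w = w}
  one_mem' := ⟨Subgroup.one_mem _, fun _ _ => rfl⟩
  mul_mem' := fun ha hb => ⟨Subgroup.mul_mem _ ha.1 hb.1, fun w hw => by
    rw [LinearEquiv.mul_apply, hb.2 w hw, ha.2 w hw]⟩
  inv_mem' := fun ha => ⟨Subgroup.inv_mem _ ha.1, fun w hw => inv_eq (ha.2 w hw)⟩

theorem Gs_bot : Gs S ⊥ U = stabSub S U :=
  Subgroup.ext fun g => ⟨And.left, fun h => ⟨h, fun w hw => by rw [(mem_bot F).1 hw, map_zero]⟩⟩

theorem stab_top : stabSub S ⊤ = S := Subgroup.ext fun _ => ⟨And.left, fun h => ⟨h, fun _ => Iff.rfl⟩⟩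

theorem rel_orbit (a : V) (h : ∀ g ∈ T, g a = a ↔ g ∈ R) :
    R.relIndex T = {b | ∃ g ∈ T, g a = b}.ncard := by
  rw [Subgroup.relIndex, index_eq_ncard _ (fun g : T => g.1 a) fun g g' => by
    rw [Subgroup.mem_subgroupOf, ← h _ (g⁻¹ * g').2]
    exact ⟨fun e => inv_eq e, fun e => by rw [← app_inv g.1 (g'.1 a)]; exact congrArg g.1 e.symm⟩]
  exact congrArg _ (Set.ext fun b => ⟨fun ⟨g, e⟩ => ⟨g, g.2, e⟩, fun ⟨g, hg, e⟩ => ⟨⟨g, hg⟩, e⟩⟩)

variable [Finite F] [FiniteDimensional F V]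

omit [Finite F] in
theorem Gs_self : Gs S U U = Gs S U ⊤ := Subgroup.ext fun _ =>
  ⟨fun h => ⟨⟨h.1.1, fun _ => Iff.rfl⟩, h.2⟩,
    fun h => ⟨mem_stabSub.2 ⟨h.1.1, fun v hv => (h.2 v hv).symm ▸ hv⟩, h.2⟩⟩

theorem ncard_sub (U : Submodule F V) : (U : Set V).ncard = Nat.card F ^ finrank F U :=
  (Nat.card_coe_set_eq _).symm.trans (natCard_eq_pow_finrank (K := F) (V := U))

theorem ncard_sdiff (h : W ≤ U) :
    ((U : Set V) \ W).ncard = Nat.card F ^ finrank F U - Nat.card F ^ finrank F W := by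
  have := finV F V
  rw [Set.ncard_sdiff h, ncard_sub, ncard_sub]

theorem step (hS : AllTv S) (hW : W ≤ U) (ha : a ∈ U) (a1 : a ∉ W)
    (h : finrank F W + 2 ≤ finrank F V) : (Gs S (W ⊔ F ∙ a) U).relIndex (Gs S W U) =
      Nat.card F ^ finrank F U - Nat.card F ^ finrank F W := by
  rw [rel_orbit (T := Gs S W U) (R := Gs S (W ⊔ F ∙ a) U) a fun g hg =>
    ⟨fun e => ⟨hg.1, fix_sup hg.2 e⟩, fun e => e.2 a (self_mem _ _)⟩, ← ncard_sdiff hW]
  refine congrArg _ (Set.ext fun b => ⟨?_, fun hb => ?_⟩)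
  · rintro ⟨g, hg, rfl⟩
    exact ⟨(hg.1.2 a).2 ha, fun r => a1 (g.injective (hg.2 _ r) ▸ r)⟩
  · obtain ⟨g, hg, g1, g2⟩ := stu hS hW ha hb.1 a1 hb.2 h
    exact ⟨g, ⟨hg, g1⟩, g2⟩

omit [Finite F] [FiniteDimensional F V] in
theorem Gs_le : Gs S (W ⊔ F ∙ a) U ≤ Gs S W U := fun _ h => ⟨h.1, fun w hw => h.2 w (mem_sup_left hw)⟩

theorem idx1 (hS : AllTv S) (hn : 4 ≤ finrank F V) (h : x ≠ 0) (hx : x ∈ U) :
    (Gs S (F ∙ x) U).relIndex (stabSub S U) = Nat.card F ^ finrank F U - 1 := by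
  have := step hS bot_le hx h (by rw [finrank_bot]; omega)
  rwa [bot_sup_eq, Gs_bot, finrank_bot, pow_zero] at this

theorem idx2 (hS : AllTv S) (hn : 4 ≤ finrank F V) (h : Ind F x y) (hx : x ∈ U) (hy : y ∈ U) :
    (Gs S (span F {x, y}) U).relIndex (stabSub S U) =
      (Nat.card F ^ finrank F U - Nat.card F) * (Nat.card F ^ finrank F U - 1) := by
  have := step hS ((span_singleton_le_iff_mem _ _).2 hx) hy h.2
    (by rw [finrank_span_singleton h.1]; omega)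
  rw [finrank_span_singleton h.1, pow_one] at this
  rw [span_pair, ← this, ← idx1 hS hn h.1 hx, Subgroup.relIndex_mul_relIndex _ _ _ Gs_le fun _ h => h.1]

theorem idx3 (hS : AllTv S) (hn : 4 ≤ finrank F V) (h : Ind3 F x y z) (hx : x ∈ U) (hy : y ∈ U)
    (hz : z ∈ U) : (Gs S (span F {x, y, z}) U).relIndex (stabSub S U) =
      (Nat.card F ^ finrank F U - Nat.card F ^ 2) *
        ((Nat.card F ^ finrank F U - Nat.card F) * (Nat.card F ^ finrank F U - 1)) := by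
  have := step hS (span_le.2 (Set.pair_subset hx hy)) hz h.2 (by rw [rk2 h.1]; omega)
  rw [rk2 h.1] at this
  rw [span_triple, ← this, ← idx2 hS hn h.1 hx hy,
    Subgroup.relIndex_mul_relIndex _ _ _ Gs_le fun _ h => h.1]

omit [Finite F] in
theorem idx_mul : (Gs S U U).relIndex (stabSub S U) * (stabSub S U).relIndex S =
    (Gs S U ⊤).relIndex (stabSub S ⊤) := by
  rw [Subgroup.relIndex_mul_relIndex (Gs S U U) (stabSub S U) S (fun _ h => h.1) fun _ h => h.1,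
    Gs_self, stab_top]

/-- a group fixing the point `x` and containing the scalars -/
theorem idx_pt (h : x ≠ 0) (h1 : ∀ g ∈ T, g x = x ↔ g ∈ R) (h2 : ∀ g ∈ T, g x ∈ F ∙ x)
    (h3 : ∀ c : F, c ≠ 0 → ∃ g ∈ T, g x = c • x) : R.relIndex T = Nat.card F - 1 := by
  have := ncard_sdiff (W := ⊥) (U := F ∙ x) bot_le
  rw [finrank_span_singleton h, finrank_bot, pow_one, pow_zero] at this
  rw [rel_orbit x h1, ← this]
  refine congrArg _ (Set.ext fun b => ⟨?_, fun hb => ?_⟩)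
  · rintro ⟨g, hg, rfl⟩
    exact ⟨h2 g hg, by simpa using h⟩
  · obtain ⟨c, rfl⟩ := mem_span_singleton.1 hb.1
    exact h3 c fun e => hb.2 (by simp [e])

omit [Finite F] [FiniteDimensional F V] in
theorem mem_Rl : g ∈ Rl S x y ↔ g ∈ S ∧ ∃ c : F, c ≠ 0 ∧ ∀ v ∈ span F {x, y}, g v = c • v := by
  refine ⟨fun ⟨h, c, h1, h2⟩ => ⟨h, c, c.ne_zero, fun v hv => ?_⟩, fun ⟨h, c, h0, h1⟩ =>
    ⟨h, Units.mk0 c h0, h1 x (subset_span (by simp)), h1 y (subset_span (by simp))⟩⟩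
  obtain ⟨s, t, rfl⟩ := mem_span_pair.1 hv
  rw [map_add, map_smul, map_smul, h1, h2, smul_add, smul_comm s, smul_comm t]

omit [Finite F] in
theorem Rl_le : Rl S x y ≤ Ln S x y := fun _ h =>
  let ⟨h1, _, _, h2⟩ := mem_Rl.1 h
  mem_stabSub.2 ⟨h1, fun v hv => (h2 v hv).symm ▸ smul_mem _ _ hv⟩

theorem jobIdx : JobIdx.{u, v} := by
  intro F _ _ V _ _ _ S sc hS hn x y z h
  have hx : x ∈ span F {x, y} := subset_span (by simp)
  have hy : y ∈ span F {x, y} := subset_span (by simp)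
  have q2 : 2 ≤ Nat.card F := Finite.one_lt_card
  have p1 := idx_mul (S := S) (U := F ∙ x)
  have p2 := idx_mul (S := S) (U := span F {x, y})
  have p3 := idx_mul (S := S) (U := span F {x, y, z})
  have l1 := idx1 hS hn h.1.1 hx
  have l2 := idx2 hS hn h.1 hx hy
  rw [idx1 hS hn h.1.1 (mem_span_singleton_self x), idx1 hS hn h.1.1 mem_top,
    finrank_span_singleton h.1.1, finrank_top, pow_one] at p1
  rw [l2, idx2 hS hn h.1 mem_top mem_top, rk2 h.1, finrank_top] at p2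
  rw [idx3 hS hn h (subset_span (by simp)) (subset_span (by simp)) (subset_span (by simp)),
    idx3 hS hn h mem_top mem_top mem_top, rk3 h, finrank_top] at p3
  rw [rk2 h.1] at l1 l2
  have scl : ∀ c : F, c ≠ 0 → ∃ g ∈ Rl S x y, g x = c • x := fun c hc =>
    let ⟨g, hg, e⟩ := sc c hc
    ⟨g, mem_Rl.2 ⟨hg, c, hc, fun v _ => e v⟩, e x⟩
  have rp : ∀ g ∈ Rl S x y, g x ∈ F ∙ x := fun g ⟨_, c, e, _⟩ =>
    e ▸ smul_mem _ _ (mem_span_singleton_self x)
  have pt : ∀ g ∈ S, g x ∈ F ∙ x → g ∈ Pt S x := fun g hg e => mem_stabSub.2 ⟨hg, fun v hv =>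
    (span_singleton_le_iff_mem x ((F ∙ x).comap (g : V →ₗ[F] V))).2 e hv⟩
  have f1 := idx_pt (T := Fl S x y) (R := Gs S (F ∙ x) (span F {x, y})) h.1.1
    (fun g hg => ⟨fun e => ⟨hg.2, bot_sup_eq (F ∙ x) ▸ fix_sup (by simp) e⟩,
      fun e => e.2 x (mem_span_singleton_self x)⟩)
    (fun g hg => (hg.1.2 x).2 (mem_span_singleton_self x)) fun c hc =>
      let ⟨g, hg, e⟩ := scl c hc
      ⟨g, ⟨pt g hg.1 (rp g hg), Rl_le hg⟩, e⟩
  have r1 := idx_pt (T := Rl S x y) (R := Gs S (span F {x, y}) (span F {x, y})) h.1.1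
    (fun g hg => ⟨fun e => ⟨Rl_le hg, fun w hw => by
      obtain ⟨-, c, -, h2⟩ := mem_Rl.1 hg
      rw [h2 w hw, smul_left_injective F h.1.1 ((h2 x hx).symm.trans (e.trans (one_smul F x).symm)),
        one_smul]⟩, fun e => e.2 x hx⟩) rp scl
  rw [← Subgroup.relIndex_mul_relIndex (Gs S (F ∙ x) (span F {x, y})) (Fl S x y) (stabSub S _)
    (fun g hg => ⟨pt g hg.1.1 ((hg.2 x (mem_span_singleton_self x)).symm ▸
      mem_span_singleton_self x), hg.1⟩) inf_le_right, f1] at l1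
  rw [← Subgroup.relIndex_mul_relIndex (Gs S (span F {x, y}) (span F {x, y})) (Rl S x y) (stabSub S _)
    (fun g hg => mem_Rl.2 ⟨hg.1.1, 1, one_ne_zero,
      fun v hv => (hg.2 v hv).trans (one_smul F v).symm⟩) Rl_le, r1] at l2
  unfold Pt Ln Pl
  generalize Nat.card F = q at *
  obtain ⟨m, hm⟩ : ∃ m, finrank F V = m + 4 := ⟨_, (Nat.sub_add_cancel hn).symm⟩
  rw [hm] at p2 p3
  have fac : ∀ j k : ℕ, q ^ (k + j) - q ^ j = q ^ j * (q ^ k - 1) := fun j k => by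
    rw [Nat.mul_sub, mul_one, pow_add, mul_comm]
  have fac1 : ∀ k : ℕ, q ^ (k + 1) - q = q * (q ^ k - 1) := fun k => by simpa using fac 1 k
  refine ⟨fun _ _ _ h' => tr3 hS h h' hn, (mul_comm _ _).trans p1, ?_, ?_, ?_, ?_⟩
  · rw [fac1 1, fac1 (m + 3), pow_one] at p2
    rw [hm, show m + 4 - 1 = m + 3 from rfl]
    exact Nat.eq_of_mul_eq_mul_left (by omega : 0 < q) (by linear_combination p2)
  · refine Nat.eq_of_mul_eq_mul_left (by omega : 0 < q - 1) (l1.trans ?_)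
    obtain ⟨r, rfl⟩ : ∃ r, q = r + 1 := ⟨q - 1, by omega⟩
    rw [Nat.add_sub_cancel, show (r + 1) ^ 2 = r * (r + 1 + 1) + 1 by ring, Nat.add_sub_cancel]
  · rw [fac1 1, pow_one] at l2
    exact Nat.eq_of_mul_eq_mul_left (by omega : 0 < q - 1) (by linear_combination l2)
  · rw [fac 2 1, fac1 2, fac 2 (m + 2), fac1 (m + 3)] at p3
    have e := Nat.eq_of_mul_eq_mul_left (n := q ^ 3) (by positivity)
      (m := (q ^ 1 - 1) * (q ^ 2 - 1) * (q ^ 3 - 1) * (stabSub S (span F {x, y, z})).relIndex S)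
      (k := (q ^ (m + 2) - 1) * (q ^ (m + 3) - 1) * (q ^ (m + 4) - 1)) (by linear_combination p3)
    have c : ∀ k : ℕ, ((q ^ (k + 1) - 1 : ℕ) : ZMod q) = -1 := fun k => by
      rw [Nat.cast_sub (Nat.one_le_pow _ _ (by omega))]; simp
    have := congrArg (Nat.cast : ℕ → ZMod q) e
    simp only [Nat.cast_mul, c 0, c 1, c 2, c (m + 1), c (m + 2), c (m + 3)] at this
    exact (ZMod.natCast_eq_natCast_iff _ _ _).1 (by linear_combination -this)

end H38.KL
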