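import Cfsg.Agent.H38.KLIdx
import Cfsg.Agent.H54.FTPG
import Cfsg.Agent.H54.SpBasis

/-! KL-SP: the stabiliser of a null polarity has at least four double cosets. -/

set_option autoImplicit false
set_option linter.unusedSectionVars false

namespace H38.KLSP

open Module Submodule H53.CK H51.KL H38.KL

universe u v

variable {F : Type u} [Field F] [Finite F] {V : Type v} [AddCommGroup V] [Module F V]
  [FiniteDimensional F V]

section pol

variable {W : V → Submodule F V} (rk : ∀ x, x ≠ 0 → finrank F (W x) + 1 = finrank F V)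
  (sy : ∀ x y, x ≠ 0 → y ≠ 0 → y ∈ W x → x ∈ W y)

include sy in
theorem le_W {s : Set V} {u v : V} (hu : u ∈ span F s) (u0 : u ≠ 0)
    (h : ∀ a ∈ s, a ≠ 0 ∧ v ∈ W a) : v ∈ W u := by
  rcases eq_or_ne v 0 with rfl | v0
  · exact zero_mem _
  · exact sy v u v0 u0 (span_le.2 (fun a ha => sy a v (h a ha).1 v0 (h a ha).2) hu)

include rk sy

theorem dim_le (k : ℕ) : ∀ E P : Submodule F V, finrank F P + k = finrank F V →
    (∀ u ∈ E, u ≠ 0 → P ≤ W u) → finrank F E ≤ k := by
  induction k with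
  | zero =>
    intro E P e h
    rw [Nat.le_zero, finrank_eq_zero, eq_bot_iff]
    intro u hu
    by_contra u0
    have := finrank_mono (h u hu u0)
    have := rk u u0
    omega
  | succ k ih =>
    intro E P e h
    obtain ⟨t, ht⟩ := exists_notMem (U := P) (by omega)
    have t0 : t ≠ 0 := fun e => ht (e ▸ zero_mem _)
    have := ih (E ⊓ W t) (P ⊔ F ∙ t) (by rw [finrank_sup_span_singleton ht]; omega) fun u hu u0 =>
      sup_le (h u hu.1 u0) ((span_singleton_le_iff_mem _ _).2 (sy t u t0 u0 hu.2))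
    have := finrank_sup_add_finrank_inf_eq E (W t)
    have := finrank_le (E ⊔ W t)
    have := rk t t0
    omega

theorem coll : H54.IsCollineation F F fun x (φ : Dual F V) =>
    x ≠ 0 ∧ φ ≠ 0 ∧ ∀ y, φ y = 0 ↔ y ∈ W x where
  ex x hx := by
    have := rk x hx
    obtain ⟨v, hv⟩ := exists_notMem (U := W x) (by omega)
    obtain ⟨φ, h1, h2⟩ := H62.exists_dual_eq_one hv
    have n : φ ≠ 0 := fun e => by simp [e] at h1
    have := Dual.finrank_ker_add_one_of_ne_zero n
    exact ⟨φ, hx, n, fun y => by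
      rw [eq_of_le_of_finrank_eq (show W x ≤ LinearMap.ker φ from h2) (by omega)]; rfl⟩
  ne h := h.1
  ne' h := h.2.1
  smul h hc := ⟨h.1, smul_ne_zero hc h.2.1, fun y => by simp [hc, h.2.2]⟩
  line := by
    rintro x φ y ψ z χ ⟨hx, -, a⟩ ⟨hy, -, b⟩ ⟨hz, -, c⟩
    simp only [@eq_comm _ z, @eq_comm _ χ, ← mem_span_pair]
    constructor
    · intro h
      have := mem_span_of_iInf_ker_le_ker (L := ![φ, ψ]) (K := χ) fun v hv =>
        (c v).2 (le_W sy h hz (by
          simp only [mem_iInf, Fin.forall_fin_two] at hv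
          rintro _ (rfl | rfl)
          exacts [⟨hx, (a v).1 hv.1⟩, ⟨hy, (b v).1 hv.2⟩]))
      simpa [Set.pair_comm] using this
    · intro h
      obtain ⟨s, t, rfl⟩ := mem_span_pair.1 h
      by_contra n
      have r := rk x hx
      have e := finrank_sup_add_finrank_inf_eq (W x) (W y)
      obtain ⟨k, hk⟩ := Nat.exists_eq_add_of_le (finrank_le (W x ⊓ W y))
      have l := dim_le rk sy k (span F {x, y, z}) _ hk.symm fun u hu u0 v hv => le_W sy hu u0 (by
        rintro _ (rfl | rfl | rfl)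
        exacts [⟨hx, hv.1⟩, ⟨hy, hv.2⟩, ⟨hz, (c v).1 (by simp [(a v).2 hv.1, (b v).2 hv.2])⟩])
      rw [span_triple, finrank_sup_span_singleton n] at l
      by_cases i : y ∈ F ∙ x
      · rw [inf_eq_left.2 fun v hv => le_W sy i hy (by rintro _ rfl; exact ⟨hx, hv⟩)] at hk
        have := finrank_mono (span_mono (by simp) : (F ∙ x) ≤ span F {x, y})
        rw [finrank_span_singleton hx] at this
        omega
      · have := rk y hy
        have := finrank_le (W x ⊔ W y)
        rw [rk2 ⟨hx, i⟩] at l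
        omega

theorem exists_form (hn : 3 ≤ finrank F V) (se : ∀ x, x ∈ W x) :
    ∃ B : LinearMap.BilinForm F V, B.IsAlt ∧ ∀ x, x ≠ 0 → B x ≠ 0 ∧ ∀ y, B x y = 0 ↔ y ∈ W x := by
  obtain ⟨x, hx⟩ := exists_notMem (U := (⊥ : Submodule F V)) (by rw [finrank_bot]; omega)
  obtain ⟨y, i⟩ := exists_ind (F := F) (by omega) hx
  obtain ⟨z, hz⟩ := exists_notMem (U := span F {x, y}) (by rw [rk2 i]; omega)
  obtain ⟨σ, f, hf⟩ := (coll rk sy).exists_semilinear (H54.ind3_of_not_mem
    (H54.ind2_of_not_smul hx fun ⟨c, e⟩ => i.2 (mem_span_singleton.2 ⟨c, e.symm⟩))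
    fun ⟨a, b, e⟩ => hz (mem_span_pair.2 ⟨a, b, e.symm⟩))
  have alt : ∀ x, f x x = 0 := fun x => by
    rcases eq_or_ne x 0 with rfl | hx
    · exact map_zero _
    · exact ((hf x hx).2.2 x).2 (se x)
  have sk : ∀ x y, f x y = -f y x := fun x y => by
    have := alt (x + y)
    simp only [map_add, LinearMap.add_apply, alt] at this
    linear_combination this
  have hσ : ∀ c, σ c = c := fun c => by
    obtain ⟨v, hv⟩ := DFunLike.ne_iff.1 (hf x hx).2.1
    refine mul_right_cancel₀ hv ?_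
    have := sk (c • x) v
    rw [map_smulₛₗ, map_smul, sk v x] at this
    simpa using this
  exact ⟨⟨⟨f, f.map_add⟩, fun c x => by simp [hσ]⟩, alt, fun x hx => (hf x hx).2⟩

end pol

theorem exists_cubic : ∃ a b : F, ∀ c : F, (c - 1) ^ 3 - a * c * (c - 1) - b * c ≠ 0 := by
  classical
  let h : F → F → F := fun c a => ((c - 1) ^ 3 - a * c * (c - 1)) / c
  by_contra n
  push Not at n
  have : Function.Surjective fun p : F × F => (p.2, h (if p.1 = 0 then 1 else p.1) p.2) := by
    rintro ⟨a, b⟩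
    obtain ⟨c, e⟩ := n a b
    have c0 : c ≠ 0 := fun r => by simp [r, pow_succ] at e
    exact ⟨(c, a), Prod.ext rfl (by
      simp only [if_neg c0, h]; rw [div_eq_iff c0]; linear_combination e)⟩
  simpa using Finite.injective_iff_surjective.2 this (a₁ := (0, 0)) (a₂ := (1, 0)) (by simp)

variable {B : LinearMap.BilinForm F V} {e f : Fin 3 → V} {g : V ≃ₗ[F] V} {s t a b : F} {x : V}

/-- the vectors whose polar hyperplane is respected by `g` -/
def Io (B : LinearMap.BilinForm F V) (g : V ≃ₗ[F] V) : Set V :=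
  {x | ∀ y, B x y = 0 ↔ B (g x) (g y) = 0}

/-- a product of three transvections -/
def Pg (B : LinearMap.BilinForm F V) (e f : Fin 3 → V) (s t a b : F) (g : V ≃ₗ[F] V) : Prop :=
  ∀ x, g x = x + (s * B x (f 1)) • e 0 + (t * B x (f 2) + a * (B x (f 0) + s * B x (f 1))) • e 1 +
    (b * (B x (f 0) + s * B x (f 1))) • e 2

variable (hA : B.IsAlt) (h1 : ∀ i j, B (e i) (f j) = if i = j then 1 else 0)
  (h2 : ∀ i j, B (e i) (e j) = 0) (h3 : ∀ i j, B (f i) (f j) = 0)

theorem exists_tv {φ : Dual F V} {u : V} (h : φ u = 0) : ∃ g : V ≃ₗ[F] V,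
    LinearMap.det (g : V →ₗ[F] V) = 1 ∧ ∀ x, g x = x + φ x • u := by
  obtain ⟨g, -, hg⟩ := H62.hasTv_of_forall (H := ⊤) h fun _ _ => trivial
  exact ⟨g, by rw [H62.det_of_tv hg, h, add_zero], hg⟩

include h1 in
theorem exists_Pg (s t a b : F) : ∃ g : V ≃ₗ[F] V, LinearMap.det (g : V →ₗ[F] V) = 1 ∧
    Pg B e f s t a b g := by
  obtain ⟨g1, d1, e1⟩ := exists_tv (φ := B.flip (f 1)) (u := s • e 0) (by simp [h1])
  obtain ⟨g2, d2, e2⟩ := exists_tv (φ := B.flip (f 2)) (u := t • e 1) (by simp [h1])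
  obtain ⟨g3, d3, e3⟩ := exists_tv (φ := B.flip (f 0)) (u := a • e 1 + b • e 2) (by simp [h1])
  refine ⟨g3 * g2 * g1, by simp [LinearEquiv.coe_toLinearMap_mul, d1, d2, d3], fun x => ?_⟩
  simp [e1, e2, e3, h1]
  module

include hA h1 h2 h3

theorem mem_Io (p : Pg B e f s t a b g) (c1 : s * B x (f 1) = 0)
    (c2 : t * B x (f 2) + a * B x (f 0) = 0) (c3 : b * B x (f 0) = 0)
    (c4 : a * B x (e 1) + b * B x (e 2) = 0) (c5 : s * B x (e 0) = 0) (c6 : t * B x (e 1) = 0) :
    x ∈ Io B g := fun y => by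
  rw [p x, c1, add_zero, c2, c3, p y]
  simp only [zero_smul, add_zero, map_add, map_smul, smul_eq_mul]
  exact Eq.congr_left (by
    linear_combination -(B y (f 0) + s * B y (f 1)) * c4 - B y (f 1) * c5 - B y (f 2) * c6)

theorem of_Io (p : Pg B e f s t a b g) (h : x ∈ Io B g) : ∃ c : F,
    B x (f 0) + s * B x (f 1) = c * B x (f 0) ∧
    B x (f 1) + (t * B x (f 2) + a * (B x (f 0) + s * B x (f 1))) = c * B x (f 1) ∧
    B x (f 2) + b * (B x (f 0) + s * B x (f 1)) = c * B x (f 2) ∧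
    B x (e 0) + a * B x (e 1) + b * B x (e 2) = c * B x (e 0) ∧
    B x (e 1) + s * (B x (e 0) + a * B x (e 1) + b * B x (e 2)) = c * B x (e 1) ∧
    B x (e 2) + t * B x (e 1) = c * B x (e 2) := by
  obtain ⟨c, hc⟩ := H62.exists_smul_of_ker_le (φ := B x) (ψ := B (g x) ∘ₗ (g : V →ₗ[F] V))
    fun y => (h y).1
  have k : ∀ y, B (g x) (g y) = c * B x y := fun y => congr($hc y)
  have k1 := fun i => k (f i)
  have k2 := fun i => k (e i)
  simp only [p x, p (f _), p (e _), map_add, map_smul, h1, h2, h3, LinearMap.add_apply,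
    LinearMap.smul_apply, smul_eq_mul, Fin.forall_fin_succ] at k1 k2
  simp at k1 k2
  exact ⟨c, by linear_combination k1.1, by linear_combination k1.2.1, by linear_combination k1.2.2,
    by linear_combination k2.1, by linear_combination k2.2.1, by linear_combination k2.2.2⟩

theorem four : ∃ g : Fin 4 → V ≃ₗ[F] V, (∀ i, LinearMap.det (g i : V →ₗ[F] V) = 1) ∧
    StrictMono fun i => (Io B (g i)).ncard := by
  have := finV F V
  obtain ⟨a, b, hab⟩ := exists_cubic (F := F)
  obtain ⟨g0, d0, p0⟩ := exists_Pg h1 1 1 a b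
  obtain ⟨g1, d1, p1⟩ := exists_Pg h1 1 1 0 0
  obtain ⟨g2, d2, p2⟩ := exists_Pg h1 1 0 0 0
  obtain ⟨g3, d3, p3⟩ := exists_Pg h1 0 0 0 0
  have z : ∀ {c u : F}, (c - 1) ^ 2 * u = 0 → (c = 1 → u = 0) → u = 0 := fun h h' =>
    (mul_eq_zero.1 h).elim (fun r => h' (sub_eq_zero.1 (pow_eq_zero_iff two_ne_zero |>.1 r))) id
  have a0 : ∀ x ∈ Io B g0, B x (f 0) = 0 ∧ x ∈ Io B g1 := fun x hx => by
    obtain ⟨c, e1, e2, e3, e4, e5, e6⟩ := of_Io hA h1 h2 h3 p0 hx
    have u0 : B x (f 0) = 0 := (mul_eq_zero.1 (show (_ : F) * _ = 0 by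
      linear_combination (-(c - 1) ^ 2 + a * (c - 1) + b) * e1 - (c - 1) * e2 - e3)).resolve_left (hab c)
    have u1 : B x (f 1) = 0 := by linear_combination e1 + (c - 1) * u0
    have v2 : B x (e 2) = 0 := (mul_eq_zero.1 (show (_ : F) * _ = 0 by
      linear_combination (-(c - 1) ^ 2 + a * c) * e6 - (c - 1) * e5 - e4)).resolve_left (hab c)
    have v1 : B x (e 1) = 0 := by linear_combination e6 + (c - 1) * v2
    exact ⟨u0, mem_Io hA h1 h2 h3 p1 (by linear_combination u1)
      (by linear_combination e2 + (c - 1 - a) * u1 - a * u0) (by ring) (by ring)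
      (by linear_combination e5 + (c - 1 - a) * v1 - b * v2) (by linear_combination v1)⟩
  have a1 : ∀ x ∈ Io B g1, B x (f 2) = 0 ∧ x ∈ Io B g2 := fun x hx => by
    obtain ⟨c, e1, e2, e3, e4, e5, e6⟩ := of_Io hA h1 h2 h3 p1 hx
    exact ⟨z (c := c) (by linear_combination (1 - c) * e3) fun r => by
        linear_combination e2 + B x (f 1) * r,
      mem_Io hA h1 h2 h3 p2 (z (c := c) (by linear_combination (1 - c) * e2 - e3) fun r => by
        linear_combination e1 + B x (f 0) * r) (by ring) (by ring) (by ring)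
        (z (c := c) (by linear_combination (1 - c) * e4) fun r => by
          linear_combination e5 + B x (e 1) * r) (by ring)⟩
  have a2 : ∀ x ∈ Io B g2, B x (f 1) = 0 := fun x hx => by
    obtain ⟨c, e1, e2, -⟩ := of_Io hA h1 h2 h3 p2 hx
    exact z (c := c) (by linear_combination (1 - c) * e2) fun r => by
      linear_combination e1 + B x (f 0) * r
  have a3 : ∀ x, x ∈ Io B g3 := fun x =>
    mem_Io hA h1 h2 h3 p3 (by ring) (by ring) (by ring) (by ring) (by ring) (by ring)
  have lt : ∀ {S T : Set V} (v : V), S ⊆ T → v ∈ T → v ∉ S → S.ncard < T.ncard := fun v l m n =>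
    Set.ncard_lt_ncard ⟨l, fun r => n (r m)⟩
  refine ⟨![g0, g1, g2, g3], fun i => by fin_cases i <;> assumption, Fin.strictMono_iff_lt_succ.2
    fun i => ?_⟩
  fin_cases i
  · exact lt (e 0) (fun x hx => (a0 x hx).2) (mem_Io hA h1 h2 h3 p1 (by simp [h1]) (by simp [h1])
      (by simp) (by simp) (by simp [h2]) (by simp [h2])) fun r => by simpa [h1] using (a0 _ r).1
  · exact lt (e 2) (fun x hx => (a1 x hx).2) (mem_Io hA h1 h2 h3 p2 (by simp [h1]) (by simp)
      (by simp) (by simp) (by simp [h2]) (by simp)) fun r => by simpa [h1] using (a1 _ r).1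
  · exact lt (e 1) (fun x _ => a3 x) (a3 _) fun r => by simpa [h1] using a2 _ r

omit hA h1 h2 h3 in
theorem jobSp : JobSp.{u, v} := by
  rintro F _ _ V _ _ _ K hn ⟨W, rk, se, sy, mp⟩
  obtain ⟨B, hA, hB⟩ := exists_form rk sy (by omega) se
  obtain ⟨m, k, b, h1, h2, h3, h4⟩ := H54.exists_symplectic_basis_radical hA
  have e := finrank_eq_card_basis b
  simp only [Fintype.card_sum, Fintype.card_fin] at e
  obtain rfl : k = 0 := Nat.eq_zero_of_not_pos fun r =>
    (hB _ (b.ne_zero (.inr ⟨0, r⟩))).1 (LinearMap.ext (h4 _))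
  have hm : 3 ≤ m := by omega
  obtain ⟨g, hd, hg⟩ := four (e := fun i => b (.inl (.inl (i.castLE hm))))
    (f := fun i => b (.inl (.inr (i.castLE hm)))) hA (fun i j => by simp [h1]) (fun _ _ => h2 _ _)
    fun _ _ => h3 _ _
  have inv : ∀ k ∈ K, ∀ x y, B x y = 0 → B (k x) (k y) = 0 := fun k hk x y h => by
    rcases eq_or_ne x 0 with rfl | hx
    · simp
    · exact ((hB _ (by simpa using hx)).2 _).2 (mp k hk x y hx (((hB x hx).2 y).1 h))
  have iff : ∀ k ∈ K, ∀ x y, B (k x) (k y) = 0 ↔ B x y = 0 := fun k hk x y =>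
    ⟨fun h => by simpa only [inv_app] using inv _ (K.inv_mem hk) _ _ h, inv k hk x y⟩
  refine ⟨fun g => (Io B g).ncard, fun g k hk => ⟨?_, ?_⟩, g, hd, fun i j e => hg.injective e⟩
  · simp only [Io, LinearEquiv.mul_apply, iff k hk]
  · beta_reduce
    rw [← Set.ncard_preimage_of_injective_subset_range (s := Io B g) k.injective
      (by simp [k.surjective.range_eq])]
    congr 1; ext x
    simp only [Io, LinearEquiv.mul_apply, Set.mem_preimage, Set.mem_ofPred_eq]
    rw [k.surjective.forall (p := fun y => B (k x) y = 0 ↔ _)]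
    simp only [iff k hk]

end H38.KLSP
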