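import Cfsg.Agent.H51.KLSpec

/-! KL tower: transitivity properties of a group containing all transvections. -/

set_option autoImplicit false

namespace H38.KL

open Module Submodule H53.CK H51.KL

universe u v

variable {F : Type u} [Field F] {V : Type v} [AddCommGroup V] [Module F V]
  {S : Subgroup (V ≃ₗ[F] V)} {U W A B B' : Submodule F V} {a b c x y z : V} {g : V ≃ₗ[F] V}

theorem inv_app (g : V ≃ₗ[F] V) (v : V) : g⁻¹ (g v) = v := g.symm_apply_apply v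

theorem app_inv (g : V ≃ₗ[F] V) (v : V) : g (g⁻¹ v) = v := g.apply_symm_apply v

theorem inv_eq {v w : V} (h : g v = w) : g⁻¹ w = v := h ▸ inv_app g v

theorem self_mem (U : Submodule F V) (a : V) : a ∈ U ⊔ F ∙ a :=
  mem_sup_right (mem_span_singleton_self a)

theorem map_sup_le (h1 : ∀ v ∈ U, g v ∈ A) (h2 : g a ∈ A) : ∀ v ∈ U ⊔ F ∙ a, g v ∈ A :=
  fun _ hv => (sup_le (b := F ∙ a) (c := A.comap (g : V →ₗ[F] V)) h1
    ((span_singleton_le_iff_mem _ _).2 h2)) hv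

theorem fix_sup (h1 : ∀ v ∈ U, g v = v) (h2 : g a = a) : ∀ v ∈ U ⊔ F ∙ a, g v = v := fun v hv => by
  obtain ⟨u, hu, w, hw, rfl⟩ := mem_sup.1 hv
  obtain ⟨t, rfl⟩ := mem_span_singleton.1 hw
  rw [map_add, map_smul, h1 u hu, h2]

theorem span_pair (x y : V) : span F {x, y} = (F ∙ x) ⊔ F ∙ y := span_insert _ _

theorem span_triple (x y z : V) : span F {x, y, z} = span F {x, y} ⊔ F ∙ z := by
  rw [span_insert, span_pair, span_pair, sup_assoc]

theorem st1 (ha : a ∉ U) (hc : c ∉ U ⊔ F ∙ a) : a ∉ U ⊔ F ∙ (c - a) := fun h => by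
  obtain ⟨u, hu, w, hw, e⟩ := mem_sup.1 h
  obtain ⟨t, rfl⟩ := mem_span_singleton.1 hw
  by_cases ht : t = 0
  · exact ha (by rw [ht, zero_smul, add_zero] at e; exact e ▸ hu)
  · have : c = t⁻¹ • (a - u) + a := by
      rw [eq_sub_of_add_eq' e |>.symm, inv_smul_smul₀ ht, sub_add_cancel]
    exact hc (this ▸ add_mem (smul_mem _ _ (sub_mem (self_mem U a) (mem_sup_left hu))) (self_mem U a))

variable (hS : AllTv S)
include hS

theorem st0 (h : a ∉ U ⊔ F ∙ (b - a)) : ∃ g ∈ S, (∀ u ∈ U, g u = u) ∧ g a = b := by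
  obtain ⟨φ, h1, h2⟩ := H62.exists_dual_eq_one h
  obtain ⟨g, hg, e⟩ := hS φ (b - a) (h2 _ (self_mem _ _))
  exact ⟨g, hg, fun u hu => by rw [e, h2 u (mem_sup_left hu), zero_smul, add_zero],
    by rw [e, h1, one_smul, add_sub_cancel]⟩

variable [FiniteDimensional F V]

omit hS in
theorem exists_notMem (h : finrank F U < finrank F V) : ∃ v, v ∉ U := by
  obtain ⟨v, -, hv⟩ := H62.exists_mem_notMem (W := ⊤) (Z := U) (by rwa [finrank_top])
  exact ⟨v, hv⟩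

/-- the pointwise stabiliser of `U` is transitive outside `U` -/
theorem st (ha : a ∉ U) (hb : b ∉ U) (h : finrank F U + 2 ≤ finrank F V) :
    ∃ g ∈ S, (∀ u ∈ U, g u = u) ∧ g a = b := by
  obtain ⟨c, h1, h2⟩ : ∃ c, c ∉ U ⊔ F ∙ a ∧ c ∉ U ⊔ F ∙ b := by
    obtain ⟨c, hc⟩ := exists_notMem (U := U ⊔ F ∙ a) (by rw [finrank_sup_span_singleton ha]; omega)
    obtain ⟨d, hd⟩ := exists_notMem (U := U ⊔ F ∙ b) (by rw [finrank_sup_span_singleton hb]; omega)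
    by_cases e : c ∈ U ⊔ F ∙ b
    · by_cases e' : d ∈ U ⊔ F ∙ a
      · exact ⟨c + d, fun r => hc ((Submodule.add_mem_iff_left _ e').1 r),
          fun r => hd ((Submodule.add_mem_iff_right _ e).1 r)⟩
      · exact ⟨d, e', hd⟩
    · exact ⟨c, hc, e⟩
  obtain ⟨g, hg, g1, g2⟩ := st0 hS (st1 ha h1)
  obtain ⟨k, hk, k1, k2⟩ := st0 hS (st1 hb h2)
  exact ⟨k⁻¹ * g, mul_mem (inv_mem hk) hg, fun u hu => by
    rw [LinearEquiv.mul_apply, g1 u hu, inv_eq (k1 u hu)], by rw [LinearEquiv.mul_apply, g2, inv_eq k2]⟩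

theorem st' (ha : a ∉ U) (hb : b ∉ U) : ∃ g ∈ S, (∀ u ∈ U, g u = u) ∧ g a ∈ F ∙ b := by
  by_cases h : finrank F U + 2 ≤ finrank F V
  · obtain ⟨g, hg, g1, g2⟩ := st hS ha hb h
    exact ⟨g, hg, g1, g2 ▸ mem_span_singleton_self _⟩
  have : U ⊔ F ∙ b = ⊤ := eq_top_of_finrank_eq (le_antisymm (finrank_le _)
    (by rw [finrank_sup_span_singleton hb]; omega))
  obtain ⟨u, hu, w, hw, e⟩ := mem_sup.1 (this ▸ mem_top : a ∈ U ⊔ F ∙ b)
  obtain ⟨g, hg, g1, g2⟩ := st0 hS (U := U) (a := a) (b := w) fun r => ha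
    ((sup_le le_rfl ((span_singleton_le_iff_mem _ _).2 (by simpa [← e] using hu)) : _ ≤ U) r)
  exact ⟨g, hg, g1, g2 ▸ hw⟩

omit hS in
theorem map_inf_fix (h : ∀ u ∈ W, g u = u) : B.map (g : V →ₗ[F] V) ⊓ W = B ⊓ W := by
  ext v
  refine ⟨?_, fun hv => ⟨⟨v, hv.1, h v hv.2⟩, hv.2⟩⟩
  rintro ⟨⟨w, hw, rfl⟩, h2⟩
  exact ⟨(g.injective (h _ h2)).symm ▸ hw, h2⟩

/-- subspaces of the same dimension with the same intersection with `W` -/
theorem move (h1 : B ⊓ W = B' ⊓ W) (h2 : finrank F B = finrank F B') :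
    ∃ g ∈ S, (∀ u ∈ W, g u = u) ∧ B.map (g : V →ₗ[F] V) = B' := by
  induction hk : finrank F V - finrank F W using Nat.strong_induction_on generalizing W B with
  | _ k ih =>
  by_cases e : B = B'
  · exact ⟨1, S.one_mem, fun _ _ => rfl, e ▸ map_id _⟩
  obtain ⟨a, ha, a1⟩ := SetLike.not_le_iff_exists.1 fun r : B ≤ W =>
    e (eq_of_le_of_finrank_eq ((le_inf le_rfl r).trans (h1.le.trans inf_le_left)) h2)
  obtain ⟨b, hb, b1⟩ := SetLike.not_le_iff_exists.1 fun r : B' ≤ W =>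
    e (eq_of_le_of_finrank_eq ((le_inf le_rfl r).trans (h1.ge.trans inf_le_left)) h2.symm).symm
  obtain ⟨g, hg, g1, g2⟩ := st' hS a1 b1
  have n : g a ∉ W := fun r => a1 (g.injective (g1 _ r) ▸ r)
  have l := finrank_le (W ⊔ F ∙ g a)
  rw [finrank_sup_span_singleton n] at l
  obtain ⟨k, hk, k1, k2⟩ := ih _ (by rw [finrank_sup_span_singleton n]; omega)
    (W := W ⊔ F ∙ g a) (B := B.map (g : V →ₗ[F] V)) (by
      rw [sup_comm, inf_comm, inf_comm B', sup_inf_assoc_of_le _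
        ((span_singleton_le_iff_mem (g a) (B.map (g : V →ₗ[F] V))).2 ⟨a, ha, rfl⟩), sup_inf_assoc_of_le _
        ((span_singleton_le_iff_mem _ _).2 ((span_singleton_le_iff_mem _ _).2 hb g2)), inf_comm,
        map_inf_fix g1, h1, inf_comm]) ((g.finrank_map_eq B).trans h2) rfl
  exact ⟨k * g, mul_mem hk hg, fun u hu => by
    rw [LinearEquiv.mul_apply, g1 u hu, k1 u (mem_sup_left hu)], (map_comp _ _ _).trans k2⟩

theorem stu (hW : W ≤ U) (ha : a ∈ U) (hb : b ∈ U) (a1 : a ∉ W) (b1 : b ∉ W)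
    (h : finrank F W + 2 ≤ finrank F V) : ∃ g ∈ stabSub S U, (∀ u ∈ W, g u = u) ∧ g a = b := by
  obtain ⟨g, hg, g1, g2⟩ := st hS a1 b1 h
  obtain ⟨k, hk, k1, k2⟩ := move hS (W := W ⊔ F ∙ b) (B := U.map (g : V →ₗ[F] V)) (B' := U) (by
    rw [inf_eq_right.2 (sup_le (c := U.map (g : V →ₗ[F] V)) (fun u hu => ⟨u, hW hu, g1 u hu⟩)
      ((span_singleton_le_iff_mem _ _).2 ⟨a, ha, g2⟩)),
      inf_eq_right.2 (sup_le hW ((span_singleton_le_iff_mem _ _).2 hb))]) (g.finrank_map_eq U)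
  exact ⟨k * g, mem_stabSub.2 ⟨mul_mem hk hg, fun v hv => k2.le ⟨_, ⟨v, hv, rfl⟩, rfl⟩⟩, fun u hu => by
    rw [LinearEquiv.mul_apply, g1 u hu, k1 u (mem_sup_left hu)], by
    rw [LinearEquiv.mul_apply, g2, k1 b (self_mem _ _)]⟩

omit hS in
theorem map_stab (hg : g ∈ stabSub S U) : U.map (g : V →ₗ[F] V) = U :=
  eq_of_le_of_finrank_eq (map_le_iff_le_comap.2 (mem_stabSub.1 hg).2) (g.finrank_map_eq U)

/-- pairs of subspaces -/
theorem pair (h1 : finrank F ↥(B ⊓ A) = finrank F ↥(B' ⊓ A)) (h2 : finrank F B = finrank F B') :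
    ∃ g ∈ stabSub S A, B.map (g : V →ₗ[F] V) = B' := by
  obtain ⟨g, hg, -, g2⟩ := move hS (W := ⊥) (by simp) h1
  obtain ⟨k, hk, k1, k2⟩ := move hS (W := B' ⊓ A) (B := A.map (g : V →ₗ[F] V)) (B' := A) (by
    rw [inf_eq_right.2 (g2 ▸ map_mono inf_le_right), inf_eq_right.2 inf_le_right]) (g.finrank_map_eq A)
  have m : k * g ∈ stabSub S A :=
    mem_stabSub.2 ⟨mul_mem hk hg, fun v hv => k2.le ⟨_, ⟨v, hv, rfl⟩, rfl⟩⟩
  obtain ⟨l, hl, l1, l2⟩ := move hS (W := A) (B := B.map ((k * g : V ≃ₗ[F] V) : V →ₗ[F] V)) (B' := B') (by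
    rw [← map_stab m, ← map_inf _ (k * g).injective, map_stab m]
    refine (map_comp _ _ _).trans ?_
    rw [g2]
    exact eq_of_le_of_finrank_eq (by rintro _ ⟨v, hv, rfl⟩; exact (k1 v hv).symm ▸ hv)
      (k.finrank_map_eq _)) (((k * g).finrank_map_eq B).trans h2)
  exact ⟨l * (k * g), mul_mem (mem_stabSub.2 ⟨hl, fun v hv => (l1 v hv).symm ▸ hv⟩) m,
    (map_comp _ _ _).trans l2⟩

omit hS in
theorem rk2 (h : Ind F x y) : finrank F (span F {x, y}) = 2 := by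
  rw [span_pair, finrank_sup_span_singleton h.2, finrank_span_singleton h.1]

omit hS in
theorem rk3 (h : Ind3 F x y z) : finrank F (span F {x, y, z}) = 3 := by
  rw [span_triple, finrank_sup_span_singleton h.2, rk2 h.1]

theorem tr2 {x' y' : V} (h : Ind F x y) (h' : Ind F x' y') (hn : 3 ≤ finrank F V) :
    ∃ g ∈ S, g x = x' ∧ g y = y' := by
  obtain ⟨g, hg, -, g2⟩ := st hS (U := ⊥) h.1 h'.1 (by rw [finrank_bot]; omega)
  obtain ⟨k, hk, k1, k2⟩ := st hS (g2 ▸ (h.map g).2) h'.2 (by rw [finrank_span_singleton h'.1]; omega)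
  exact ⟨k * g, mul_mem hk hg, by rw [LinearEquiv.mul_apply, g2, k1 _ (mem_span_singleton_self _)], k2⟩

omit hS [FiniteDimensional F V] in
theorem notMem_map (h : a ∉ span F {x, y}) : g a ∉ span F {g x, g y} := fun r => h (by
  rw [← Set.image_pair, ← LinearEquiv.coe_coe, ← map_span] at r
  obtain ⟨w, hw, e⟩ := r
  exact g.injective e ▸ hw)

theorem tr3 {x' y' z' : V} (h : Ind3 F x y z) (h' : Ind3 F x' y' z') (hn : 4 ≤ finrank F V) :
    ∃ g ∈ S, g x = x' ∧ g y = y' ∧ g z = z' := by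
  obtain ⟨g, hg, g1, g2⟩ := tr2 hS h.1 h'.1 (by omega)
  obtain ⟨k, hk, k1, k2⟩ := st hS (g1 ▸ g2 ▸ notMem_map (g := g) h.2) h'.2 (by rw [rk2 h'.1]; omega)
  exact ⟨k * g, mul_mem hk hg, by rw [LinearEquiv.mul_apply, g1, k1 _ (subset_span (by simp))],
    by rw [LinearEquiv.mul_apply, g2, k1 _ (subset_span (by simp))], k2⟩

end H38.KL
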