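import Cfsg.Agent.H51.KSSpec
import Cfsg.Agent.H26.MinS3

/-! Tower KS: the index of `K` in a vector stabiliser (jobs IX0, IX1). -/

set_option autoImplicit false

namespace H38.KS

open Module Submodule H53.CK H51.KL H54 H26.MS H51.KS H38.KL

universe u v

theorem le_relIndex {G ι : Type*} [Group G] [Finite G] {K C : Subgroup G} (f : ι → G)
    (hf : ∀ i, f i ∈ C) (inj : ∀ i j, (f i)⁻¹ * f j ∈ K → i = j) : Nat.card ι ≤ K.relIndex C :=
  Nat.card_le_card_of_injective (fun i => ((⟨f i, hf i⟩ : C) : C ⧸ K.subgroupOf C))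
    fun i j e => inj i j (QuotientGroup.eq (s := K.subgroupOf C).1 e)

variable {F : Type u} [Field F] {V : Type v} [AddCommGroup V] [Module F V]
  {B : LinearMap.BilinForm F V} {K : Subgroup (V ≃ₗ[F] V)} {g : V ≃ₗ[F] V} {z z' y u : V} {a : F}

theorem ee_Cz (hA : B.IsAlt) (h : B y u = 0) (h1 : B y z = 0) (h2 : B u z = 0) (a : F) :
    ee hA y u a ∈ Cz B z := ⟨ee_mem hA _ _ _, by
  change ee hA y u a z = z
  simp [ee_apply hA h, h1, h2]⟩

theorem ee_Cz' (hA : B.IsAlt) (h : B z u = 0) (a : F) : ee hA z u a ∈ Cz B z :=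
  Ez_le_Cz hA ⟨u, a, h, rfl⟩

/-- an element of `Cz` trivial on `z^⊥ / z` -/
theorem mem_Ez (hA : B.IsAlt) (hz : B z z' = 1) (hg : g ∈ Cz B z)
    (h : ∀ v, B z v = 0 → B z' v = 0 → g v - v ∈ F ∙ z) : g ∈ Ez hA z := by
  have gz : g z = z := hg.2
  have h1 : B z (g z' - z') = 0 := by rw [map_sub, ← hg.1 z z', gz, sub_self]
  have h0 : B z' z = -1 := by rw [← hA.neg_eq, hz]
  refine ⟨g z' - z', -B (g z' - z') z', h1, LinearEquiv.ext fun v => ?_⟩
  obtain ⟨d1, d2⟩ := decomp hA (hz ▸ one_ne_zero) v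
  rw [hz, div_one, div_one] at d1 d2
  obtain ⟨w, hw⟩ : ∃ w, w = v - B v z' • z + B v z • z' := ⟨_, rfl⟩
  rw [← hw] at d1 d2
  obtain ⟨c, hc⟩ := mem_span_singleton.1 (h w d1 d2)
  have h2 : g w = ee hA z (g z' - z') (-B (g z' - z') z') w := by
    have h3 := hg.1 z' w
    have h4 := hg.1 z' z
    have h5 : g w = w + c • z := by rw [hc, add_sub_cancel]
    rw [ee_perp hA h1 _ d1, h5]
    rw [h5] at h3
    simp only [map_add, map_sub, map_smul, smul_eq_mul, LinearMap.sub_apply, gz, h0, d2] at h3 h4 ⊢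
    rw [show c = B (g z') w - 0 by linear_combination c * h4 - h3]
  have h3 : g z' = ee hA z (g z' - z') (-B (g z' - z') z') z' := by
    rw [ee_apply hA h1, hz]; module
  have h4 : v = w + B v z' • z - B v z • z' := by rw [hw]; module
  rw [h4, map_sub, map_add, map_smul, map_smul, map_sub, map_add, map_smul, map_smul, ← h2, ← h3, gz,
    ee_self hA h1]

theorem exists_compl [FiniteDimensional F V] {W P : Submodule F V} (h : W ≤ P) :
    ∃ C ≤ P, W ⊓ C = ⊥ ∧ W ⊔ C = P ∧ finrank F W + finrank F C = finrank F P := by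
  obtain ⟨C, hC⟩ := W.exists_isCompl
  have h1 : W ⊓ (C ⊓ P) = ⊥ := by rw [← inf_assoc, hC.inf_eq_bot, bot_inf_eq]
  have h2 : W ⊔ C ⊓ P = P := by rw [← sup_inf_assoc_of_le _ h, hC.sup_eq_top, top_inf_eq]
  refine ⟨C ⊓ P, inf_le_right, h1, h2, ?_⟩
  rw [← finrank_sup_add_finrank_inf_eq, h1, h2, finrank_bot, add_zero]

theorem card_mod [Finite F] [FiniteDimensional F V] (U : Submodule F V) :
    Nat.card U = Nat.card F ^ finrank F U := Module.natCard_eq_pow_finrank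

theorem jobIX0 : JobIX0.{u, v} := by
  intro IL F _ _ V _ _ _ B S K hn hK z hz hY
  have hA := S.alt
  have := finGL F V
  by_contra hlt
  obtain ⟨z', h1, -⟩ := exists_partner hA S.nd (W := ⊥) hz
  have h0 : B z' z = -1 := by rw [← hA.neg_eq, h1]
  let U := LinearMap.ker (B z) ⊓ LinearMap.ker (B z')
  have hU : finrank F V ≤ finrank F U + 2 := by
    have e1 := H62.finrank_le_finrank_inf_ker_add_one ⊤ (B z)
    have e2 := H62.finrank_le_finrank_inf_ker_add_one (LinearMap.ker (B z)) (B z')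
    rw [finrank_top, top_inf_eq] at e1
    exact e1.trans (by simpa using e2)
  have nd : ∀ w ∈ U, (∀ v ∈ U, B w v = 0) → w = 0 := fun w hw h => S.nd.1 w fun v => by
    have := h _ (decomp hA (h1 ▸ one_ne_zero) v)
    simpa [hA.isRefl _ _ hw.1, hA.isRefl _ _ hw.2] using this
  have S' : Sy (B.restrict U) := ⟨fun x => hA x, ⟨fun w h => Subtype.ext (nd w w.2 fun v hv => h ⟨v, hv⟩),
    fun w h => Subtype.ext (nd w w.2 fun v hv => hA.isRefl _ _ (h ⟨v, hv⟩))⟩, S.two⟩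
  have fz : ∀ g ∈ Cz B z, ∀ v ∈ F ∙ z, g v ∈ F ∙ z := fun g hg v hv => by
    obtain ⟨c, rfl⟩ := mem_span_singleton.1 hv
    rwa [map_smul, show g z = z from hg.2]
  let Y : Subgroup (U ≃ₗ[F] U) := Isom (B.restrict U) ⊓
    { carrier := {e | ∃ g ∈ K, g ∈ Cz B z ∧ ∀ u : U, g u - e u ∈ F ∙ z}
      one_mem' := ⟨1, one_mem _, one_mem _, by simp⟩
      mul_mem' := by
        rintro e e' ⟨g, h1, h2, h3⟩ ⟨g', h1', h2', h3'⟩
        refine ⟨g * g', mul_mem h1 h1', mul_mem h2 h2', fun u => ?_⟩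
        simpa using add_mem (fz g h2 _ (h3' u)) (h3 (e' u))
      inv_mem' := by
        rintro e ⟨g, h1, h2, h3⟩
        refine ⟨g⁻¹, inv_mem h1, inv_mem h2, fun u => ?_⟩
        simpa using neg_mem (fz _ (inv_mem h2) _ (h3 (e⁻¹ u))) }
  have hz0 : ∀ w ∈ U, w ∈ F ∙ z → w = 0 := fun w hw h => by
    obtain ⟨c, rfl⟩ := mem_span_singleton.1 h
    have : B z' (c • z) = 0 := hw.2
    simp only [map_smul, h0, smul_eq_mul, mul_neg, mul_one, neg_eq_zero] at this
    rw [this, zero_smul]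
  have hI := (IL F U _ S' Y inf_le_left).2.2 (by omega) fun y hy => by
    by_contra! h3
    have yz : B y z = 0 := hA.isRefl _ _ y.2.1
    refine hlt (le_trans ?_ (le_relIndex (ι := U × F × F)
      (fun i => ee hA y 0 i.2.2 * ee hA z i.1 i.2.1)
      (fun i => mul_mem (ee_Cz hA (map_zero _) yz (by simp) _) (ee_Cz' hA i.1.2.1 _)) ?_))
    · rw [Nat.card_prod, Nat.card_prod, card_mod, ← sq, ← pow_add]
      exact Nat.pow_le_pow_right Nat.card_pos hU
    rintro ⟨w, c, a⟩ ⟨w', c', a'⟩ h4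
    rw [mul_inv_rev, ee_inv hA w.2.1, ee_inv hA (map_zero _), mul_assoc, ← mul_assoc (ee hA y _ _),
      ee_mul hA (by simp) (map_zero _)] at h4
    simp only [neg_zero, add_zero, map_zero] at h4
    have hw : B z (-w : V) = 0 := by simp [show B z w = 0 from w.2.1]
    obtain rfl : a = a' := by
      by_contra h5
      refine h3 (-a + a') (fun e => h5 (neg_add_eq_zero.1 e)) ⟨ee_mem _ _ _ _, _, h4,
        mul_mem (ee_Cz' hA hw _) (mul_mem (ee_Cz hA (map_zero _) yz (by simp) _)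
          (ee_Cz' hA w'.2.1 _)), fun u => mem_span_singleton.2 ?_⟩
      have hu : B z u = 0 := u.2.1
      simp only [LinearEquiv.mul_apply]
      rw [ee_perp hA w'.2.1 _ hu, tv_apply, tv_apply, ee_perp hA hw _ (by
        simp [hu, hA.self_eq_zero, show B z y = 0 from y.2.1])]
      generalize B (-w : V) _ = β
      exact ⟨β + B w' u, by
        simp only [map_add, map_smul, yz, smul_eq_mul, mul_zero, add_zero, coe_add, coe_smul,
          LinearMap.BilinForm.restrict_apply, LinearMap.domRestrict_apply]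
        rw [add_smul]; abel⟩
    rw [neg_add_cancel, ee_zero, one_mul, ee_mul hA hw w'.2.1] at h4
    obtain rfl : w = w' := Subtype.ext (neg_add_eq_zero.1 (hz0 _ (add_mem (neg_mem w.2) w'.2)
      (hY _ ⟨by simp [show B z w = 0 from w.2.1, show B z w' = 0 from w'.2.1], _, h4⟩)))
    rw [neg_add_cancel] at h4
    have h5 := hK.ee hA S.nd hz h4
    simp only [map_neg, LinearMap.neg_apply, hA.self_eq_zero, neg_zero, add_zero] at h5
    rw [neg_add_eq_zero.1 h5]
  have hf : ∀ g ∈ Cz B z, ∃ e ∈ Ez hA z, e * g ∈ K := fun g hg => by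
    have gz : ∀ u : U, B z (g u) = 0 := fun u => by
      rw [← show B z u = 0 from u.2.1, ← hg.1 z u, show g z = z from hg.2]
    obtain ⟨-, k, h2, h3, h4⟩ := hI (isomOfLin S'.nd (LinearMap.codRestrict U
      ((g : V →ₗ[F] V) ∘ₗ U.subtype + (B z' ∘ₗ (g : V →ₗ[F] V) ∘ₗ U.subtype).smulRight z)
      fun u => ⟨by simp [gz, hA.self_eq_zero], by simp [h0]⟩) fun u v => by
        change B (g u + B z' (g u) • z) (g v + B z' (g v) • z) = B u v
        simp [gz, hA.self_eq_zero, hA.isRefl _ _ (gz u), hg.1 u v]).2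
    have h5 := mem_Ez hA h1 (mul_mem (inv_mem hg) h3) fun v v1 v2 => by
      have := fz _ (inv_mem hg) _ (add_mem (h4 ⟨v, v1, v2⟩)
        (smul_mem _ (B z' (g v)) (mem_span_singleton_self z)))
      change g⁻¹ (k v - (g v + B z' (g v) • z) + _) ∈ _ at this
      rw [← sub_sub, sub_add_cancel] at this
      simpa using this
    exact ⟨_, conj_mem_Ez hA hg.1 (t := 1) (by simpa using hg.2) one_ne_zero h5, by simpa [mul_assoc]⟩
  obtain ⟨y, hy⟩ := exists_ne_zero' (F := F) (V := U) (by omega)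
  obtain ⟨s, hs⟩ := good_of_zero hA S.nd S.two hz (by
    by_cases h3 : (3 : F) = 0
    · exact .inr ⟨h3, hn⟩
    · exact .inl ⟨2, S.two, fun e => h3 (by linear_combination e)⟩) hY hf y.2.1
  refine one_ne_zero (hK.ee hA S.nd (fun e => hy (Subtype.ext (hz0 _ y.2 ?_))) (hs 1))
  exact mem_span_singleton.2 ⟨-s, by rw [neg_smul, eq_neg_of_add_eq_zero_left e]⟩

theorem jobIX1 : JobIX1.{u, v} := by
  intro F _ _ V _ _ _ B S K hn hK z hz ⟨w₁, hw₁, w₁z⟩
  have hA := S.alt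
  have := finGL F V
  have := finV F V
  let W := span F (Yz hA K z : Set V)
  have zW : ∀ w ∈ W, B z w = 0 := fun w hw =>
    (span_le (p := LinearMap.ker (B z))).2 (fun _ h => h.1) hw
  have ti : W ≤ B.orthogonal W := span_le.2 fun u hu v hv =>
    (span_le (p := LinearMap.ker (B.flip u))).2 (fun _ h => (mul_eq_zero.1
      (hK.ee hA S.nd hz (two_mul_mem_Rz hA h hu))).resolve_left S.two) hv
  have hd : 2 * finrank F W ≤ finrank F V := by
    have := finrank_mono ti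
    rw [LinearMap.BilinForm.finrank_orthogonal S.nd] at this
    have := finrank_le W
    omega
  have z_mem : z ∈ W := subset_span (by simpa using smul_mem_Yz hA (M := K) (z := z) 1)
  have kW : ∀ k ∈ K, k ∈ Cz B z → ∀ w ∈ W, k w ∈ W := fun k h1 h2 w hw => by
    refine (span_le (p := W.comap (k : V →ₗ[F] V))).2 (fun u hu => ?_) hw
    obtain ⟨hu, a, h3⟩ := (mem_Yz hA).1 hu
    exact subset_span ((mem_Yz hA).2 ⟨show B z (k u) = 0 by
      rw [← hu, ← h2.1 z u, show k z = z from h2.2], a, by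
      simpa [show k z = z from h2.2] using mem_conj hA h2.1 h1 h3⟩)
  have eW : ∀ u a, B z u = 0 → ∀ w ∈ W, ee hA z u a w ∈ W := fun u a hu w hw => by
    rw [ee_perp hA hu _ (zW w hw)]
    exact add_mem hw (smul_mem _ _ z_mem)
  obtain ⟨C, hC, c1, -, c3⟩ := exists_compl (show W ≤ LinearMap.ker (B z) from zW)
  have key : ∀ (I : Type (max u v)) (r : I → V ≃ₗ[F] V), (∀ i, r i ∈ Cz B z) →
      (∀ i j, (∀ w ∈ W, (r i)⁻¹ (r j w) ∈ W) → i = j) →
      Nat.card I * Nat.card F ^ (finrank F C + 1) ≤ K.relIndex (Cz B z) := fun I r hr inj => by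
    have m : ∀ i : I × C × F, r i.1 * ee hA z i.2.1 i.2.2 ∈ Cz B z := fun i =>
      mul_mem (hr _) (ee_Cz' hA (hC i.2.1.2) _)
    refine le_trans (le_of_eq ?_) (le_relIndex _ m ?_)
    · rw [Nat.card_prod, Nat.card_prod, card_mod, pow_succ]
    rintro ⟨i, u, a⟩ ⟨j, u', a'⟩ h
    have hu : B z u = 0 := hC u.2
    have hu' : B z u' = 0 := hC u'.2
    obtain rfl : i = j := inj i j fun w hw => by
      have := eW u a hu _ (kW _ h (mul_mem (inv_mem (m _)) (m _)) _ (eW (-u') (-a') (by simp [hu']) w hw))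
      simpa [← ee_inv hA hu'] using this
    rw [mul_inv_rev, mul_assoc, inv_mul_cancel_left, ee_inv hA hu, ee_mul hA (by simp [hu]) hu'] at h
    obtain rfl : u = u' := Subtype.ext (neg_add_eq_zero.1 ((Submodule.eq_bot_iff _).1 c1 _
      ⟨subset_span ⟨by simp [hu, hu'], _, h⟩, add_mem (neg_mem u.2) u'.2⟩))
    rw [neg_add_cancel] at h
    have h5 := hK.ee hA S.nd hz h
    simp only [map_neg, LinearMap.neg_apply, hA.self_eq_zero, neg_zero, add_zero] at h5
    rw [neg_add_eq_zero.1 h5]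
  replace hw₁ : w₁ ∈ W := subset_span hw₁
  obtain ⟨y₁, h1, h2⟩ := exists_partner hA S.nd w₁z
  have zy : B z y₁ = 0 := h2 z (mem_span_singleton_self z)
  have h1' : B y₁ w₁ = -1 := by rw [← hA.neg_eq, h1]
  let T := LinearMap.ker (B z) ⊓ LinearMap.ker (B y₁) ⊓ LinearMap.ker (B w₁)
  obtain ⟨C', hC', d1, d2, d3⟩ := exists_compl (show W ⊓ LinearMap.ker (B y₁) ≤ T from
    fun w hw => ⟨⟨zW w hw.1, hw.2⟩, ti hw.1 w₁ hw₁⟩)
  have e1 := H62.finrank_le_finrank_inf_ker_add_one ⊤ (B z)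
  have e2 := H62.finrank_le_finrank_inf_ker_add_one (LinearMap.ker (B z)) (B y₁)
  have e3 : _ ≤ finrank F T + 1 := H62.finrank_le_finrank_inf_ker_add_one _ (B w₁)
  have e4 : finrank F ↥(W ⊓ LinearMap.ker (B y₁)) < finrank F W :=
    finrank_lt_finrank_of_lt (lt_of_le_of_ne inf_le_left fun e => by simpa [h1'] using (e.ge hw₁).2)
  rw [finrank_top, top_inf_eq] at e1
  have fam : ∀ y₂ ∈ C', ∀ (u u' : C') (t t' c c' : F), (∀ w ∈ W,
      (ee hA y₁ u t * ee hA y₂ 0 c)⁻¹ ((ee hA y₁ u' t' * ee hA y₂ 0 c') w) ∈ W) →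
      u = u' ∧ t = t' ∧ ∀ w ∈ W, ee hA y₂ 0 c w = ee hA y₂ 0 c' w := fun y₂ hy u u' t t' c c' h => by
    have sm : ∀ (u : C') t c, Sm (ee hA y₁ u t * ee hA y₂ 0 c) (C' ⊔ F ∙ y₁) := fun u t c =>
      Sm.mul (fun v => by
        rw [ee_apply hA (hC' u.2).1.2, add_assoc, add_assoc, add_sub_cancel_left]
        exact add_mem (smul_mem _ _ (self_mem _ _)) (add_mem (smul_mem _ _ (mem_sup_left u.2))
          (smul_mem _ _ (self_mem _ _))))
        ((sm_ee hA y₂ c).mono ((span_singleton_le_iff_mem _ _).2 (mem_sup_left hy)))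
    have h3 : ∀ w ∈ W, (ee hA y₁ u t * ee hA y₂ 0 c) w = (ee hA y₁ u' t' * ee hA y₂ 0 c') w := by
      intro w hw
      obtain ⟨x, hx, _, h4, h5⟩ := mem_sup.1 ((sm u t c).inv.mul (sm u' t' c') w)
      obtain ⟨β, rfl⟩ := mem_span_singleton.1 h4
      have h6 : x + β • y₁ ∈ W := h5 ▸ sub_mem (h w hw) hw
      obtain rfl : β = 0 := by simpa [h1, show B w₁ x = 0 from (hC' hx).2] using ti h6 w₁ hw₁
      rw [zero_smul, add_zero] at h5 h6
      rw [(Submodule.eq_bot_iff _).1 d1 x ⟨⟨h6, (hC' hx).1.2⟩, hx⟩, eq_comm, sub_eq_zero] at h5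
      rw [← app_inv (ee hA y₁ u t * ee hA y₂ 0 c) ((ee hA y₁ u' t' * ee hA y₂ 0 c') w)]
      exact congrArg _ h5.symm
    have h4 := h3 w₁ hw₁
    have p : ∀ x ∈ C', B x w₁ = 0 := fun x hx => hA.isRefl _ _ (hC' hx).2
    simp only [LinearEquiv.mul_apply, tv_apply, p y₂ hy, mul_zero, zero_smul, add_zero,
      ee_apply hA (hC' u.2).1.2, ee_apply hA (hC' u'.2).1.2, p _ u.2, p _ u'.2, h1'] at h4
    obtain rfl : t = t' := by
      simpa [h1, show B w₁ u = 0 from (hC' u.2).2, show B w₁ u' = 0 from (hC' u'.2).2] using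
        congrArg (B w₁) h4
    obtain rfl : u = u' := Subtype.ext (by simpa using h4)
    exact ⟨rfl, rfl, fun w hw => (ee hA y₁ u t).injective (h3 w hw)⟩
  have cz : ∀ y₂ ∈ C', ∀ (u : C') t c, ee hA y₁ u t * ee hA y₂ 0 c ∈ Cz B z := fun y₂ hy u t c =>
    mul_mem (ee_Cz hA (hC' u.2).1.2 (hA.isRefl _ _ zy) (hA.isRefl _ _ (hC' u.2).1.1) _)
      (ee_Cz hA (map_zero _) (hA.isRefl _ _ (hC' hy).1.1) (by simp) _)
  by_cases h3 : ∃ y₂ ∈ C', ∃ w₂ ∈ W ⊓ LinearMap.ker (B y₁), B y₂ w₂ ≠ 0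
  · obtain ⟨y₂, hy, w₂, hw₂, h3⟩ := h3
    refine le_trans ?_ (key (C' × F × F) (fun i => ee hA y₁ i.1 i.2.1 * ee hA y₂ 0 i.2.2)
      (fun i => cz y₂ hy _ _ _) ?_)
    · rw [Nat.card_prod, Nat.card_prod, card_mod, ← sq, ← pow_add, ← pow_add]
      exact Nat.pow_le_pow_right Nat.card_pos (by omega)
    rintro ⟨u, t, c⟩ ⟨u', t', c'⟩ h
    obtain ⟨rfl, rfl, h4⟩ := fam y₂ hy u u' t t' c c' h
    have h5 := h4 w₂ hw₂.1
    have y0 : y₂ ≠ 0 := fun e => h3 (by simp [e])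
    rw [tv_apply, tv_apply, add_right_inj] at h5
    rw [mul_right_cancel₀ h3 (smul_left_injective F y0 h5)]
  refine le_trans ?_ (key (C' × F) (fun i => ee hA y₁ i.1 i.2 * ee hA 0 0 0)
    (fun i => cz 0 (zero_mem _) _ _ _) ?_)
  swap
  · rintro ⟨u, t⟩ ⟨u', t'⟩ h
    obtain ⟨rfl, rfl, -⟩ := fam 0 (zero_mem _) u u' t t' 0 0 h
    rfl
  push Not at h3
  have e5 : W ⊓ LinearMap.ker (B y₁) ≤ F ∙ z := fun w hw => by
    have h4 : w ∈ (F ∙ z) ⊔ (F ∙ y₁) ⊔ F ∙ w₁ := mem_of_perp hA S.nd fun y hy => by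
      have : y ∈ T := ⟨⟨hy z (mem_sup_left (mem_sup_left (mem_span_singleton_self z))),
        hy y₁ (mem_sup_left (self_mem _ _))⟩, hy w₁ (self_mem _ _)⟩
      obtain ⟨x, hx, x', hx', rfl⟩ := mem_sup.1 (d2.ge this)
      rw [map_add, ti hx.1 w hw.1, hA.isRefl _ _ (h3 x' hx' w hw), add_zero]
    obtain ⟨_, h5, _, h6, rfl⟩ := mem_sup.1 h4
    obtain ⟨_, h7, _, h8, rfl⟩ := mem_sup.1 h5
    obtain ⟨α, rfl⟩ := mem_span_singleton.1 h7
    obtain ⟨β, rfl⟩ := mem_span_singleton.1 h8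
    obtain ⟨γ, rfl⟩ := mem_span_singleton.1 h6
    obtain rfl : γ = 0 := by simpa [h1', hA.self_eq_zero, hA.isRefl _ _ zy] using hw.2
    obtain rfl : β = 0 := by
      simpa [h1, hA.self_eq_zero, hA.isRefl _ _ (zW _ hw₁)] using ti hw.1 w₁ hw₁
    simpa using h7
  have e6 := finrank_mono e5
  have e7 := H62.finrank_le_finrank_inf_ker_add_one W (B y₁)
  rw [finrank_span_singleton hz] at e6
  rw [Nat.card_prod, card_mod, ← pow_succ, ← pow_add]
  exact Nat.pow_le_pow_right Nat.card_pos (by omega)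

end H38.KS
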