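/- Tower `L₄(3)`: `JobSL3`. -/
import Cfsg.Agent.H42.L43K
import Cfsg.Agent.H57.SLGen
import Cfsg.Agent.S0051

set_option autoImplicit false
set_option linter.unusedSectionVars false

namespace H38.L43

open Cfsg Subgroup H47.L43 H42.L43 Matrix Multiplicative

universe u

variable {G : Type u} [Group G] [Finite G] {E : Subgroup G}
  {ε : Multiplicative (Fin 3 → F3) →* G}

theorem mat_ext {A B : Matrix (Fin 3) (Fin 3) F3} (h : ∀ v, A *ᵥ v = B *ᵥ v) : A = B :=
  Matrix.ext fun i j => by simpa using congrFun (h (Pi.single j 1)) i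

theorem card_E (hi : Function.Injective ε) (hr : ε.range = E) : Nat.card E = 27 := by
  rw [← hr, ← Nat.card_congr (MonoidHom.ofInjective hi).toEquiv]; simp

theorem exists_rho (hi : Function.Injective ε) (hr : ε.range = E) (hc : Cn E ≤ E) :
    ∃ ρ : Nr E →* GL (Fin 3) F3, ρ.ker = E.subgroupOf (Nr E) ∧
      ∀ (g : Nr E) v, g * ε (ofAdd v) * g⁻¹ = ε (ofAdd ((ρ g).1 *ᵥ v)) := by
  have ex : ∀ (g : Nr E) v, ∃ w, g * ε (ofAdd v) * g⁻¹ = ε (ofAdd w) := fun g v => by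
    obtain ⟨w, e⟩ : (g : G) * ε (ofAdd v) * (g : G)⁻¹ ∈ ε.range := by
      rw [hr]; exact (mem_normalizer_iff.1 g.2 _).1 (hr ▸ ⟨_, rfl⟩)
    exact ⟨w.toAdd, e.symm⟩
  choose f hf using ex
  have ex : ∀ g : Nr E, ∃ A : Matrix (Fin 3) (Fin 3) F3, ∀ v,
      g * ε (ofAdd v) * g⁻¹ = ε (ofAdd (A *ᵥ v)) := fun g =>
    ⟨LinearMap.toMatrix' ((AddMonoidHom.mk' (f g) fun v w => ofAdd.injective (hi (by
      rw [ofAdd_add, map_mul, ← hf, ← hf, ← hf, ofAdd_add, map_mul]
      simp [mul_assoc]))).toZModLinearMap 3), fun v => by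
      rw [LinearMap.toMatrix'_mulVec]; exact hf g v⟩
  choose A hA using ex
  have ext : ∀ {B C : Matrix (Fin 3) (Fin 3) F3},
      (∀ v, ε (ofAdd (B *ᵥ v)) = ε (ofAdd (C *ᵥ v))) → B = C :=
    fun h => mat_ext fun v => ofAdd.injective (hi (h v))
  let ρ : Nr E →* Matrix (Fin 3) (Fin 3) F3 :=
    ⟨⟨A, ext fun v => by rw [← hA]; simp⟩, fun g k => ext fun v => by
      rw [← mulVec_mulVec, ← hA, ← hA, ← hA]; simp [mul_assoc]⟩
  refine ⟨ρ.toHomUnits, Subgroup.ext fun g => ?_, hA⟩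
  rw [MonoidHom.mem_ker, Units.ext_iff, mem_subgroupOf]
  refine ⟨fun e => hc fun x hx => ?_, fun e => ext fun v => ?_⟩
  · obtain ⟨v, rfl⟩ : x ∈ ε.range := hr ▸ hx
    have := hA g v.toAdd
    rw [show A g = 1 from e, one_mulVec] at this
    exact (mul_inv_eq_iff_eq_mul.1 this).symm
  · obtain ⟨w, e⟩ : (g : G) ∈ ε.range := hr ▸ e
    refine (hA g v).symm.trans (mul_inv_eq_iff_eq_mul.2 ?_)
    rw [Units.val_one, one_mulVec, ← e, ← map_mul, mul_comm, map_mul]

theorem card_GL3 : Nat.card (GL (Fin 3) F3) = 11232 := by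
  rw [Matrix.card_GL_field]; simp [Fin.prod_univ_three]

theorem card_rho (hi : Function.Injective ε) (hr : ε.range = E) {H : Type*} [Group H]
    {ρ : Nr E →* H} (h : ρ.ker = E.subgroupOf (Nr E)) :
    Nat.card (Nr E) = 27 * Nat.card ρ.range := by
  rw [← ρ.ker.card_mul_index, index_ker, h,
    Nat.card_congr (subgroupOfEquivOfLe le_normalizer).toEquiv, card_E hi hr]

theorem card_dvd (hi : Function.Injective ε) (hr : ε.range = E) (hc : Cn E ≤ E) :
    Nat.card (Nr E) ∣ 27 * 11232 := by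
  obtain ⟨ρ, h, -⟩ := exists_rho hi hr hc
  rw [card_rho hi hr h, ← card_GL3]
  exact Nat.mul_dvd_mul_left _ (card_subgroup_dvd_card _)

theorem exists_sigma (hi : Function.Injective ε) (hr : ε.range = E) (hc : Cn E ≤ E)
    (hN : Nat.card (Nr E) = 27 * 5616) : ∃ σ : Nr E →* SL3, Function.Surjective σ ∧
      σ.ker = E.subgroupOf (Nr E) ∧
      ∀ (g : Nr E) v, g * ε (ofAdd v) * g⁻¹ = ε (ofAdd ((σ g).1 *ᵥ v)) := by
  obtain ⟨ρ, h, hρ⟩ := exists_rho hi hr hc
  have c1 : Nat.card ρ.range = 5616 := by have := card_rho hi hr h; omega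
  have c2 : ρ.range.index = 2 := by
    have := ρ.range.card_mul_index
    rw [c1, card_GL3] at this
    omega
  have inj := SpecialLinearGroup.toGL_injective (n := Fin 3) (R := F3)
  have e : (SpecialLinearGroup.toGL : SL3 →* _).range = ρ.range := by
    refine eq_of_le_of_card_ge ?_ (by
      rw [c1, ← Nat.card_congr (MonoidHom.ofInjective inj).toEquiv, card_SL3])
    rw [MonoidHom.range_eq_map, map_le_iff_le_comap, H57.sl_eq_top_of_transvections (comap _ _)
      fun i j hij c => ?_]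
    rw [mem_comap, (by decide : ∀ c : F3, c = -c + -c) c, SpecialLinearGroup.transvection_add,
      map_mul]
    exact mul_self_mem_of_index_two c2 _
  let σ := (MonoidHom.ofInjective inj).symm.toMonoidHom.comp
    ((MulEquiv.subgroupCongr e.symm).toMonoidHom.comp ρ.rangeRestrict)
  have hσ : ∀ g, SpecialLinearGroup.toGL (σ g) = ρ g := fun g =>
    MonoidHom.apply_ofInjective_symm inj _
  refine ⟨σ, fun A => ?_, h ▸ Subgroup.ext fun g => ?_, fun g v => ?_⟩
  · obtain ⟨g, eg⟩ := e.le ⟨A, rfl⟩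
    exact ⟨g, inj ((hσ g).trans eg)⟩
  · rw [MonoidHom.mem_ker, MonoidHom.mem_ker, ← hσ, map_eq_one_iff _ inj]
  · rw [hρ, ← hσ]; rfl

theorem jobSL3 : JobSL3.{u} := by
  intro G _ _ E K ε hi hr hc hN
  obtain ⟨σ, h1, h2, h3⟩ := exists_sigma hi hr hc hN
  refine ⟨fun A => let ⟨g, e⟩ := h1 A; ⟨g, g.2, e ▸ h3 g⟩, fun g hg => ⟨_, h3 ⟨g, hg⟩⟩,
    fun k1 k2 k3 => ?_⟩
  have : IsMulCommutative σ.ker := ⟨⟨fun a b => Subtype.ext (Subtype.ext (by
    obtain ⟨v, e⟩ : (a.1 : G) ∈ ε.range := hr.ge (mem_subgroupOf.1 (h2.le a.2))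
    obtain ⟨w, e'⟩ : (b.1 : G) ∈ ε.range := hr.ge (mem_subgroupOf.1 (h2.le b.2))
    change a.1.1 * b.1.1 = b.1.1 * a.1.1
    rw [← e, ← e', ← map_mul, mul_comm, map_mul]))⟩⟩
  have d : K.subgroupOf (Nr E) ⊓ σ.ker = ⊥ := by
    rw [h2, subgroupOf, subgroupOf, ← comap_inf, k3, MonoidHom.comap_bot, ker_subtype]
  have inj : ∀ {H : Subgroup (Nr E)}, H ⊓ σ.ker = ⊥ → Function.Injective (σ.comp H.subtype) :=
    fun h => (injective_iff_map_eq_one _).2 fun a e => Subtype.ext (mem_bot.1 (h ▸ ⟨a.2, e⟩))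
  obtain ⟨H, hH⟩ := Cfsg.Agent.S0051.result σ.ker (((K.subgroupOf (Nr E)).map σ).comap σ)
    (ker_le_comap _ _) (by
      have := ((K.subgroupOf (Nr E)).map σ).card_mul_index
      rw [← range_subtype (K.subgroupOf _), MonoidHom.map_range,
        ← Nat.card_congr (MonoidHom.ofInjective (inj d)).toEquiv,
        Nat.card_congr (subgroupOfEquivOfLe k1).toEquiv, k2, card_SL3, ← MonoidHom.map_range,
        range_subtype] at this
      rw [index_comap_of_surjective _ h1, h2,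
        Nat.card_congr (subgroupOfEquivOfLe le_normalizer).toEquiv, card_E hi hr,
        show (map σ _).index = 208 by omega]
      decide) _ (le_comap_map _ _) d (by rw [comap_map_eq, sup_comm])
  let ψ := MulEquiv.ofBijective (σ.comp H.subtype) ⟨inj (disjoint_iff.1 hH.disjoint.symm), by
    rw [← MonoidHom.range_eq_top, MonoidHom.range_comp, range_subtype,
      ← (comap_injective h1).eq_iff, comap_map_eq, sup_comm, hH.sup_eq_top, comap_top]⟩
  exact ⟨((Nr E).subtype.comp H.subtype).comp ψ.symm.toMonoidHom, fun A => ⟨(ψ.symm A).1.2,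
    fun v => (h3 _ v).trans (congrArg (fun B : SL3 => ε (ofAdd (B.1 *ᵥ v)))
      (ψ.apply_symm_apply A))⟩⟩

end H38.L43
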