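/- Tower `L₄(3)`: `JobM`, the parabolic subgroup. -/
import Cfsg.Agent.H38.L43S
import Cfsg.Agent.H4.ClassMisc

set_option autoImplicit false
set_option linter.unusedSectionVars false

namespace H38.L43

open Cfsg Subgroup H56.L3 H47.L43 H42.L43 Matrix Multiplicative

universe u

variable {G : Type u} [Group G] [Finite G]

theorem mem_Ce {g x : G} : g ∈ Ce x ↔ g * x = x * g := mem_centralizer_singleton_iff

theorem mem_cj {g x : G} {A : Subgroup G} : x ∈ cj g A ↔ g⁻¹ * x * g ∈ A :=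
  ⟨by rintro ⟨y, hy, rfl⟩; simpa [mul_assoc] using hy, fun h => ⟨_, h, by simp [mul_assoc]⟩⟩

theorem mem_zp3 {z x : G} (h : orderOf z = 3) : x ∈ zpowers z ↔ x = 1 ∨ x = z ∨ x = z * z := by
  classical
  rw [mem_zpowers_iff_mem_range_orderOf, h]
  simp only [Finset.range_add_one, Finset.range_zero, Finset.image_insert, Finset.mem_insert, sq,
    Finset.image_empty, Finset.notMem_empty, pow_one, pow_zero]
  tauto

/-! ### A basis -/

theorem pw_add {g : G} (h : g ^ 3 = 1) (a b : F3) : g ^ (a + b).val = g ^ a.val * g ^ b.val := by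
  rw [← pow_add, ZMod.val_add, ← pow_eq_pow_mod _ h]

theorem exists_eps {E : Subgroup G} (hc : ∀ a ∈ E, ∀ b ∈ E, a * b = b * a) (h3 : ∀ a ∈ E, a ^ 3 = 1)
    {a b c : G} (ha : a ∈ E) (hb : b ∈ E) (hz : c ∈ E) :
    ∃ ε : Multiplicative (Fin 3 → F3) →* G, ε.range ≤ E ∧ ε (ofAdd ![1, 0, 0]) = a ∧
      ε (ofAdd ![0, 1, 0]) = b ∧ ε (ofAdd ![0, 0, 1]) = c := by
  have cm : ∀ {x y : G} (i j : ℕ), x ∈ E → y ∈ E → ∀ w, x ^ i * (y ^ j * w) = y ^ j * (x ^ i * w) :=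
    fun i j hx hy w => by rw [← mul_assoc, hc _ (pow_mem hx i) _ (pow_mem hy j), mul_assoc]
  refine ⟨MonoidHom.mk' (fun v => a ^ (v.toAdd 0).val * (b ^ (v.toAdd 1).val *
    (c ^ (v.toAdd 2).val * 1))) fun v w => ?_, ?_, by simp [ZMod.val_one], by simp [ZMod.val_one],
    by simp [ZMod.val_one]⟩
  · simp only [toAdd_mul, Pi.add_apply, pw_add (h3 a ha), pw_add (h3 b hb), pw_add (h3 c hz),
      mul_assoc, one_mul]
    rw [cm _ (w.toAdd 0).val hz ha, cm _ (w.toAdd 0).val hb ha, cm _ (w.toAdd 1).val hz hb]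
  · rintro _ ⟨v, rfl⟩
    exact mul_mem (pow_mem ha _) (mul_mem (pow_mem hb _) (mul_mem (pow_mem hz _) (one_mem _)))

theorem inj_of {E : Subgroup G} {ε : Multiplicative (Fin 3 → F3) →* G} (hr : ε.range = E)
    (h : Nat.card E = 27) : Function.Injective ε := by
  have := ε.ker.card_mul_index
  rw [index_ker, hr, h] at this
  simp only [Nat.card_eq_fintype_card (α := Multiplicative _), Fintype.card_multiplicative,
    Fintype.card_pi, ZMod.card, Finset.prod_const, Finset.card_univ, Fintype.card_fin] at this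
  exact (MonoidHom.ker_eq_bot_iff ε).1 (card_eq_one.1 (by omega))

theorem card_step {A B : Subgroup G} (h : A < B) {n : ℕ} (hB : Nat.card B ∣ 3 ^ n) :
    3 * Nat.card A ≤ Nat.card B := by
  obtain ⟨k, e⟩ := card_dvd_of_le h.le
  obtain ⟨i, -, rfl⟩ := (Nat.dvd_prime_pow Nat.prime_three).1 ((Dvd.intro_left _ e.symm).trans hB)
  rcases i with _ | i
  · exact absurd (eq_of_le_of_card_ge h.le (by simp [e])) h.ne
  · rw [e, mul_comm]
    exact Nat.mul_le_mul_left _ (Nat.le_self_pow i.succ_ne_zero 3)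

theorem exists_basis {E : Subgroup G} (hc : ∀ a ∈ E, ∀ b ∈ E, a * b = b * a)
    (h3 : ∀ a ∈ E, a ^ 3 = 1) (hE : Nat.card E = 27) {y z : G} (oz : orderOf z = 3) (hz : z ∈ E)
    (hy : y ∈ E) (n : y ∉ zpowers z) : ∃ ε : Multiplicative (Fin 3 → F3) →* G,
      Function.Injective ε ∧ ε.range = E ∧ ε (ofAdd ![0, 0, 1]) = z := by
  obtain ⟨δ, d1, d2, d3, d4⟩ := exists_eps hc h3 (one_mem E) hy hz
  obtain ⟨a, ha, na⟩ := SetLike.exists_of_lt (d1.lt_of_ne fun e =>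
    absurd (inj_of e hE (d2.trans (map_one δ).symm)) (by decide))
  obtain ⟨ε, e1, e2, e3, e4⟩ := exists_eps hc h3 ha hy hz
  have dv : ∀ {A : Subgroup G}, A ≤ E → Nat.card A ∣ 3 ^ 3 := fun h => (card_dvd_of_le h).trans hE.dvd
  have l1 : zpowers z < zpowers z ⊔ zpowers y := left_lt_sup.2 (mt zpowers_le.1 n)
  have l2 : zpowers z ⊔ zpowers y < ε.range := lt_of_le_of_ne
    (sup_le (zpowers_le.2 ⟨_, e4⟩) (zpowers_le.2 ⟨_, e3⟩)) fun e => na
      ((sup_le (zpowers_le.2 ⟨_, d4⟩) (zpowers_le.2 ⟨_, d3⟩) : _ ≤ δ.range) (e.ge ⟨_, e2⟩))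
  have c1 := card_step l1 (dv (l2.le.trans e1))
  have c2 := card_step l2 (dv e1)
  rw [Nat.card_zpowers, oz] at c1
  have := eq_of_le_of_card_ge e1 (by omega)
  exact ⟨ε, inj_of this hE, this, e4⟩

/-! ### The abstract hypothesis -/

theorem sl2_norm : ∀ A : SpecialLinearGroup (Fin 2) F3, (A * A = 1 → A = 1 ∨ A = -1) ∧
    (A = 1 ∨ A = -1 ∨ A * A = -1 ∨ ∃ B, A * (B * A⁻¹ * B⁻¹) * (A * (B * A⁻¹ * B⁻¹)) = -1) := by
  decide +kernel

namespace H0'

variable {z t y : G} {Q E : Subgroup G} {π : Ce z →* SpecialLinearGroup (Fin 2) F3}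
  (h : H0 z t Q π)
include h

theorem zc {a b : G} (ha : a ∈ zpowers z) (hb : b ∈ Ce z) : a * b = b * a := by
  obtain ⟨k, rfl⟩ := ha
  exact ((Commute.zpow_right (mem_Ce.1 hb) k : Commute b _)).eq.symm

theorem of_sq {a : G} (ha : a ∈ Q) (e : a * a ∈ zpowers z) : a ∈ zpowers z := by
  have := mul_mem e e
  rwa [show a * a * (a * a) = a ^ 3 * a by simp [pow_succ, mul_assoc], h.exp a ha, one_mul] at this

theorem card_Z : Nat.card (zpowers z) = 3 := by rw [Nat.card_zpowers, h.oz]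

theorem πt : π ⟨t, h.tC⟩ = -1 := by
  refine ((sl2_norm _).1 (by rw [← map_mul]; exact (congrArg π (Subtype.ext h.tt)).trans π.map_one)
    ).resolve_left fun e => ?_
  have t1 : t = 1 := by simpa [pow_succ, h.tt] using h.exp t ((h.ker _).1 e)
  have := card_le_of_le (show Q ≤ zpowers z from fun a ha =>
    of_sq h ha (by simpa [t1] using h.inv a ha))
  rw [h.card, card_Z h] at this
  omega

theorem card_C : Nat.card (Ce z) = 5832 := by
  rw [← π.ker.card_mul_index, index_ker, MonoidHom.range_eq_top.2 h.surj, card_top,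
    show π.ker = Q.subgroupOf (Ce z) from Subgroup.ext h.ker,
    Nat.card_congr (subgroupOfEquivOfLe h.QC).toEquiv, h.card, Nat.card_eq_fintype_card]
  decide +kernel

/-- An abelian subgroup of order `27` is self-centralizing in `Q`. -/
theorem cenQ (le : E ≤ Q) (hE : Nat.card E = 27) (hc : ∀ a ∈ E, ∀ b ∈ E, a * b = b * a) :
    Q ⊓ Cn E ≤ E := by
  by_contra hn
  have l1 : E < Q ⊓ Cn E := lt_of_le_not_ge (le_inf le fun a ha b hb => hc b hb a ha) hn
  have dv : ∀ {A : Subgroup G}, A ≤ Q → Nat.card A ∣ 3 ^ 5 := fun e => (card_dvd_of_le e).trans h.card.dvd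
  obtain ⟨q, hq, e⟩ : ∃ q ∈ Q, Q ⊓ Cn E ⊔ zpowers q = Q := by
    by_cases e : Q ≤ Cn E
    · exact ⟨1, one_mem _, by simp [e]⟩
    obtain ⟨q, q1, q2⟩ := SetLike.not_le_iff_exists.1 e
    have l3 : Q ⊓ Cn E ⊔ zpowers q ≤ Q := sup_le inf_le_left (zpowers_le.2 q1)
    have c1 := card_step l1 (dv inf_le_left)
    have c2 := card_step (left_lt_sup.2 fun e : zpowers q ≤ Q ⊓ Cn E => q2 (zpowers_le.1 e).2) (dv l3)
    exact ⟨q, q1, eq_of_le_of_card_ge l3 (by rw [h.card]; omega)⟩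
  let f : E →* zpowers z := MonoidHom.mk' (fun a => ⟨_, h.comm a (le a.2) q hq⟩) fun a b =>
    Subtype.ext (by
      have := zc h (h.comm b (le b.2) q hq) (h.QC (le a.2))
      change (a : G) * b * q * ((a : G) * b)⁻¹ * q⁻¹ =
        a * q * (a : G)⁻¹ * q⁻¹ * (b * q * (b : G)⁻¹ * q⁻¹)
      rw [← zc h (h.comm b (le b.2) q hq) (h.QC (mul_mem (mul_mem (mul_mem (le a.2) hq)
        (inv_mem (le a.2))) (inv_mem hq))), ← mul_assoc, ← mul_assoc, ← mul_assoc, this]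
      simp [mul_assoc])
  have c1 := f.ker.card_mul_index
  have c2 : f.ker.index ≤ 3 := by rw [index_ker, ← card_Z h]; exact card_le_card_group _
  have c3 : Nat.card f.ker ≤ 3 := by
    rw [← card_map_of_injective E.subtype_injective, ← card_Z h]
    refine card_le_of_le ?_
    rintro _ ⟨a, ha, rfl⟩
    refine h.cen (le_centralizer_iff.1 (show Q ≤ Cn (zpowers (a : G)) from e ▸ sup_le
      (inf_le_right.trans (centralizer_le (zpowers_le.2 a.2))) (zpowers_le.2 ?_)) (mem_zpowers _))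
    rintro _ ⟨k, rfl⟩
    exact (Commute.zpow_left (commutatorElement_eq_one_iff_mul_comm.1
      (congrArg Subtype.val ha)) k).eq
  have := Nat.mul_le_mul c3 c2
  omega

theorem cenE (le : E ≤ Q) (hE : Nat.card E = 27) (hc : ∀ a ∈ E, ∀ b ∈ E, a * b = b * a)
    (hz : z ∈ E) (hn : Ce z ≤ Nr E) : Cn E ≤ E := fun c hc' => by
  let K : Subgroup (Ce z) := (Cn E).subgroupOf (Ce z)
  have nK : ∀ a ∈ K, ∀ b, b * a * b⁻¹ ∈ K := fun a ha b e he => by
    have := ha _ ((mem_normalizer_iff''.1 (hn b.2) e).1 he)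
    simpa [mul_assoc] using congrArg (fun x => (b : G) * x * (b : G)⁻¹) this
  have no : ∀ a ∈ K, π a ≠ -1 := fun a ha e => by
    have q : ((⟨t, h.tC⟩⁻¹ * a : Ce z) : G) ∈ Q := (h.ker _).1 (by
      rw [map_mul, map_inv, πt h, e, inv_mul_cancel])
    have := card_le_of_le (show E ≤ zpowers z from fun x hx => of_sq h (le hx) (by
      have e1 := h.comm _ q x (le hx)
      have e2 := h.inv x⁻¹ (inv_mem (le hx))
      have e3 : (t⁻¹ * a) * x * (t⁻¹ * a)⁻¹ * x⁻¹ = t⁻¹ * x * t * x⁻¹ := by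
        rw [mul_assoc t⁻¹, ← show x * a = a * x from ha x hx]; group
      rw [inv_eq_of_mul_eq_one_right h.tt] at e2 e3
      change (t⁻¹ * a) * x * (t⁻¹ * a)⁻¹ * x⁻¹ ∈ _ at e1
      rw [inv_eq_of_mul_eq_one_right h.tt, e3] at e1
      have e4 := mul_mem (inv_mem (h.inv x (le hx))) e1
      rw [inv_eq_of_mul_eq_one_right h.tt,
        show (t * x * t * x)⁻¹ * (t * x * t * x⁻¹) = (x * x)⁻¹ by group] at e4
      exact inv_mem_iff.1 e4))
    rw [hE, card_Z h] at this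
    omega
  have m : (⟨c, mem_Ce.2 (hc' z hz).symm⟩ : Ce z) ∈ K := hc'
  refine cenQ h le hE hc ⟨?_, hc'⟩
  rcases (sl2_norm (π ⟨c, mem_Ce.2 (hc' z hz).symm⟩)).2 with e | e | e | ⟨B, e⟩
  · exact (h.ker _).1 e
  · exact (no _ m e).elim
  · exact (no _ (mul_mem m m) (by rwa [map_mul])).elim
  · obtain ⟨b, rfl⟩ := h.surj B
    have := mul_mem m (nK _ (inv_mem m) b)
    exact (no _ (mul_mem this this) (by simpa only [map_mul, map_inv] using e)).elim

/-- `Q` is transitive on the coset `e Z`. -/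
theorem coset {e ζ : G} (he : e ∈ Q) (n : e ∉ zpowers z) (hζ : ζ ∈ zpowers z) :
    ∃ q ∈ Q, q * e * q⁻¹ = ζ * e := by
  obtain ⟨q, hq, ne⟩ : ∃ q ∈ Q, q * e ≠ e * q := by
    by_contra hn
    push Not at hn
    exact n (h.cen hn)
  have m := h.comm q hq e he
  have e1 : q * e * q⁻¹ = q * e * q⁻¹ * e⁻¹ * e := by group
  have n1 : q * e * q⁻¹ * e⁻¹ ≠ 1 := fun e' => ne (commutatorElement_eq_one_iff_mul_comm.1 e')
  generalize q * e * q⁻¹ * e⁻¹ = w at m e1 n1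
  have e2 : q * q * e * (q * q)⁻¹ = w * w * e := by
    rw [show q * q * e * (q * q)⁻¹ = q * (q * e * q⁻¹) * q⁻¹ by group, e1, ← mul_assoc,
      ← zc h m (h.QC hq), mul_assoc w, mul_assoc w, e1, mul_assoc]
  have z3 : z * z * (z * z) = z := by
    rw [show z * z * (z * z) = z ^ 3 * z by simp [pow_succ, mul_assoc], h.exp z h.zQ, one_mul]
  rcases (mem_zp3 h.oz).1 hζ with rfl | rfl | rfl <;>
    rcases ((mem_zp3 h.oz).1 m).resolve_left n1 with rfl | rfl
  exacts [⟨1, one_mem _, by simp⟩, ⟨1, one_mem _, by simp⟩, ⟨q, hq, e1⟩,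
    ⟨_, mul_mem hq hq, by rw [e2, z3]⟩, ⟨_, mul_mem hq hq, e2⟩, ⟨q, hq, e1⟩]

theorem card_N (le : E ≤ Q) (hE : Nat.card E = 27) (hz : z ∈ E) (hn : Ce z ≤ Nr E)
    (dv : Nat.card (Nr E) ∣ 27 * 11232) {n : G} (n1 : n ∈ Nr E) (n2 : n * z * n⁻¹ ∉ zpowers z) :
    Nat.card (Nr E) = 27 * 5616 := by
  classical
  have c1 := card_mul_index ((Ce z).subgroupOf (Nr E))
  rw [Nat.card_congr (subgroupOfEquivOfLe hn).toEquiv, card_C h] at c1
  have c2 := H4.relIndex_cent_eq_ncard z (Nr E)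
  have z1 : z ≠ 1 := fun e => by simpa [e] using h.oz
  have he := (mem_normalizer_iff.1 n1 z).1 hz
  obtain ⟨q, hq, e1⟩ := coset h (inv_mem (le he)) (mt inv_mem_iff.1 n2) (h.inv _ (le he))
  have m1 : n⁻¹ * q⁻¹ * t * n ∈ Nr E :=
    mul_mem (mul_mem (mul_mem (inv_mem n1) (inv_mem (hn (h.QC hq)))) (hn h.tC)) n1
  have mz : n⁻¹ * q⁻¹ * t * n * z * (n⁻¹ * q⁻¹ * t * n)⁻¹ = z⁻¹ := by
    rw [mul_inv_cancel_right] at e1
    calc _ = n⁻¹ * q⁻¹ * (t * (n * z * n⁻¹) * t⁻¹) * q * n := by group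
      _ = _ := by rw [← e1]; group
  generalize n⁻¹ * q⁻¹ * t * n = m at m1 mz
  have zz : z * z = z⁻¹ := eq_inv_of_mul_eq_one_left (by rw [← pow_three', h.exp z h.zQ])
  have mE : ∀ d ∈ Nr E, d * z * d⁻¹ ∈ E := fun d hd => (mem_normalizer_iff.1 hd z).1 hz
  let S : Subgroup G :=
    { carrier := insert 1 ((fun d => d * z * d⁻¹) '' (Nr E : Set G))
      one_mem' := Or.inl rfl
      inv_mem' := by
        rintro _ (rfl | ⟨d, hd, rfl⟩)
        exacts [Or.inl inv_one, Or.inr ⟨d * m, mul_mem hd m1,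
          show _ = (d * z * d⁻¹)⁻¹ by rw [conj_inv, ← mz]; group⟩]
      mul_mem' := by
        rintro _ y (rfl | ⟨d, hd, rfl⟩) hy
        · rwa [one_mul]
        rcases hy with rfl | ⟨k, hk, rfl⟩
        · exact Or.inr ⟨d, hd, (mul_one _).symm⟩
        have e : d * z * d⁻¹ * (k * z * k⁻¹) = d * (z * (d⁻¹ * k * z * (d⁻¹ * k)⁻¹)) * d⁻¹ := by
          group
        have hk' := mul_mem (inv_mem hd) hk
        change d * z * d⁻¹ * (k * z * k⁻¹) ∈ _
        rw [e]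
        generalize d⁻¹ * k = k at hk'
        by_cases hZ : k * z * k⁻¹ ∈ zpowers z
        · rcases (mem_zp3 h.oz).1 hZ with e | e | e <;> rw [e]
          exacts [Or.inr ⟨d, hd, by simp⟩, Or.inr ⟨d * m, mul_mem hd m1, by
            rw [zz, ← mz]; group⟩, Or.inl (by simp [zz])]
        · obtain ⟨q, hq, e⟩ := coset h (le (mE k hk')) hZ (mem_zpowers z)
          exact Or.inr ⟨d * q * k, mul_mem (mul_mem hd (hn (h.QC hq))) hk', by rw [← e]; group⟩ }
  have l1 : S ≤ E := by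
    rintro _ (rfl | ⟨d, hd, rfl⟩)
    exacts [one_mem _, mE d hd]
  have c3 : Nat.card S = ((Ce z).subgroupOf (Nr E)).index + 1 :=
    (Set.ncard_insert_of_notMem (s := (fun d => d * z * d⁻¹) '' (Nr E : Set G))
      (fun ⟨d, _, e⟩ => z1 (by simpa using e))).trans (by rw [← c2]; rfl)
  have c4 := (card_dvd_of_le l1).trans hE.dvd
  have c5 := card_step (lt_of_le_not_ge (zpowers_le.2 (show z ∈ S from Or.inr ⟨1, one_mem _, by simp⟩))
    fun e => n2 (e (Or.inr ⟨n, n1, rfl⟩))) (n := 3) c4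
  rw [card_Z h, c3] at c5
  rw [c3] at c4
  rw [← c1] at dv ⊢
  have := Nat.le_of_dvd (by decide) c4
  generalize ((Ce z).subgroupOf (Nr E)).index = k at c4 c5 dv this ⊢
  have : k ≤ 26 := by omega
  interval_cases k <;> omega

end H0'

/-! ### The model -/

/-- inverse transpose -/
def itr : SL3 →* SL3 := MonoidHom.mk' (fun A => A⁻¹.transpose) fun A B =>
  Subtype.ext (by rw [_root_.mul_inv_rev]; exact transpose_mul _ _)

theorem exists_phi {E : Subgroup G} {ε : Multiplicative (Fin 3 → F3) →* G}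
    (hi : Function.Injective ε) (hr : ε.range = E) (hN : Nat.card (Nr E) = 27 * 5616)
    (lam : SL3 →* G) (hl : ∀ A, lam A ∈ Nr E ∧ ∀ v : Fin 3 → F3,
      lam A * ε (ofAdd v) * (lam A)⁻¹ = ε (ofAdd (A.1 *ᵥ v))) :
    ∃ φ : PP →* G, Function.Injective φ ∧ φ.range = Nr E ∧ ∀ v, φ (mk v 1) = ε (ofAdd v) := by
  let f : PP → G := fun g => lam (itr (lev g)) * ε (ofAdd fun j => M g 0 j.succ)
  have hf : ∀ v A, f (mk v A) = lam (itr A) * ε (ofAdd v) := fun v A => by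
    simp only [f, lev_mk]
    congr 3
    ext j; fin_cases j <;> rfl
  have cj : ∀ v A, ε (ofAdd v) * lam (itr A) = lam (itr A) * ε (ofAdd (v ᵥ* A.1)) := fun v A => by
    rw [mul_inv_eq_iff_eq_mul.1 ((hl (itr A)).2 (v ᵥ* A.1))]
    congr 3
    change _ = (A⁻¹).1ᵀ *ᵥ _
    rw [mulVec_transpose, vecMul_vecMul,
      show A.1 * (A⁻¹).1 = 1 from congrArg Subtype.val (mul_inv_cancel A), vecMul_one]
  let φ : PP →* G := MonoidHom.mk' f fun g k => by
    obtain ⟨v, A, rfl⟩ := exists_mk g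
    obtain ⟨w, B, rfl⟩ := exists_mk k
    rw [mk_mul, hf, hf, hf, map_mul, map_mul, add_comm, ofAdd_add, map_mul, mul_assoc, mul_assoc,
      ← mul_assoc (ε _), cj, mul_assoc]
  have inj : Function.Injective φ := (injective_iff_map_eq_one φ).2 fun g e => by
    obtain ⟨v, A, rfl⟩ := exists_mk g
    have e1 : lam (itr A) = (ε (ofAdd v))⁻¹ := eq_inv_of_mul_eq_one_left ((hf v A).symm.trans e)
    obtain rfl : A = 1 := Subtype.ext (transpose_injective (mat_ext fun w => by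
      have := cj w A
      rw [e1, ← map_inv, ← map_mul, ← map_mul, mul_comm] at this
      simpa [mulVec_transpose] using (ofAdd.injective (mul_left_cancel (hi this))).symm))
    rw [map_one, map_one, eq_comm, inv_eq_one, map_eq_one_iff _ hi, ofAdd_eq_one] at e1
    rw [e1, mk_one]
  refine ⟨φ, inj, eq_of_le_of_card_ge ?_ (by rw [hN, card_range inj]), fun v =>
    (hf v 1).trans (by simp)⟩
  rintro _ ⟨g, rfl⟩
  exact mul_mem (hl _).1 (le_normalizer (hr.le ⟨_, rfl⟩))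

variable {φ : PP →* G}

theorem mem_QQ (hi : Function.Injective φ) {p : PP} (h : ∀ a b c,
    (φ p)⁻¹ * s φ a b c 0 0 0 * φ p * (s φ a b c 0 0 0)⁻¹ ∈ zpowers (zz φ)) : φ p ∈ QQ φ := by
  obtain ⟨v, A, rfl⟩ := exists_mk p
  have key : ∀ w : Fin 3 → F3, (w ᵥ* A.1) 0 = w 0 ∧ (w ᵥ* A.1) 1 = w 1 := fun w => by
    have h1 := h (w 0) (w 1) (w 2)
    have e : (φ (mk v A))⁻¹ * s φ (w 0) (w 1) (w 2) 0 0 0 * φ (mk v A) =
        s φ ((w ᵥ* A.1) 0) ((w ᵥ* A.1) 1) ((w ᵥ* A.1) 2) 0 0 0 := by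
      rw [s, s, ← mk_eq_uP, ← mk_eq_uP, mul_assoc, inv_mul_eq_iff_eq_mul, ← map_mul, ← map_mul,
        mk_mul, mk_mul]
      simp [add_comm]
    rw [e, s_inv, s_mul, mem_zp3 (orderOf_eq_prime (by rw [s_cube]; simp [s_zero])
      (by simp [s_eq_one hi])), s_mul, s_eq_one hi, H42.L43.s_inj hi, H42.L43.s_inj hi] at h1
    simp only [neg_zero, ← sub_eq_add_neg, mul_zero, add_zero, zero_sub, sub_eq_zero] at h1
    tauto
  have k0 := key ![1, 0, 0]
  have k1 := key ![0, 1, 0]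
  have k2 := key ![0, 0, 1]
  have d := A.2
  simp [vecMul, dotProduct, Fin.sum_univ_three] at k0 k1 k2
  rw [det_fin_three] at d
  simp [k0, k1, k2] at d
  exact ⟨v 0, v 1, v 2, A 0 2, A 1 2, congrArg φ (PP_ext (by
    rw [mk_val, uP_val, k0.1, k0.2, k1.1, k1.2, k2.1, k2.2, d]))⟩

theorem card_QQ : Nat.card (QQ φ) ≤ 243 := by
  refine (Nat.card_le_card_of_surjective (fun v : Fin 5 → F3 => (⟨s φ (v 0) (v 1) (v 2) 0 (v 3) (v 4),
    _, _, _, _, _, rfl⟩ : QQ φ)) ?_).trans (by simp)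
  rintro ⟨_, a, b, c, e, f, rfl⟩
  exact ⟨![a, b, c, e, f], rfl⟩

theorem card_E2 : Nat.card (E2 φ) ≤ 27 := by
  refine (Nat.card_le_card_of_surjective (fun v : Fin 3 → F3 => (⟨s φ 0 0 (v 0) 0 (v 1) (v 2),
    _, _, _, rfl⟩ : E2 φ)) ?_).trans (by simp)
  rintro ⟨_, c, e, f, rfl⟩
  exact ⟨![c, e, f], rfl⟩

set_option synthInstance.maxSize 1024 in
theorem E1_or_E2 (hi : Function.Injective φ) {E : Subgroup G} (le : E ≤ QQ φ)
    (hE : Nat.card E = 27) (hc : ∀ a ∈ E, ∀ b ∈ E, a * b = b * a) (hn : Ce (zz φ) ≤ Nr E) :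
    E = E1 φ ∨ E = E2 φ := by
  have t1 : ∀ {a b c e f}, s φ a b c 0 e f ∈ E → s φ a (b - a) c 0 (e + f) f ∈ E := fun h => by
    have := (mem_normalizer_iff.1 (hn (show s φ 0 0 0 1 0 0 ∈ _ from mem_Ce.2 (by
      simp [s_mul]))) _).1 h
    rw [s_inv, s_mul, s_mul] at this
    convert this using 2 <;> ring
  have t2 : ∀ {a b c e f}, s φ a b c 0 e f ∈ E → s φ b (-a) c 0 f (-e) ∈ E := fun h =>
    s_n2 (φ := φ) .. ▸ (mem_normalizer_iff.1 (hn (mem_Ce.2 (mul_inv_eq_iff_eq_mul.1 (by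
      simp [s_n2])))) _).1 h
  have is : ∀ {a b c e f a' b' c' e' f'}, s φ a b c 0 e f ∈ E → s φ a' b' c' 0 e' f' ∈ E →
      a * e' + b * f' = a' * e + b' * f := fun h h' => by
    have := hc _ h _ h'
    rw [s_mul, s_mul, H42.L43.s_inj hi] at this
    linear_combination this.2.2.1
  refine (SubgroupClass.subset_union.1 fun x hx => ?_).imp
    (fun h : E ≤ E1 φ => eq_of_le_of_card_ge h (by rw [card_E1 hi, hE]))
    fun h : E ≤ E2 φ => eq_of_le_of_card_ge h (hE ▸ card_E2)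
  obtain ⟨a, b, c, e, f, rfl⟩ := le hx
  rcases (by decide : ∀ a b e f : F3, a * (e + f) + b * f = a * e + (b - a) * f →
      b * (f + -e) + -a * -e = b * f + (-a - b) * -e →
      a * (f + -e) + b * -e = b * e + (-a - b) * f → (e = 0 ∧ f = 0) ∨ (a = 0 ∧ b = 0)) a b e f
    (is hx (t1 hx)) (is (t2 hx) (t1 (t2 hx))) (is hx (t1 (t2 hx))) with ⟨rfl, rfl⟩ | ⟨rfl, rfl⟩
  exacts [Or.inl ⟨_, _, _, rfl⟩, Or.inr ⟨_, _, _, rfl⟩]

theorem jobM : JobM.{u} := by
  intro ab sl G _ _ z t x Q π h h1 h2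
  have A := ab G z t Q π h x h1 h2
  have h3 : x⁻¹ * z * x⁻¹⁻¹ ∉ zpowers z := fun e => h2 (by
    rcases (mem_zp3 h.oz).1 e with e | e | e
    · rw [conj_eq_one_iff.1 e]; simp
    · rw [show x * z * x⁻¹ = z by simpa [mul_assoc] using congrArg (fun y => x * y * x⁻¹) e.symm]
      exact mem_zpowers z
    · refine H0'.of_sq h h1 ?_
      rw [conj_mul, ← e]
      simp [mul_assoc])
  have A' := ab G z t Q π h x⁻¹ (by simpa using mem_cj.1 A.mem) h3
  have hz : z ∈ Q ⊓ cj x Q := ⟨h.zQ, A.mem⟩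
  have hc := H0'.cenE h inf_le_left A.card A.comm hz A.nor
  obtain ⟨ε, hi, hr, e⟩ := exists_basis A.comm (fun a ha => h.exp a ha.1) A.card h.oz hz
    ⟨h1, mem_cj.2 (by simpa [mul_assoc] using h.zQ)⟩ h2
  obtain ⟨q, hq, eq⟩ := H0'.coset h (mem_cj.1 A.mem) (by simpa using h3) (mem_zpowers z)
  have hN := H0'.card_N h inf_le_left A.card hz A.nor (card_dvd hi hr hc) (n := x * q * x⁻¹)
    (mem_normalizer_fintype fun y hy => by
      have := (mem_normalizer_iff.1 (A'.nor (h.QC hq)) (x⁻¹ * y * x)).1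
        ⟨mem_cj.1 hy.2, mem_cj.2 (by simpa [mul_assoc] using hy.1)⟩
      exact ⟨by simpa [mul_assoc] using mem_cj.1 this.2,
        mem_cj.2 (by simpa [mul_assoc] using this.1)⟩) fun e => h2 (by
      rw [show x * q * x⁻¹ * z * (x * q * x⁻¹)⁻¹ = x * (q * (x⁻¹ * z * x) * q⁻¹) * x⁻¹ by group, eq,
        show x * (z * (x⁻¹ * z * x)) * x⁻¹ = x * z * x⁻¹ * z by group] at e
      exact (mul_mem_cancel_right (mem_zpowers z)).1 e)
  obtain ⟨K, k1, k2, k3⟩ := A.compl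
  obtain ⟨lam, hl⟩ := (sl G _ K ε hi hr hc hN).2.2 (k1.trans A.nor) k2 k3
  obtain ⟨φ, inj, rg, hφ⟩ := exists_phi hi hr hN lam hl
  have ez : zz φ = z := by rw [zz, s, uP_eq_mk, hφ, e]
  have eQ : Q = QQ φ := eq_of_le_of_card_ge (fun q hq => by
    obtain ⟨p, rfl⟩ := rg.ge (A.nor (h.QC hq))
    refine mem_QQ inj fun a b c => ?_
    simpa only [ez, inv_inv] using h.comm _ (inv_mem hq) (s φ a b c 0 0 0)
      (by rw [s, uP_eq_mk, hφ]; exact (hr.le ⟨_, rfl⟩).1)) (h.card ▸ card_QQ)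
  subst ez eQ
  refine ⟨φ, inj, rg ▸ A.nor, fun g g1 g2 => ?_⟩
  have B := ab G _ t _ π h g g1 g2
  exact ⟨B.mem, E1_or_E2 inj inf_le_left B.card B.comm B.nor⟩

end H38.L43
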