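/- The three wrong braid relations over the field with two elements collapse the amalgam. -/
import Cfsg.Agent.H63.OcSpec
import Cfsg.Agent.H38.OcT

set_option autoImplicit false
set_option maxRecDepth 100000
set_option linter.unusedSectionVars false

namespace H38.OcTC

open H63.Oc H71 H38.OcT

universe u v

/-- the prime field -/
def T2 : TF (ZMod 2) := ⟨RingHom.id _, by decide⟩

/-- the model of the Sylow subgroup -/
abbrev M : Type := Co T2

instance decM : DecidableEq M := fun _ _ => decidable_of_iff _ Co.ext_iff.symm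

/-- evaluation of a coordinate -/
def fz (a : ZMod 2) (k : ZMod 2 → Bool) : Bool := cond (decide (a = 0)) (k 0) (k 1)

theorem fz_eq (a : ZMod 2) (k : ZMod 2 → Bool) : fz a k = k a := by
  have : ∀ a : ZMod 2, a = 0 ∨ a = 1 := by decide
  rcases this a with rfl | rfl <;> rfl

/-- evaluation of an element -/
def fc (c : M) (k : M → Bool) : Bool :=
  fz c.a1 fun a1 => fz c.b2 fun b2 => fz c.a2 fun a2 => fz c.a3 fun a3 => fz c.b4 fun b4 =>
  fz c.a4 fun a4 => fz c.a5 fun a5 => fz c.b6 fun b6 => fz c.a6 fun a6 => fz c.a7 fun a7 =>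
  fz c.b8 fun b8 => fz c.a8 fun a8 => k ⟨a1, b2, a2, a3, b4, a4, a5, b6, a6, a7, b8, a8⟩

theorem fc_eq (c : M) (k : M → Bool) : fc c k = k c := by simp only [fc, fz_eq]

/-- the letters -/
noncomputable def vS : ℕ → M := mkVal [y2 T2 1, y4 T2 1, y6 T2 1, y8 T2 1]
  [x1 T2 1, x2 T2 1, x3 T2 1, x4 T2 1, x5 T2 1, x6 T2 1, x7 T2 1, x8 T2 1]

/-- evaluation of a word -/
noncomputable def evK (w : List ℕ) : (M → Bool) → Bool :=
  List.rec (motive := fun _ => (M → Bool) → Bool) (fun k => k 1)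
    (fun l _ ih k => ih fun x => fc (vS l) fun y => fc (y * x) k) w

theorem evK_eq (w : List ℕ) (k : M → Bool) : evK w k = k (evw vS w) := by
  induction w generalizing k with
  | nil => rfl
  | cons l w ih =>
    show evK w (fun x => fc (vS l) fun y => fc (y * x) k) = _
    rw [ih, fc_eq, fc_eq, evw_cons]

theorem relS : ∀ r ∈ RS, evw vS r = 1 := fun r hr => by
  have := of_allL (f := fun r => evK r fun x => decide (x = 1)) (L := RS) (by decide +kernel) r hr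
  rwa [evK_eq, decide_eq_true_iff] at this

section
variable {K : Type*} [Field K] [CharP K 2] (T : TF K)

/-- the prime field inside `K` -/
noncomputable abbrev f : ZMod 2 →+* K := ZMod.castHom (dvd_refl 2) K

theorem σf (a : ZMod 2) : T.σ (f a) = f a := by
  have : ∀ a : ZMod 2, a = 0 ∨ a = 1 := by decide
  rcases this a with rfl | rfl <;> simp

theorem σ2 (a : ZMod 2) : T2.σ a = a := rfl

/-- the points over the prime field -/
noncomputable def φ : M →* Co T := MonoidHom.mk' (fun c => ⟨f c.a1, f c.b2, f c.a2, f c.a3, f c.b4,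
    f c.a4, f c.a5, f c.b6, f c.a6, f c.a7, f c.b8, f c.a8⟩) fun c d => by
  ext <;> simp only [Co.mul_a1, Co.mul_b2, Co.mul_a2, Co.mul_a3, Co.mul_b4, Co.mul_a4, Co.mul_a5,
    Co.mul_b6, Co.mul_a6, Co.mul_a7, Co.mul_b8, Co.mul_a8, map_add, map_mul, map_pow, σf, σ2]

theorem φ_apply (c : M) : φ T c = ⟨f c.a1, f c.b2, f c.a2, f c.a3, f c.b4,
    f c.a4, f c.a5, f c.b6, f c.a6, f c.a7, f c.b8, f c.a8⟩ := rfl

theorem φ_inj : Function.Injective (φ T) := fun c d h => by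
  have hf := (f (K := K)).injective
  simp only [φ_apply, Co.mk.injEq, hf.eq_iff] at h
  exact Co.ext_iff.2 h

theorem φ_nu8 (c : M) : φ T c.nu8 = (φ T c).nu8 := by
  ext <;> simp only [φ_apply, Co.nu8, map_add, map_mul, map_zero, σf, σ2]

theorem φ_nu1 (c : M) : φ T c.nu1 = (φ T c).nu1 := by
  ext <;> simp only [φ_apply, Co.nu1, map_add, map_mul, map_pow, map_zero, σf, σ2]

theorem φ_U8 (hK : ∀ a : K, a = 0 ∨ a = 1) {u : Co T} (hu : u ∈ sU8 T) :
    ∃ v ∈ [1, y8 T2 1, x8 T2 1, uu T2 1 1], u = φ T v := by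
  obtain ⟨h1, h2, h3, h4, h5, h6, h7, h8, h9, h10⟩ := hu
  rcases hK u.b8 with a | a <;> rcases hK u.a8 with b | b
  · exact ⟨1, by simp, by ext <;> simp [φ_apply, *]⟩
  · exact ⟨x8 T2 1, by simp, by ext <;> simp [φ_apply, x8, *]⟩
  · exact ⟨y8 T2 1, by simp, by ext <;> simp [φ_apply, y8, *]⟩
  · exact ⟨uu T2 1 1, by simp, by ext <;> simp [φ_apply, uu, *]⟩

variable {T} {G : Type*} [Group G] (A : AD T G)

/-- the embedding of the model -/
noncomputable def j : M →* G := A.ι.comp (φ T)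

theorem j_inj : Function.Injective (j A) := A.inj.comp (φ_inj T)

theorem j8 {c : M} (h : c.b8 = 0 ∧ c.a8 = 0) : A.n8 * j A c * A.n8 = j A c.nu8 := by
  rw [j, MonoidHom.comp_apply, MonoidHom.comp_apply, φ_nu8]
  exact A.n8_conj _ ⟨by simp [φ_apply, h.1], by simp [φ_apply, h.2]⟩

theorem j1 {c : M} (h : c.a1 = 0) : A.n1 * j A c * A.n1 = j A c.nu1 := by
  rw [j, MonoidHom.comp_apply, MonoidHom.comp_apply, φ_nu1]
  exact A.n1_conj _ (show (φ T c).a1 = 0 by simp [φ_apply, h])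

theorem conjQ (g c : M) (hc : c.b8 = 0 ∧ c.a8 = 0) :
    (g * c * g⁻¹).b8 = 0 ∧ (g * c * g⁻¹).a8 = 0 := by
  simp only [Co.mul_b8, Co.mul_a8, Co.inv_b8, Co.inv_a8, hc.1, hc.2, σ2]
  generalize g.b8 = a
  generalize g.a8 = b
  revert a b
  decide

theorem act8 {u v w : M} (e : A.n8 * j A u * A.n8 = j A v * A.n8 * j A w) {c : M}
    (hc : c.b8 = 0 ∧ c.a8 = 0) : (u * c.nu8 * u⁻¹).nu8 = v * (w * c * w⁻¹).nu8 * v⁻¹ := by
  have nn : A.n8⁻¹ = A.n8 := inv_eq_of_mul_eq_one_right A.n8_sq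
  have e1 := j8 A (conjQ u c.nu8 ⟨rfl, rfl⟩)
  have e2 := j8 A (conjQ w c hc)
  have e3 := j8 A hc
  apply j_inj A
  rw [← e1, map_mul, map_mul, ← e3, map_mul (j A) (v * _), map_mul (j A) v, ← e2]
  simp only [map_mul, map_inv]
  calc _ = A.n8 * j A u * A.n8 * j A c * (A.n8 * j A u * A.n8)⁻¹ := by
        rw [mul_inv_rev, mul_inv_rev, nn]; simp only [mul_assoc]
    _ = _ := by rw [e, mul_inv_rev, mul_inv_rev, nn]; simp only [mul_assoc]

/-- the test for the rank one relation -/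
def tst (v w c : M) : Bool :=
  fc (y8 T2 1 * c.nu8) fun a => fc (a * (y8 T2 1)⁻¹) fun a => fc a.nu8 fun a =>
    fc (w * c) fun b => fc (b * w⁻¹) fun b => fc (v * b.nu8) fun b => decide (a = b * v⁻¹)

theorem rank8 (hK : ∀ a : K, a = 0 ∨ a = 1) :
    A.n8 * j A (y8 T2 1) * A.n8 = j A (y8 T2 1) * A.n8 * j A (x8 T2 1) := by
  obtain ⟨u', h1, u'', h2, p, e⟩ := A.rank8 (φ T (y8 T2 1)) (by simp [mem_sU8, φ_apply, y8])
    fun e => absurd (φ_inj T (e.trans (map_one _).symm)) (by decide +kernel)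
  have hp : p = 1 := Subtype.ext (Prod.ext
    (Units.ext ((hK _).resolve_left p.1.1.ne_zero)) (Units.ext ((hK _).resolve_left p.1.2.ne_zero)))
  obtain ⟨v, hv, rfl⟩ := φ_U8 T hK h1
  obtain ⟨w, hw, rfl⟩ := φ_U8 T hK h2
  rw [hp, map_one, mul_one] at e
  have key : ∀ c : M, c.b8 = 0 ∧ c.a8 = 0 → tst v w c = true := fun c hc => by
    simp only [tst, fc_eq, decide_eq_true_iff]
    exact act8 A e hc
  have : ∀ v ∈ [1, y8 T2 1, x8 T2 1, uu T2 1 1], ∀ w ∈ [1, y8 T2 1, x8 T2 1, uu T2 1 1],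
      tst v w (y2 T2 1) = true → tst v w (y6 T2 1) = true → v = y8 T2 1 ∧ w = x8 T2 1 := by
    decide +kernel
  obtain ⟨e1, e2⟩ := this v hv w hw (key _ ⟨rfl, rfl⟩) (key _ ⟨rfl, rfl⟩)
  rw [e1, e2] at e
  exact e

/-- the letters in `G` -/
noncomputable def vG : ℕ → G := mkVal ([y2 T2 1, y4 T2 1, y6 T2 1, y8 T2 1].map (j A))
  ([x1 T2 1, x2 T2 1, x3 T2 1, x4 T2 1, x5 T2 1, x6 T2 1, x7 T2 1, x8 T2 1].map (j A) ++ [A.n1, A.n8])

theorem vG_lt {l : ℕ} (h : l < 16) : vG A l = j A (vS l) := by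
  rw [vS, map_mkVal]
  interval_cases l <;> rfl

theorem evw_vG {w : List ℕ} (h : ∀ l ∈ w, l < 16) : evw (vG A) w = j A (evw vS w) := by
  induction w with
  | nil => simp
  | cons l w ih =>
    rw [evw_cons, evw_cons, map_mul, vG_lt A (h l (by simp)), ih fun i hi => h i (by simp [hi])]

theorem vG_inv (l : ℕ) : vG A (linv 8 l) = (vG A l)⁻¹ := by
  refine mkVal_inv ([y2 T2 1, y4 T2 1, y6 T2 1, y8 T2 1].map (j A)) _ (fun g hg => ?_) l
  rcases List.mem_append.1 hg with hg | hg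
  · obtain ⟨c, hc, rfl⟩ := List.mem_map.1 hg
    rw [← map_mul, (by decide +kernel : ∀ c ∈ [x1 T2 1, x2 T2 1, x3 T2 1, x4 T2 1, x5 T2 1, x6 T2 1,
      x7 T2 1, x8 T2 1], c * c = 1) c hc, map_one]
  · simp only [List.mem_cons, List.not_mem_nil, or_false] at hg
    rcases hg with rfl | rfl
    exacts [A.n1_sq, A.n8_sq]

theorem rel1 (l : ℕ) (w : List ℕ) (h : (∀ i ∈ l :: w, i < 16) ∧ (vS l).a1 = 0 ∧
    (vS l).nu1 * evw vS w = 1) : evw (vG A) (16 :: l :: 16 :: w) = 1 := by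
  rw [evw_cons, evw_cons, evw_cons, vG_lt A (h.1 l (by simp)), evw_vG A fun i hi => h.1 i (by simp [hi])]
  show A.n1 * (_ * (A.n1 * _)) = 1
  rw [← mul_assoc, ← mul_assoc, j1 A h.2.1, ← map_mul, h.2.2, map_one]

theorem rel8 (l : ℕ) (w : List ℕ) (h : (∀ i ∈ l :: w, i < 16) ∧ ((vS l).b8 = 0 ∧ (vS l).a8 = 0) ∧
    (vS l).nu8 * evw vS w = 1) : evw (vG A) (17 :: l :: 17 :: w) = 1 := by
  rw [evw_cons, evw_cons, evw_cons, vG_lt A (h.1 l (by simp)), evw_vG A fun i hi => h.1 i (by simp [hi])]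
  show A.n8 * (_ * (A.n8 * _)) = 1
  rw [← mul_assoc, ← mul_assoc, j8 A h.2.1, ← map_mul, h.2.2, map_one]

theorem j_x1 : j A (x1 T2 1) = A.ι (x1 T 1) := congrArg A.ι (by ext <;> simp [φ_apply, x1])
theorem j_x4 : j A (x4 T2 1) = A.τ := congrArg A.ι (by ext <;> simp [φ_apply, x4])
theorem j_x6 : j A (x6 T2 1) = A.ι (x6 T 1) := congrArg A.ι (by ext <;> simp [φ_apply, x6])
theorem j_x7 : j A (x7 T2 1) = A.ι (x7 T 1) := congrArg A.ι (by ext <;> simp [φ_apply, x7])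

theorem relN (hK : ∀ a : K, a = 0 ∨ a = 1) : ∀ r ∈ RN, evw (vG A) r = 1 := fun r hr => by
  simp only [RN, List.mem_cons, List.not_mem_nil, or_false] at hr
  rcases hr with rfl | rfl | rfl | rfl | rfl | rfl | rfl | rfl | rfl | rfl | rfl | rfl | rfl | rfl |
    rfl | rfl | rfl | rfl | rfl | rfl | rfl | rfl | rfl
  iterate 21 first | exact rel1 A _ _ (by decide +kernel) | exact rel8 A _ _ (by decide +kernel)
  · have := A.rank1
    rw [← j_x1, pow_three] at this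
    show A.n1 * (j A (x1 T2 1) * (A.n1 * (j A (x1 T2 1) * (A.n1 * (j A (x1 T2 1) * 1))))) = 1
    simpa only [mul_assoc, mul_one] using this
  · show A.n8 * (j A (y8 T2 1) * (A.n8 * (j A (x8 T2 1) * (A.n8 * ((j A (y8 T2 1))⁻¹ * 1))))) = 1
    have e : j A (x8 T2 1) * j A (x8 T2 1) = 1 := by
      rw [← map_mul, show x8 T2 1 * x8 T2 1 = 1 by decide +kernel, map_one]
    rw [← mul_assoc, ← mul_assoc, rank8 A hK, mul_assoc, ← mul_assoc (j A (x8 T2 1)), e, one_mul,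
      mul_assoc, ← mul_assoc A.n8, A.n8_sq]
    simp

theorem nu_eq : A.ν * A.τ * A.ν = evw (vG A) [16, 17, 16, 17, 15, 17, 16, 17, 16] := by
  have e1 : A.n1 * A.τ * A.n1 = j A (x6 T2 1) := by
    rw [← j_x4, j1 A rfl]; exact congrArg _ (by decide +kernel)
  have e2 : A.n8 * j A (x6 T2 1) * A.n8 = j A (x2 T2 1) := by
    rw [j8 A ⟨rfl, rfl⟩]; exact congrArg _ (by decide +kernel)
  have e3 : A.n1 * j A (x2 T2 1) * A.n1 = j A (x8 T2 1) := by
    rw [j1 A rfl]; exact congrArg _ (by decide +kernel)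
  show _ = A.n1 * (A.n8 * (A.n1 * (A.n8 * (j A (x8 T2 1) * (A.n8 * (A.n1 * (A.n8 * (A.n1 * 1))))))))
  rw [← e3, ← e2, ← e1, AD.ν]
  simp only [mul_assoc, mul_one]

theorem collapse (hK : ∀ a : K, a = 0 ∨ a = 1) {x : G} (w : List ℕ)
    (e : x * A.n8 * x⁻¹ = evw (vG A) w)
    (h : x * A.n8 * x⁻¹ * (A.ν * A.τ * A.ν) = A.ν * A.τ * A.ν * (x * A.n8 * x⁻¹))
    (c : (∀ r ∈ (RS ++ (RN ++ [w ++ [16, 17, 16, 17, 15, 17, 16, 17, 16] ++
        (w ++ [16, 17, 16, 17, 15, 17, 16, 17, 16])])) ++ [], evw (vG A) r = 1) →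
      (∀ l ∈ aHL, vG A l ∈ Subgroup.centralizer {A.τ}) →
      ∀ w ∈ [[16]], evw (vG A) w ∈ Subgroup.centralizer {A.τ}) : False := by
  have := c (fun r hr => ?_) (fun l hl => ?_) [16] (by simp)
  · have e1 : A.n1 * A.τ = A.τ * A.n1 := by
      simpa using (Subgroup.mem_centralizer_singleton_iff.1 this :
        A.n1 * 1 * A.τ = A.τ * (A.n1 * 1))
    have e2 := j1 A (c := x4 T2 1) rfl
    rw [j_x4, e1, mul_assoc, A.n1_sq, mul_one, ← j_x4] at e2
    exact absurd (j_inj A e2) (by decide +kernel)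
  · simp only [List.append_nil, List.mem_append, List.mem_singleton] at hr
    rcases hr with hr | hr | rfl
    · rw [evw_vG A ((by decide +kernel : ∀ r ∈ RS, ∀ l ∈ r, l < 16) r hr), relS r hr, map_one]
    · exact relN A hK r hr
    · have t2 : A.τ * A.τ = 1 := by
        rw [← j_x4, ← map_mul, show x4 T2 1 * x4 T2 1 = 1 by decide +kernel, map_one]
      have z2 := (evw_winv (vG_inv A) [16, 17, 16, 17, 15, 17, 16, 17, 16])
      rw [show winv 8 [16, 17, 16, 17, 15, 17, 16, 17, 16] = [16, 17, 16, 17, 15, 17, 16, 17, 16]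
        by decide, ← nu_eq] at z2
      rw [evw_append, evw_append, ← e, ← nu_eq]
      nth_rw 1 [h]
      rw [mul_assoc, ← mul_assoc (x * A.n8 * x⁻¹), show x * A.n8 * x⁻¹ * (x * A.n8 * x⁻¹) =
        x * (A.n8 * A.n8) * x⁻¹ by group, A.n8_sq, mul_one, mul_inv_cancel, one_mul]
      nth_rw 1 [z2]
      exact inv_mul_cancel _
  · rw [Subgroup.mem_centralizer_singleton_iff]
    by_cases h17 : l = 17
    · subst h17
      have e2 := j8 A (c := x4 T2 1) ⟨rfl, rfl⟩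
      rw [show (x4 T2 1).nu8 = x4 T2 1 by decide +kernel, j_x4] at e2
      show A.n8 * _ = _ * A.n8
      conv_lhs => rw [← e2, ← mul_assoc, ← mul_assoc, A.n8_sq, one_mul]
    · have := (by decide +kernel : ∀ l ∈ aHL, l ≠ 17 →
        l < 16 ∧ vS l * x4 T2 1 = x4 T2 1 * vS l) l hl h17
      rw [vG_lt A this.1, ← j_x4, ← map_mul, this.2, map_mul]

end

theorem jobTC2 : JobTC2.{u, v} := by
  intro K _ _ _ T G _ A hK _ x hx h
  have i6 : (A.ι (x6 T 1))⁻¹ = A.ι (x6 T 1) := by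
    rw [← j_x6]; exact (vG_inv A 13).symm
  have i7 : (A.ι (x7 T 1))⁻¹ = A.ι (x7 T 1) := by
    rw [← j_x7]; exact (vG_inv A 14).symm
  simp only [List.mem_cons, List.not_mem_nil, or_false] at hx
  rcases hx with rfl | rfl | rfl
  · refine collapse A hK [13, 17, 13] ?_ h (aseeds_mem (vG_inv A) rfl)
    rw [i6, ← j_x6, mul_assoc, ← mul_one (A.n8 * _), mul_assoc A.n8]; rfl
  · refine collapse A hK [14, 17, 14] ?_ h (bseeds_mem (vG_inv A) rfl)
    rw [i7, ← j_x7, mul_assoc, ← mul_one (A.n8 * _), mul_assoc A.n8]; rfl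
  · refine collapse A hK [13, 14, 17, 14, 13] ?_ h (cseeds_mem (vG_inv A) rfl)
    rw [map_mul, mul_inv_rev, i6, i7, ← j_x6, ← j_x7]
    show _ = j A _ * (j A _ * (A.n8 * (j A _ * (j A _ * 1))))
    simp only [mul_assoc, mul_one]

end H38.OcTC
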