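import Cfsg.Agent.H52.SimXSSpec

/-! Job Bd of the chapter XS of the tower SIM (S3694): the order bound. -/

set_option autoImplicit false

namespace H38.SimBd

open Subgroup
open scoped commutatorElement

theorem full {G Γ : Type} [Group G] [Group Γ] [Finite Γ] (f : G →* Γ) (hs : Function.Surjective f)
    (hk : f.ker ≤ center G) {V : Subgroup Γ} {p : ℕ} (hp : p.Prime) (hV : Nat.card V = p ^ 2)
    {a b : G} (hab : a * b ≠ b * a) {U : Subgroup Γ} (hU : U ≤ V) (ha : f a ∈ U) (hb : f b ∈ U) :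
    V ≤ U := by
  have : Fact p.Prime := ⟨hp⟩
  obtain ⟨i, hi, e⟩ := (Nat.dvd_prime_pow hp).1 (hV ▸ card_dvd_of_le hU)
  rcases hi.eq_or_lt with rfl | hi
  · exact (eq_of_le_of_card_ge hU (by rw [e, hV])).ge
  have hc : IsCyclic U := isCyclic_of_card_dvd_prime (p := p)
    (e ▸ (pow_dvd_pow p (by omega : i ≤ 1)).trans (by simp))
  obtain ⟨g, hg⟩ := hc.exists_generator
  obtain ⟨c, hc⟩ := hs g
  have key : ∀ x : G, f x ∈ U → ∃ (n : ℤ) (z : G), z ∈ center G ∧ x = c ^ n * z := fun x hx => by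
    obtain ⟨n, hn⟩ := mem_zpowers_iff.1 (hg ⟨f x, hx⟩)
    refine ⟨n, (c ^ n)⁻¹ * x, hk ?_, by group⟩
    have hn' : (g : Γ) ^ n = f x := congrArg Subtype.val hn
    rw [MonoidHom.mem_ker, map_mul, map_inv, map_zpow, hc, hn', inv_mul_cancel]
  obtain ⟨m, z, hz, rfl⟩ := key a ha
  obtain ⟨n, w, hw, rfl⟩ := key b hb
  refine absurd (Commute.eq ?_) hab
  have h1 : ∀ x : G, Commute z x := fun x => (mem_center_iff.1 hz x).symm
  have h2 : ∀ x : G, Commute x w := fun x => mem_center_iff.1 hw x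
  exact (((Commute.refl c).zpow_zpow m n).mul_right (h2 _)).mul_left (h1 _)

theorem job : H52.XS.JobBd := by
  classical
  rintro G _ _ Z E H D p hp hZ - hZD hH hi ⟨a, ha, b, hb, hab⟩ hD
  have hn : Z.Normal := ⟨fun z hz g => by
    rw [mem_center_iff.1 (hZ hz) g, mul_inv_cancel_right]; exact hz⟩
  let f : G →* G ⧸ Z := QuotientGroup.mk' Z
  have hs : Function.Surjective f := QuotientGroup.mk'_surjective Z
  have hk : f.ker = Z := QuotientGroup.ker_mk' Z
  have hV : Nat.card (E.map f) = p ^ 2 := by rw [← relIndex_ker, hk, hi]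
  have all : ∀ k : G, f (k * a * k⁻¹) = f a → f (k * b * k⁻¹) = f b → ∀ e ∈ E, ⁅e, k⁆ ∈ Z := by
    intro k h1 h2 e he
    have mem : ∀ x ∈ E, f (k * x * k⁻¹) = f x → f x ∈ E.map f ⊓ centralizer {f k} :=
      fun x hx h => ⟨mem_map_of_mem f hx, mem_centralizer_singleton_iff.2 (by
        rw [map_mul, map_mul, map_inv, mul_inv_eq_iff_eq_mul] at h; exact h.symm)⟩
    have h3 := (full f hs (hk.le.trans hZ) hp hV hab inf_le_left (mem a ha h1) (mem b hb h2)
      (mem_map_of_mem f he)).2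
    rw [← hk, MonoidHom.mem_ker, map_commutatorElement, commutatorElement_eq_one_iff_mul_comm]
    exact mem_centralizer_singleton_iff.1 h3
  have hr : ∀ α β : G ⧸ Z, ∃ r ∈ H, (∃ h ∈ H, f (h * a * h⁻¹) = α ∧ f (h * b * h⁻¹) = β) →
      f (r * a * r⁻¹) = α ∧ f (r * b * r⁻¹) = β := fun α β => by
    by_cases h : ∃ h ∈ H, f (h * a * h⁻¹) = α ∧ f (h * b * h⁻¹) = β
    · obtain ⟨r, h1, h2⟩ := h
      exact ⟨r, h1, fun _ => h2⟩
    · exact ⟨1, one_mem _, fun h' => absurd h' h⟩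
  choose r hrH hr using hr
  choose σ hσ using hs
  have cov : ∀ h : H, ∃ t : E.map f × E.map f × E.map f × D,
      r t.1 t.2.1 * σ t.2.2.1 * t.2.2.2 = h := by
    intro h
    have cj : ∀ x ∈ E, (h : G) * x * (h : G)⁻¹ ∈ E := fun x hx =>
      (mem_normalizer_iff.1 (hH h.2) x).1 hx
    obtain ⟨e1, e2⟩ := hr _ _ ⟨h, h.2, rfl, rfl⟩
    set s := r (f (h * a * (h : G)⁻¹)) (f (h * b * (h : G)⁻¹)) with hs
    have back : ∀ x : G, f (s * x * s⁻¹) = f (h * x * (h : G)⁻¹) →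
        f (s⁻¹ * h * x * (s⁻¹ * h)⁻¹) = f x := fun x e => by
      calc f (s⁻¹ * h * x * (s⁻¹ * h)⁻¹) = f s⁻¹ * f (h * x * (h : G)⁻¹) * f s := by
            rw [← map_mul, ← map_mul]; congr 1; group
        _ = f x := by rw [← e, ← map_mul, ← map_mul]; congr 1; group
    obtain ⟨x, hx, hd⟩ := hD (s⁻¹ * h) (mul_mem (inv_mem (hrH _ _)) h.2)
      (all _ (back a e1) (back b e2))
    have hz : (σ (f x))⁻¹ * x ∈ Z := hk.le (by
      rw [MonoidHom.mem_ker, map_mul, map_inv, hσ, inv_mul_cancel])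
    refine ⟨(⟨_, mem_map_of_mem f (cj a ha)⟩, ⟨_, mem_map_of_mem f (cj b hb)⟩,
      ⟨_, mem_map_of_mem f hx⟩, ⟨_, mul_mem (hZD hz) hd⟩), ?_⟩
    change s * σ (f x) * ((σ (f x))⁻¹ * x * (x⁻¹ * (s⁻¹ * h))) = h
    group
  choose g hg using cov
  have := Nat.card_le_card_of_injective g fun x y e => Subtype.ext (by rw [← hg x, ← hg y, e])
  rw [Nat.card_prod, Nat.card_prod, Nat.card_prod, hV] at this
  calc Nat.card H ≤ _ := this
    _ = p ^ 6 * Nat.card D := by ring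

end H38.SimBd
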