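import Cfsg.Agent.H53.SimXASpec

/-! Job T1 of the chapter XA of the tower SIM (S3694): the case of one block. -/

set_option autoImplicit false

namespace H38.SimT1

open Subgroup Cfsg H98 Matrix H0.Sim H53.XA

theorem job : JT1 := by
  intro hth rp red bi n F _ _ u q p Θ H Q E g x h1
  have fq : Fq F u q := x.par.card
  obtain ⟨cl, one, adm, K, K1, hK⟩ := red n F u q E fq (rp n F u q p Θ H Q E g x).1
  have iv := (bi n F u q p Θ H Q E g x).1
  have ip : ∀ e ∈ Sp E, Ip u q e → e = 0 ∨ e = 1 := fun e he h => h1.2.2.2 e he h (mul_one e)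
  by_cases hu : ∀ m ∈ Sp E, m ≠ 0 → IsUnit m
  · exact Or.inl hu
  right
  push Not at hu
  obtain ⟨m, hm, m0, mu⟩ := hu
  have pw : ∀ k : ℕ, m ^ k ∈ Sp E := fun k => by
    induction k with
    | zero => rw [pow_zero]; exact one
    | succ k ih => rw [pow_succ]; exact (cl _ ih _ hm).1
  obtain ⟨k, rfl⟩ : ∃ k, K = k + 1 := ⟨K - 1, by omega⟩
  have e2 : m ^ (k + 1) * m ^ (k + 1) = m ^ (k + 1) := by
    rw [← pow_add, show k + 1 + (k + 1) = k + 1 + 1 + k by ring, pow_add, hK m hm, ← pow_succ']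
  have e0 : m ^ (k + 1) ≠ 0 := fun e => m0 (by rw [← hK m hm, pow_succ, e, zero_mul])
  have e1 : m ^ (k + 1) ≠ 1 := fun e => mu (IsUnit.of_pow_eq_one e (Nat.succ_ne_zero k))
  have he := pw (k + 1)
  generalize m ^ (k + 1) = e at e2 e0 e1 he
  obtain rfl : u = true := by
    cases u
    · exact ((ip e he ⟨e2, fun h => absurd h (by decide)⟩).elim e0 e1).elim
    · rfl
  have hF : Fintype.card F = q ^ 2 := fq
  have adj : ∀ d ∈ Sp E, d * d = d → d ≠ 0 → d ≠ 1 → ad q d = 1 - d := by
    intro d hd d2 d0 d1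
    have ha := adm rfl d hd
    have a2 : ad q d * ad q d = ad q d := by rw [← ad_mul hF, d2]
    have c : ad q d * d = d * ad q d := (cl _ ha _ hd).2
    have z : d * ad q d = 0 := by
      refine (ip _ (cl _ hd _ ha).1 ⟨?_, fun _ => by rw [ad_mul hF, ad_ad hF]⟩).resolve_right
        fun h => d1 ?_
      · rw [mul_assoc, ← mul_assoc (ad q d), c, mul_assoc, a2, ← mul_assoc, d2]
      · calc d = d * (d * ad q d) := by rw [h, mul_one]
          _ = 1 := by rw [← mul_assoc, d2, h]
    rcases ip _ (add_mem hd ha) ⟨by rw [add_mul, mul_add, mul_add, c, z, d2, a2, add_zero, zero_add],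
      fun _ => by rw [ad_add hF, ad_ad hF, add_comm]⟩ with h | h
    · refine absurd ?_ d0
      have := congrArg (d * ·) h
      simpa only [mul_add, d2, z, add_zero, mul_zero] using this
    · exact eq_sub_of_add_eq' h
  have two : ∀ a ∈ Sp E, a * a = a → a ≠ 0 → a ≠ 1 → ∀ d ∈ Sp E, d * d = d → d ≠ 0 → d ≠ 1 →
      a * d ≠ 0 → d = a := by
    intro a ha a2 a0 a1 d hd d2 d0 d1 h0
    have c : d * a = a * d := (cl _ hd _ ha).2
    have h := adj _ (cl _ ha _ hd).1
      (by rw [mul_assoc, ← mul_assoc d, c, mul_assoc, d2, ← mul_assoc, a2]) h0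
      fun h => a1 (by rw [← mul_one a, ← h, ← mul_assoc, a2])
    rw [ad_mul hF, adj a ha a2 a0 a1, adj d hd d2 d0 d1] at h
    have k1 : a = a * d := by
      have := congrArg (· * a) h
      simp only [mul_assoc, sub_mul, one_mul, a2, sub_self, mul_zero, c] at this
      rw [← mul_assoc, a2] at this
      exact (sub_eq_zero.1 this.symm)
    have k2 : d = a * d := by
      have := congrArg (d * ·) h
      simp only [← mul_assoc, mul_sub, mul_one, d2, sub_self, zero_mul, c] at this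
      rw [mul_assoc, d2] at this
      exact (sub_eq_zero.1 this.symm)
    exact k2.trans k1.symm
  have f2 : (1 - e) * (1 - e) = 1 - e := by rw [sub_mul, one_mul, mul_sub, mul_one, e2, sub_self, sub_zero]
  have f0 : 1 - e ≠ 0 := fun h => e1 (sub_eq_zero.1 h).symm
  have f1 : 1 - e ≠ 1 := fun h => e0 (sub_eq_self.1 h)
  have hf : 1 - e ∈ Sp E := sub_mem one he
  have all : ∀ d ∈ Sp E, d * d = d → d ≠ 0 → d ≠ 1 → d ∈ ({e, 1 - e} : Set (Mt n F)) := by
    intro d hd d2 d0 d1
    by_cases h : e * d = 0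
    · exact Or.inr (two _ hf f2 f0 f1 d hd d2 d0 d1 (by rwa [sub_mul, one_mul, h, sub_zero]))
    · exact Or.inl (two _ he e2 e0 e1 d hd d2 d0 d1 h)
  refine ⟨rfl, e, he, e2, adj e he e2 e0 e1, fun j hj d hd => ?_⟩
  obtain ⟨bij, ad', -, t1, mul, -⟩ := hth n F true q j fq (x.ok j hj)
  have t0 : th j (0 : Mt n F) = 0 := by
    have := ad' 0 0
    rw [add_zero] at this
    exact left_eq_add.1 this
  have key : ∀ d ∈ Sp E, d * d = d → d ≠ 0 → d ≠ 1 → th j d ∈ ({e, 1 - e} : Set (Mt n F)) :=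
    fun d hd d2 d0 d1 => all _ (iv j hj d hd)
      (by have := mul d d; rw [d2, ite_self] at this; exact this.symm)
      (fun h => d0 (bij.1 (h.trans t0.symm))) fun h => d1 (bij.1 (h.trans t1.symm))
  rcases hd with rfl | rfl
  · exact key _ he e2 e0 e1
  · exact key _ hf f2 f0 f1

end H38.SimT1
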