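/- SPIN tower (S4578): straightening, weights and the vanishing bound. -/
import Cfsg.Agent.H2.SpSpec

set_option autoImplicit false

namespace H38.SpStr
open H2.Sp MvPolynomial

/-- the contribution of one pair -/
def e (p : ℕ) (a b : ℤ) : ℤ := (if (p : ℤ) ∣ a + b then 1 else 0) - if (p : ℤ) ∣ a - b then 1 else 0

variable {p : ℕ}

theorem cnt_nil (a : ℤ) : cnt p a [] = 0 := rfl

theorem cnt_cons (a b : ℤ) (l : List ℤ) : cnt p a (b :: l) = cnt p a l + e p a b := by
  simp only [cnt, e, List.countP_cons, decide_eq_true_eq]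
  push_cast
  ring

theorem e_congr {a b c d : ℤ} (h : (p : ℤ) ∣ a + b ↔ (p : ℤ) ∣ c + d) (k : (p : ℤ) ∣ a - b ↔ (p : ℤ) ∣ c - d) :
    e p a b = e p c d := by simp only [e, h, k]

theorem e_comm (a b : ℤ) : e p a b = e p b a := e_congr (by rw [add_comm]) dvd_sub_comm

theorem e_zero (a : ℤ) : e p a 0 = 0 := by simp [e]

theorem e_neg (a b : ℤ) : e p a (-b) = -e p a b := by
  simp only [e, ← sub_eq_add_neg, sub_neg_eq_add, neg_sub]

theorem e_sub (a b : ℤ) : e p a (b - p) = e p a b :=
  e_congr (by rw [← add_sub_assoc]; exact dvd_sub_self_right)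
    (by rw [show a - (b - p) = a - b + p by ring]; exact dvd_add_self_right)

theorem cnt_map {a b : ℤ} {s : ℤ} (h : ∀ x, e p a x = s * e p b x) (l : List ℤ) :
    cnt p a l = s * cnt p b l := by
  induction l with
  | nil => simp [cnt_nil]
  | cons x l ih => rw [cnt_cons, cnt_cons, ih, h, mul_add]

theorem cnt_perm (a : ℤ) {l l' : List ℤ} (h : l.Perm l') : cnt p a l = cnt p a l' := by
  simp only [cnt, h.countP_eq]

theorem N_perm {l l' : List ℤ} (h : l.Perm l') : N p l = N p l' := by
  induction h with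
  | nil => rfl
  | cons x h ih => rw [N_cons, N_cons, ih, cnt_perm x h]
  | swap x y l => simp only [N_cons, cnt_cons, e_comm x y]; ring
  | trans _ _ a b => exact a.trans b

theorem key (hp : Odd p) (k : ℤ) : k / p + -k / p + e p (-k) k = 0 := by
  have h0 : (0 : ℤ) < p := by exact_mod_cast hp.pos
  have h1 : (p : ℤ) ∣ -k - k ↔ (p : ℤ) ∣ k := by
    rw [show -k - k = -(2 * k) by ring, dvd_neg]
    have c : IsCoprime (p : ℤ) 2 := by exact_mod_cast Nat.isCoprime_iff_coprime.2 (Nat.coprime_two_right.2 hp)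
    exact ⟨c.dvd_of_dvd_mul_left, fun h => h.mul_left 2⟩
  rw [Int.neg_ediv, Int.sign_eq_one_of_pos h0, e, neg_add_cancel, if_pos (dvd_zero _)]
  simp only [h1]
  split_ifs <;> ring

theorem str' (c : Com) (β : List ℤ) : Q β = 0 ∨ ∃ (l : List ℤ) (t : ℚ), Good l ∧ t ≠ 0 ∧ Q β = t • Q l ∧
    l.sum = β.sum ∧ ∀ p, Odd p → N p l = N p β ∧ ∀ a, cnt p a l = cnt p a β := by
  induction β with
  | nil => exact .inr ⟨[], 1, ⟨List.nodup_nil, fun _ h => by simp at h⟩, one_ne_zero, (one_smul _ _).symm, rfl,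
      fun _ _ => ⟨rfl, fun _ => rfl⟩⟩
  | cons a β ih =>
    rcases ih with ih | ⟨l, t, g, t0, h, hs, hN⟩
    · exact .inl (by rw [Q_cons, ih, map_zero])
    rw [Q_cons, h, map_smul]
    rcases lt_trichotomy a 0 with a0 | rfl | a0
    · obtain ⟨k, rfl⟩ : ∃ k, a = -k := ⟨-a, (neg_neg a).symm⟩
      have k0 : 0 < k := by omega
      by_cases m : k ∈ l
      swap
      · exact .inl (by rw [c.neg k l k0 g.2 m, smul_zero])
      have pm := List.perm_cons_erase m
      have nd := List.nodup_cons.1 (pm.nodup_iff.1 g.1)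
      have ps : Pos (k :: l.erase k) := fun x hx => g.2 x (pm.mem_iff.2 hx)
      have ps' : Pos (l.erase k) := fun x hx => ps x (List.mem_cons_of_mem _ hx)
      obtain ⟨ε, hε, q⟩ := c.perm _ _ ps pm.symm
      refine .inr ⟨l.erase k, t * (ε * (2 * (-1) ^ k.natAbs)), ⟨nd.2, ps'⟩,
        mul_ne_zero t0 (mul_ne_zero (left_ne_zero_of_mul_eq_one hε) (by simp)), ?_, ?_, fun p hp => ⟨?_, fun a => ?_⟩⟩
      · rw [q, map_smul, Q_cons, c.neg_pos k _ k0 ps' nd.1, smul_smul, smul_smul, mul_assoc]
      · rw [List.sum_cons, ← hs, pm.sum_eq, List.sum_cons]; ring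
      · rw [N_cons, ← (hN p hp).1, ← (hN p hp).2, N_perm pm, cnt_perm _ pm, N_cons, cnt_cons,
          cnt_map (a := -k) (b := k) (s := -1) fun x => by rw [e_comm, e_neg, e_comm, neg_one_mul]]
        linear_combination -key hp k
      · rw [cnt_cons, ← (hN p hp).2, cnt_perm _ pm, cnt_cons, e_neg]; ring
    · refine .inr ⟨l, t * (-1) ^ l.length, g, mul_ne_zero t0 (by simp), by rw [c.zero l g.2, smul_smul],
        by simpa using hs, fun p hp => ⟨?_, fun a => ?_⟩⟩
      · rw [N_cons, (hN p hp).1, cnt_map (a := 0) (b := 0) (s := 0) fun x => by rw [e_comm, e_zero, zero_mul]]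
        simp
      · rw [cnt_cons, e_zero, add_zero, (hN p hp).2]
    · by_cases m : a ∈ l
      · exact .inl (by rw [c.mem a l a0 g.2 m, smul_zero])
      refine .inr ⟨a :: l, t, ⟨List.nodup_cons.2 ⟨m, g.1⟩, fun x hx => ?_⟩, t0, rfl,
        by rw [List.sum_cons, List.sum_cons, hs], fun p hp => ⟨?_, fun x => ?_⟩⟩
      · rcases List.mem_cons.1 hx with rfl | hx
        exacts [a0, g.2 x hx]
      · rw [N_cons, N_cons, (hN p hp).1, (hN p hp).2]
      · rw [cnt_cons, cnt_cons, (hN p hp).2]

theorem jobStr : Kit → Com → Str := fun _ c β => (str' c β).imp_right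
  fun ⟨l, t, g, t0, h, hs, hN⟩ => ⟨l, t, g, t0, h, hs, fun p hp => (hN p hp).1⟩

theorem N_sorted (hp : 0 < p) {l : List ℤ} (h : l.Pairwise (· > ·)) (ps : Pos l) : 0 ≤ N p l := by
  induction l with
  | nil => exact le_rfl
  | cons a l ih =>
    obtain ⟨h1, h2⟩ := List.pairwise_cons.1 h
    have ps' : Pos l := fun x hx => ps x (List.mem_cons_of_mem _ hx)
    have h0 : (0 : ℤ) < p := by exact_mod_cast hp
    have a0 : 0 ≤ a / p := Int.ediv_nonneg (ps a List.mem_cons_self).le h0.le
    have nd : l.Nodup := h2.imp fun h => h.ne'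
    have le : (l.filter fun b => decide ((p : ℤ) ∣ a - b)).toFinset.card ≤ (Finset.Icc 1 (a / p)).card := by
      refine Finset.card_le_card_of_injOn (fun b => (a - b) / p) (fun b hb => ?_) fun b hb b' hb' e => ?_
      · obtain ⟨m, d⟩ := List.mem_filter.1 (List.mem_toFinset.1 hb)
        have := h1 b m
        have := ps' b m
        exact Finset.mem_coe.2 (Finset.mem_Icc.2 ⟨Int.le_ediv_of_mul_le h0 (by
          simpa using Int.le_of_dvd (by omega) (of_decide_eq_true d)), Int.ediv_le_ediv h0 (by omega)⟩)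
      · have d := Int.ediv_mul_cancel (of_decide_eq_true (List.mem_filter.1 (List.mem_toFinset.1 hb)).2)
        have d' := Int.ediv_mul_cancel (of_decide_eq_true (List.mem_filter.1 (List.mem_toFinset.1 hb')).2)
        simp only at e
        rw [e, d'] at d
        omega
    rw [List.toFinset_card_of_nodup (nd.filter _), ← List.countP_eq_length_filter, Int.card_Icc] at le
    have := ih h2 ps'
    rw [N_cons, cnt]
    omega

theorem N_good (hp : 0 < p) {l : List ℤ} (g : Good l) : 0 ≤ N p l := by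
  have pm := List.perm_insertionSort (· ≥ ·) l
  rw [← N_perm pm]
  exact N_sorted hp (((List.pairwise_insertionSort (· ≥ ·) l).and (pm.nodup_iff.2 g.1)).imp
    fun h => lt_of_le_of_ne h.1 h.2.symm) fun x hx => g.2 x (pm.mem_iff.1 hx)

theorem val_sum {L : List (List ℤ)} {ρ : Multiset ℕ} (h : val (L.map Q).sum ρ ≠ 0) :
    ∃ β ∈ L, val (Q β) ρ ≠ 0 := by
  induction L with
  | nil => simp [val] at h
  | cons β L ih =>
    by_cases z : val (Q β) ρ = 0
    · obtain ⟨γ, a, b⟩ := ih fun k => h (by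
        rw [List.map_cons, List.sum_cons, val, coeff_add, mul_add, ← val, ← val, z, k, add_zero])
      exact ⟨γ, List.mem_cons_of_mem _ a, b⟩
    · exact ⟨β, List.mem_cons_self, z⟩

theorem step (K : Kit) {r : ℕ} (hr : Odd r) {β : List ℤ} {ρ : Multiset ℕ} (h : val (Q β) (r ::ₘ ρ) ≠ 0) :
    ∃ γ ∈ low r β, val (Q γ) ρ ≠ 0 := by
  obtain ⟨k, rfl⟩ := hr
  rw [K.val_cons, show (2 * k + 1) / 2 = k by omega, K.d_Q] at h
  simpa using val_sum h

theorem low_sum {r : ℤ} {β γ : List ℤ} (h : γ ∈ low r β) : γ.sum = β.sum - r := by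
  induction β generalizing γ with
  | nil => simp [low_nil] at h
  | cons a β ih =>
    rw [low_cons, List.mem_cons, List.mem_map] at h
    rcases h with rfl | ⟨δ, h, rfl⟩
    · simp only [List.sum_cons]; ring
    · simp only [List.sum_cons, ih h]; ring

theorem low_N (hp : 0 < p) {β γ : List ℤ} (h : γ ∈ low p β) :
    N p γ = N p β - 1 ∧ ∀ a, cnt p a γ = cnt p a β := by
  induction β generalizing γ with
  | nil => simp [low_nil] at h
  | cons a β ih =>
    rw [low_cons, List.mem_cons, List.mem_map] at h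
    rcases h with rfl | ⟨δ, h, rfl⟩
    · refine ⟨?_, fun x => by rw [cnt_cons, cnt_cons, e_sub]⟩
      rw [N_cons, N_cons, cnt_map (a := a - p) (b := a) (s := 1) fun x => by
        rw [e_comm, e_sub, e_comm, one_mul], show a - p = a + -1 * p by ring,
        Int.add_mul_ediv_right _ _ (by exact_mod_cast hp.ne')]
      ring
    · refine ⟨?_, fun x => by rw [cnt_cons, cnt_cons, (ih h).2]⟩
      rw [N_cons, N_cons, (ih h).1, (ih h).2]
      ring

theorem jobWt : Kit → Str → Wt := fun K s β ρ => by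
  induction ρ using Multiset.induction_on generalizing β with
  | empty =>
    intro _ h
    rw [K.val_zero] at h
    rcases s β with z | ⟨l, t, g, -, q, hs, -⟩
    · exact (h (by rw [z, map_zero])).elim
    rcases l with _ | ⟨a, l⟩
    · simpa using hs.symm
    refine (h ?_).elim
    have a0 := g.2 a List.mem_cons_self
    rw [q, constantCoeff_smul, Q_cons, φ_apply, Polynomial.sum, map_sum, Finset.sum_eq_zero, smul_zero]
    intro j _
    rw [map_mul, K.cc_qz, if_neg (by omega), zero_mul]
  | cons r ρ ih =>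
    intro o h
    obtain ⟨γ, m, n⟩ := step K (o r (Multiset.mem_cons_self _ _)) h
    have := ih γ (fun x hx => o x (Multiset.mem_cons_of_mem hx)) n
    rw [low_sum m] at this
    rw [Multiset.sum_cons, Nat.cast_add]
    omega

theorem jobNV : Kit → Str → NV := fun K s p hp β σ w => by
  induction w generalizing β with
  | zero =>
    intro h
    rcases s β with z | ⟨l, t, g, -, -, -, hN⟩
    · exact (h (by simp [z, val])).elim
    · rw [← hN p hp]
      exact N_good hp.pos g
  | succ w ih =>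
    intro h
    rw [Multiset.replicate_succ, Multiset.add_cons] at h
    obtain ⟨γ, m, n⟩ := step K hp h
    have := ih γ n
    rw [(low_N hp.pos m).1] at this
    push_cast
    omega

end H38.SpStr
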