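import Cfsg.Agent.Base

set_option autoImplicit false

namespace H38.SylOrb

open MulAction

universe u

/-- The Sylow-number inequality, as a hypothesis. -/
def NuIneq : Prop :=
  ∀ {G : Type u} [Group G] [Finite G] (p : ℕ) [Fact p.Prime]
    (_ : Subgroup.closure {g : G | ∃ k : ℕ, orderOf g = p ^ k} = ⊤)
    (H : Subgroup G) (_ : H ≠ ⊤) (P : Sylow p G) (_ : (P : Subgroup G) ≤ H),
    (2 * p - 1) * Nat.card (Sylow p ↥H) ≤ (p - 1) * Nat.card (Sylow p G)

/-- points fixed by a subgroup -/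
def Fx {G : Type*} (Ω : Type*) [Group G] [MulAction G Ω] (Q : Subgroup G) : Set Ω :=
  {ω | Q ≤ stabilizer G ω}

lemma ncard_Fx_smul {G Ω : Type*} [Group G] [MulAction G Ω] {p : ℕ} (g : G) (P : Sylow p G) :
    (Fx Ω ((g • P : Sylow p G) : Subgroup G)).ncard = (Fx Ω (P : Subgroup G)).ncard := by
  symm
  refine Set.ncard_congr (fun ω _ => g • ω) ?_ ?_ ?_
  · intro ω hω x hx
    rw [Sylow.coe_subgroup_smul, Subgroup.mem_pointwise_smul_iff_inv_smul_mem] at hx
    have := hω hx
    rw [mem_stabilizer_iff] at this ⊢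
    simp only [MulAut.smul_def, MulAut.conj_inv_apply] at this
    have h2 := congrArg (fun y => g • y) this
    simp only [smul_smul] at h2
    rw [smul_smul, ← h2]
    congr 1
    group
  · intro a b _ _ h
    exact smul_left_cancel g h
  · intro ω hω
    refine ⟨g⁻¹ • ω, ?_, by simp⟩
    intro x hx
    have : g * x * g⁻¹ ∈ ((g • P : Sylow p G) : Subgroup G) := by
      rw [Sylow.coe_subgroup_smul, Subgroup.mem_pointwise_smul_iff_inv_smul_mem]
      simpa [MulAut.smul_def, mul_assoc] using hx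
    have h1 := hω this
    rw [mem_stabilizer_iff] at h1 ⊢
    have h2 := congrArg (fun y => g⁻¹ • y) h1
    simp only [smul_smul] at h2
    rw [smul_smul, ← h2]
    congr 1
    group

lemma fix_bound (hnu : NuIneq.{u}) {N : Type u} {Ω : Type*} [Group N] [Finite N] [MulAction N Ω]
    [Finite Ω] (p : ℕ) [Fact p.Prime]
    (hgen : Subgroup.closure {g : N | ∃ k : ℕ, orderOf g = p ^ k} = ⊤)
    (hne : ∀ ω : Ω, stabilizer N ω ≠ ⊤) (P : Sylow p N) :
    (2 * p - 1) * (Fx Ω (P : Subgroup N)).ncard ≤ (p - 1) * Nat.card Ω := by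
  classical
  haveI : Fintype Ω := Fintype.ofFinite Ω
  haveI : Fintype (Sylow p N) := Fintype.ofFinite _
  set ν := Nat.card (Sylow p N) with hν
  have hνpos : 0 < ν := Nat.card_pos
  have hdc := Finset.sum_card_bipartiteAbove_eq_sum_card_bipartiteBelow
    (s := (Finset.univ : Finset (Sylow p N))) (t := (Finset.univ : Finset Ω))
    (fun (Q : Sylow p N) (ω : Ω) => (Q : Subgroup N) ≤ stabilizer N ω)
  have hL : ∀ Q : Sylow p N, (Finset.bipartiteAbove (fun (Q : Sylow p N) (ω : Ω) =>
      (Q : Subgroup N) ≤ stabilizer N ω) Finset.univ Q).card = (Fx Ω (P : Subgroup N)).ncard := by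
    intro Q
    obtain ⟨g, rfl⟩ := exists_smul_eq N P Q
    rw [← ncard_Fx_smul g P, ← Set.ncard_coe_finset]
    congr 1
    ext ω
    simp [Finset.bipartiteAbove, Fx]
  have hR : ∀ ω : Ω, (2 * p - 1) * (Finset.bipartiteBelow (fun (Q : Sylow p N) (ω : Ω) =>
      (Q : Subgroup N) ≤ stabilizer N ω) Finset.univ ω).card ≤ (p - 1) * ν := by
    intro ω
    set B := Finset.bipartiteBelow (fun (Q : Sylow p N) (ω : Ω) =>
      (Q : Subgroup N) ≤ stabilizer N ω) Finset.univ ω with hB
    have hmem : ∀ Q, Q ∈ B ↔ (Q : Subgroup N) ≤ stabilizer N ω := by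
      intro Q; simp [hB, Finset.bipartiteBelow]
    rcases B.eq_empty_or_nonempty with h | ⟨Q, hQ⟩
    · simp [h]
    · have h1 := hnu p hgen (stabilizer N ω) (hne ω) Q ((hmem Q).1 hQ)
      have h2 : B.card ≤ Nat.card (Sylow p (stabilizer N ω)) := by
        rw [← Nat.card_eq_finsetCard]
        refine Nat.card_le_card_of_injective
          (fun Q : B => Q.1.subtype ((hmem Q.1).1 Q.2)) ?_
        intro a b hab
        exact Subtype.ext (Sylow.subtype_injective hab)
      exact le_trans (Nat.mul_le_mul_left _ h2) h1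
  rw [Finset.sum_congr rfl (fun Q _ => hL Q)] at hdc
  simp only [Finset.sum_const, Finset.card_univ, smul_eq_mul] at hdc
  have h3 : (2 * p - 1) * (ν * (Fx Ω (P : Subgroup N)).ncard) ≤ Nat.card Ω * ((p - 1) * ν) := by
    rw [hν, Nat.card_eq_fintype_card, hdc, Finset.mul_sum, Nat.card_eq_fintype_card]
    refine le_trans (Finset.sum_le_sum (fun ω _ => hR ω)) ?_
    simp [hν]
  have h4 : ν * ((2 * p - 1) * (Fx Ω (P : Subgroup N)).ncard) ≤ ν * ((p - 1) * Nat.card Ω) := by
    calc _ = (2 * p - 1) * (ν * (Fx Ω (P : Subgroup N)).ncard) := by ring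
      _ ≤ _ := h3
      _ = _ := by ring
  exact Nat.le_of_mul_le_mul_left h4 hνpos

lemma orbit_bound {P Ω : Type*} [Group P] [Finite P] [MulAction P Ω] [Finite Ω] {p : ℕ}
    [hp : Fact p.Prime] (hP : IsPGroup p P) :
    p * Nat.card (orbitRel.Quotient P Ω) ≤
      (p - 1) * (fixedPoints P Ω).ncard + Nat.card Ω := by
  classical
  haveI : Fintype (orbitRel.Quotient P Ω) := Fintype.ofFinite _
  have h1 : Nat.card Ω = ∑ o : orbitRel.Quotient P Ω, Nat.card (orbit P o.out) := by
    rw [Nat.card_congr (selfEquivSigmaOrbits P Ω), Nat.card_sigma]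
  set S : Finset (orbitRel.Quotient P Ω) :=
    Finset.univ.filter (fun o => o.out ∈ fixedPoints P Ω) with hS
  have h2 : S.card ≤ (fixedPoints P Ω).ncard := by
    rw [← Set.ncard_coe_finset]
    refine Set.ncard_le_ncard_of_injOn (fun o => o.out) ?_ ?_ (Set.toFinite _)
    · intro o ho
      simpa [hS] using ho
    · intro a _ b _ hab
      exact Quotient.out_injective hab
  have h3 : ∀ o : orbitRel.Quotient P Ω,
      p ≤ (p - 1) * (if o.out ∈ fixedPoints P Ω then 1 else 0) + Nat.card (orbit P o.out) := by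
    intro o
    obtain ⟨k, hk⟩ := hP.card_orbit o.out
    split_ifs with h
    · have : 0 < Nat.card (orbit P o.out) := by rw [hk]; exact pow_pos hp.out.pos _
      have := hp.out.pos
      omega
    · rcases k with _ | k
      · exfalso
        apply h
        haveI : Fintype (orbit P o.out) := Fintype.ofFinite _
        rw [mem_fixedPoints_iff_card_orbit_eq_one, ← Nat.card_eq_fintype_card, hk, pow_zero]
      · rw [hk, mul_zero, zero_add, pow_succ]
        exact Nat.le_mul_of_pos_left _ (pow_pos hp.out.pos _)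
  have h4 := Finset.sum_le_sum (s := Finset.univ) (fun o _ => h3 o)
  rw [Finset.sum_add_distrib, ← h1, ← Finset.mul_sum, Finset.sum_boole, Finset.sum_const,
    Finset.card_univ, smul_eq_mul, ← Nat.card_eq_fintype_card] at h4
  simp only [Nat.cast_id] at h4
  rw [mul_comm]
  exact le_trans h4 (Nat.add_le_add_right (Nat.mul_le_mul_left _ h2) _)

theorem main (hnu : NuIneq.{u}) {G : Type u} {Ω : Type*} [Group G] [Finite G] [MulAction G Ω]
    [FaithfulSMul G Ω] [Finite Ω]
    (htrans : IsPretransitive G Ω) (p : ℕ) [hp : Fact p.Prime] (hpG : p ∣ Nat.card G)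
    (P : Sylow p G) :
    (2 * p - 1) * Nat.card (orbitRel.Quotient ↥(P : Subgroup G) Ω) ≤ p * Nat.card Ω := by
  classical
  set s : Set G := {g : G | ∃ k : ℕ, orderOf g = p ^ k} with hs
  set N : Subgroup G := Subgroup.closure s with hN
  have hconj : ∀ g : G, ∀ n ∈ N, g * n * g⁻¹ ∈ N := by
    intro g n hn
    have : N.map (MulAut.conj g).toMonoidHom ≤ N := by
      rw [hN, MonoidHom.map_closure, Subgroup.closure_le]
      rintro _ ⟨x, ⟨k, hk⟩, rfl⟩
      apply Subgroup.subset_closure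
      exact ⟨k, by rw [← hk]; exact (MulAut.conj g).orderOf_eq x⟩
    exact this ⟨n, hn, rfl⟩
  have hPN : (P : Subgroup G) ≤ N := by
    intro x hx
    obtain ⟨k, hk⟩ := (IsPGroup.iff_orderOf.1 P.isPGroup') ⟨x, hx⟩
    exact Subgroup.subset_closure ⟨k, by rw [← hk]; exact (Subgroup.orderOf_mk x hx).symm⟩
  have hgen : Subgroup.closure {g : N | ∃ k : ℕ, orderOf g = p ^ k} = ⊤ := by
    rw [← Subgroup.closure_preimage_eq_top s]
    congr 1
    ext g
    change (∃ k : ℕ, orderOf g = p ^ k) ↔ ∃ k : ℕ, orderOf (g : G) = p ^ k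
    rw [Subgroup.orderOf_coe]
  have hne : ∀ ω : Ω, stabilizer N ω ≠ ⊤ := by
    intro ω h
    obtain ⟨x, hx⟩ := exists_prime_orderOf_dvd_card' p hpG
    have hxN : x ∈ N := Subgroup.subset_closure ⟨1, by rw [hx, pow_one]⟩
    have : x = 1 := by
      apply FaithfulSMul.eq_of_smul_eq_smul (α := Ω)
      intro a
      obtain ⟨g, rfl⟩ := exists_smul_eq G ω a
      have h1 : (⟨g⁻¹ * x * g⁻¹⁻¹, hconj _ _ hxN⟩ : N) ∈ stabilizer N ω := by rw [h]; trivial
      rw [mem_stabilizer_iff] at h1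
      change (g⁻¹ * x * g⁻¹⁻¹) • ω = ω at h1
      rw [one_smul, smul_smul]
      conv_rhs => rw [← h1, smul_smul]
      congr 1
      group
    rw [this, orderOf_one] at hx
    exact hp.out.one_lt.ne hx
  have h1 := fix_bound hnu (Ω := Ω) p hgen hne (P.subtype hPN)
  have h2 := orbit_bound (P := (P : Subgroup G)) (Ω := Ω) P.isPGroup'
  have h3 : Fx Ω ((P.subtype hPN : Sylow p N) : Subgroup N) = fixedPoints (P : Subgroup G) Ω := by
    ext ω
    simp only [Fx, Set.mem_ofPred_eq, mem_fixedPoints, Sylow.coe_subtype]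
    constructor
    · intro h m
      exact h (x := ⟨m.1, hPN m.2⟩) m.2
    · intro h m hm
      exact h ⟨m.1, hm⟩
  rw [h3] at h1
  obtain ⟨q, rfl⟩ : ∃ q, p = q + 1 := ⟨p - 1, by have := hp.out.pos; omega⟩
  have e1 : 2 * (q + 1) - 1 = 2 * q + 1 := by omega
  rw [e1] at h1 ⊢
  rw [Nat.add_sub_cancel] at h1 h2
  generalize Nat.card (orbitRel.Quotient ↥(P : Subgroup G) Ω) = o at *
  generalize (fixedPoints (P : Subgroup G) Ω).ncard = f at *
  generalize Nat.card Ω = n at *
  have h5 : (q + 1) * ((2 * q + 1) * o) ≤ (q + 1) * ((q + 1) * n) := by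
    calc (q + 1) * ((2 * q + 1) * o) = (2 * q + 1) * ((q + 1) * o) := by ring
      _ ≤ (2 * q + 1) * (q * f + n) := Nat.mul_le_mul_left _ h2
      _ = q * ((2 * q + 1) * f) + (2 * q + 1) * n := by ring
      _ ≤ q * (q * n) + (2 * q + 1) * n := Nat.add_le_add_right (Nat.mul_le_mul_left _ h1) _
      _ = (q + 1) * ((q + 1) * n) := by ring
  exact Nat.le_of_mul_le_mul_left h5 (Nat.succ_pos _)

end H38.SylOrb
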