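/- T3 tower (row S5228): conjugation of the faithful case. -/
import Cfsg.Agent.H11.T3Spec

set_option autoImplicit false
set_option linter.unusedSimpArgs false
set_option linter.unusedVariables false

open Subgroup H90.RF
open H90.U5 (Bq)

namespace H38.T3Cj

variable {P : Type*} [Group P] {E M : Subgroup P} {z : ℕ → Subgroup P} {i p : ℕ}

theorem bq_conj (h : Bq p z i E M) (hz : ∀ j, (z j).Normal) (g : P) : Bq p z i (cjS g E) (cjS g M) := by
  have c : ∀ s m : P, cm (g⁻¹ * s * g) (g⁻¹ * m * g) ∈ z i ↔ cm s m ∈ z i := fun s m => by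
    have := cm_conj g⁻¹ s m
    rw [inv_inv] at this
    rw [this]
    exact (hz i).mem_comm_iff.trans (by simp)
  have c' : ∀ s m : P, cm (g⁻¹ * s * g) m = g⁻¹ * cm s (g * m * g⁻¹) * g := fun s m => by
    simp only [cm]; group
  have c2 : ∀ x y m : P, cm x (cm y m) = g⁻¹ * cm (g * x * g⁻¹) (cm (g * y * g⁻¹) (g * m * g⁻¹)) * g :=
    fun x y m => by rw [cm_conj, cm_conj]; group
  have d : ∀ a b : P, (g⁻¹ * a * g)⁻¹ * (g⁻¹ * b * g) = g⁻¹ * (a⁻¹ * b) * g := fun a b => by group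
  have dz : ∀ a b : P, a⁻¹ * (g * b * g⁻¹) ∈ z i → (g⁻¹ * a * g)⁻¹ * b ∈ z i := fun a b e => by
    simpa [mul_assoc] using (hz i).conj_mem' _ e g
  refine ⟨fun e => h.ne ?_, fun u hu => mem_cjS.2 (h.le ((hz _).conj_mem' u hu g)),
    fun m hm => mem_cjS.2 (h.ME (mem_cjS.1 hm)), fun s => ?_, fun m hm => ?_, fun m hm => ?_,
    fun X hU hX hinv s hs k1 k2 => ?_, fun B hB sq s hs hs' a b f k hf inj cov => ?_⟩
  · rw [← cjS_cjS g E, e]; exact comap_top _
  · rw [mem_cjS, h.cen]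
    exact ⟨fun k m hm => (c s m).1 (k _ (mem_cjS.1 hm)), fun k m hm => by
      simpa [mul_assoc] using (c s _).2 (k _ (conj_mem_cjS.2 hm))⟩
  · have := (hz i).conj_mem _ (h.pw _ (mem_cjS.1 hm)) g
    rwa [← conj_pow, show g * (g⁻¹ * m * g) * g⁻¹ = m by group] at this
  · have : M ≤ cjS g⁻¹ (closure {m | m ∈ cjS g M ∧ ∃ β, Ok z i (cjS g E) β ∧ ∃ u ∈ z (i + 1), m = β u}) :=
      h.gen_le fun β hβ u hu hm => mem_cjS.2 (subset_closure ⟨by simpa [mem_cjS, mul_assoc] using hm, _,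
        hβ.cj hz g, g * u * g⁻¹, (hz _).conj_mem u hu g, by simp [mul_assoc]⟩)
    simpa [mem_cjS, mul_assoc] using this (mem_cjS.1 hm)
  · refine mem_cjS.2 (h.red (cjS g⁻¹ X) (fun u hu => mem_cjS.2 (hU (by simpa using (hz i).conj_mem u hu g)))
      (fun x hx => by simpa [mem_cjS, mul_assoc] using hX (mem_cjS.1 hx)) (fun β hβ x hx => ?_) _
      (mem_nor_cjS.1 hs) (fun m hm => ?_) fun m hm hx => ?_)
    · simpa [mem_cjS, mul_assoc] using hinv _ (hβ.cj hz g) _ (mem_cjS.1 hx)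
    · rw [c']; simpa [mem_cjS, mul_assoc] using k1 _ (conj_mem_cjS.2 hm)
    · rw [c']; exact (hz i).conj_mem' _ (k2 _ (conj_mem_cjS.2 hm) (by simpa using mem_cjS.1 hx)) g
  · refine h.b2 (cjS g⁻¹ B) (fun x hx => ?_) (fun x hx y hy m hm => ?_) _
      (by simpa [mem_cjS, mul_assoc] using hs)
      (fun e => hs' (mem_cjS.2 e)) a b (fun x => g⁻¹ * f x * g) (fun x => g⁻¹ * k x * g)
      (fun x => by simpa [mem_cjS, mul_assoc] using hf x) (fun x y e => inj x y (mem_cjS.2 (d _ _ ▸ e)))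
      fun m hm => (cov _ (conj_mem_cjS.2 hm)).imp fun j e => dz _ _ (by rw [c']; simpa [mul_assoc] using e)
    · simpa [mul_assoc] using mem_nor_cjS.1 (hB (mem_cjS.1 hx))
    · rw [c2]
      exact (hz i).conj_mem' _ (sq _ (by simpa using mem_cjS.1 hx) _ (by simpa using mem_cjS.1 hy) _
        (conj_mem_cjS.2 hm)) g

theorem cjS_eq' (t : P) (X : Subgroup P) : H11.T3.cjS t X = cjS t⁻¹ X := by
  ext c; rw [H11.T3.mem_cjS, mem_cjS, inv_inv]

theorem zA_normal (j : ℕ) : (H11.T3.zA j).Normal := by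
  rcases j with _ | _ | _ | _ | _ | j
  exacts [normal_bot, H11.T3.nZ1, H11.T3.nZ2, H11.T3.nZ3, H11.T3.nZ4, H11.T3.nD2]

theorem jobCj : H11.T3.JobCj := fun k E M t h => by
  rw [cjS_eq', cjS_eq']
  exact bq_conj h zA_normal t⁻¹

end H38.T3Cj
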