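/- T3 tower (row S5228): the faithful case at level two. -/
import Cfsg.Agent.H11.T3Spec

set_option autoImplicit false
set_option linter.unusedSimpArgs false
set_option linter.unusedVariables false

open Subgroup H90.RF H11.T3 H11.T3.Co
open H90.U5 (Bq)

namespace H38.T3L2

variable {E M : Subgroup Co}

theorem cen (h : Bq 3 zA 2 E M) (s : Co) : s ∈ E ↔ ∀ m ∈ M, cm s m ∈ sZ2 := h.cen s

theorem Z3_le (h : Bq 3 zA 2 E M) : sZ3 ≤ E := le_trans h.le h.ME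

theorem ok_bot {β : Co → Co} (k : Ok zA 2 E β) : Pr β ⊥ := k.2 0 (by norm_num)

theorem ok_Z2 {β : Co → Co} (k : Ok zA 2 E β) : Pr β sZ2 := k.2 2 le_rfl

/-- the centralizer of `Z₂` is preserved -/
theorem ok_E2 (h : Bq 3 zA 2 E M) {β : Co → Co} (k : Ok zA 2 E β) {c : Co} (hc : c ∈ E) (h2 : c ∈ sE2) :
    β c ∈ sE2 := by
  have h1 := k.1.cm_mem (Z2_le_Z3.trans (Z3_le h)) (ok_Z2 k) (ok_bot k) hc
    (fun y hy => by rw [cm_EZ h2 hy]; exact one_mem _) (xi 1) (by simp [mem_sZ2, xi])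
  have h3 := congrArg Co.j (mem_bot.1 h1)
  simpa [cm_j, xi, mem_sE2] using h3

theorem M_le (h : Bq 3 zA 2 E M) : M ≤ sE2 :=
  h.gen_le fun β k u hu _ => ok_E2 h k (Z3_le h hu) hu.1

theorem D2_le (h : Bq 3 zA 2 E M) : sD2 ≤ E := fun s ⟨p0, p1, p2, p3, p4⟩ => (cen h s).2 fun m hm => by
  have q : m.b = 0 := M_le h hm
  simp [mem_sZ2, cm_b, cm_a, cm_d, cm_c, cm_e, cm_f, cm_g, cm_h, p0, p1, p2, p3, p4, q]

theorem caseD (h : Bq 3 zA 2 E M) (hM : M ≤ sD2) : E = sE2 := by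
  refine le_antisymm (fun s hs => ?_) fun s hs => (cen h s).2 fun m hm => ?_
  · by_contra hb
    refine h.not_le (X := sZ3) (fun c hc s => cm_Z3 s hc) fun x hx => ?_
    obtain ⟨p0, p1, p2, p3, p4⟩ := hM hx
    obtain ⟨-, -, -, -, -, -, r1, r2⟩ := (cen h s).1 hs x hx
    have hb' : s.b ≠ 0 := hb
    simp only [cm_g, p0, p1, p2, p3, p4] at r1
    simp only [cm_h, p0, p1, p2, p3, p4] at r2
    have f0 : x.f = 0 := by simpa [hb'] using r1
    have g0 : x.g = 0 := by simpa [hb', f0] using r2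
    exact ⟨p0, p1, p2, p3, p4, f0, g0⟩
  · rw [cm_ED hs (hM hm)]
    simp [mem_sZ2]

theorem caseW (h : Bq 3 zA 2 E M) {m : Co} (hm : m ∈ M) (hW : m ∈ sW) (hD : m ∉ sD2) : E = sN := by
  obtain ⟨p0, p1, p2, p3, p4⟩ := hW
  have key : E ≤ sN := fun s hs => by
    obtain ⟨-, -, r0, -, r1, r2, r3, r4⟩ := (cen h s).1 hs m hm
    have hne : ¬ (m.a = 0 ∧ m.d = 0) := fun ⟨q1, q2⟩ => hD ⟨p0, q1, q2, p1, p2⟩
    simp only [cm_d, p0] at r0
    simp only [cm_e, p0] at r1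
    have b0 : s.b = 0 := by
      by_contra hb
      have a0 : m.a = 0 := by simpa [hb] using r0
      have d0 : m.d = 0 := by simpa [hb, a0] using r1
      exact hne ⟨a0, d0⟩
    simp only [cm_f, p0, p1, p2, b0] at r2
    simp only [cm_g, p0, p1, p2, b0] at r3
    simp only [cm_h, p0, p1, p2, b0] at r4
    by_cases a0 : m.a = 0
    · have d0 : m.d ≠ 0 := fun d0 => hne ⟨a0, d0⟩
      have c0 : s.c = 0 := by simpa [a0, d0] using r3
      have e0 : s.e = 0 := by simpa [a0, d0] using r4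
      exact ⟨b0, c0, e0⟩
    · have c0 : s.c = 0 := by simpa [a0] using r2
      have e0 : s.e = 0 := by simpa [a0, c0] using r3
      exact ⟨b0, c0, e0⟩
  refine le_antisymm key fun s ⟨q0, q1, q2⟩ => (cen h s).2 fun x hx => ?_
  obtain ⟨t0, t1, t2⟩ := key (h.ME hx)
  simp [mem_sZ2, cm_b, cm_a, cm_d, cm_c, cm_e, cm_f, cm_g, cm_h, q0, q1, q2, t0, t1, t2]

theorem cm_xe (c : Co) : cm (xe 1) c ∈ sZ4 := by
  simp [mem_sZ4, cm_b, cm_a, cm_d, cm_c, cm_e, cm_f, xe]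

theorem caseC (h : Bq 3 zA 2 E M) {m : Co} (hm : m ∈ M) (hC : m ∈ sC4) (hD : m ∉ sD2) : False := by
  obtain ⟨p0, p1, p2, p3⟩ := hC
  have c0 : m.c ≠ 0 := fun c0 => hD ⟨p0, p1, p2, c0, p3⟩
  have key : ∀ s ∈ E, s ∈ sE2 → s ∈ sC4 := fun s hs (b0 : s.b = 0) => by
    obtain ⟨-, -, -, -, -, r2, r3, r4⟩ := (cen h s).1 hs m hm
    simp only [cm_f, p0, p1, p2, p3, b0] at r2
    simp only [cm_g, p0, p1, p2, p3, b0] at r3
    simp only [cm_h, p0, p1, p2, p3, b0] at r4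
    have a0 : s.a = 0 := by simpa [c0] using r2
    have d0 : s.d = 0 := by simpa [c0] using r3
    have e0 : s.e = 0 := by simpa [c0, a0] using r4
    exact ⟨b0, a0, d0, e0⟩
  have hC4 : sC4 ≤ E := fun s ⟨q0, q1, q2, q3⟩ => (cen h s).2 fun x hx => by
    obtain ⟨t0, t1, t2, t3⟩ := key x (h.ME hx) (M_le h hx)
    simp [mem_sZ2, cm_b, cm_a, cm_d, cm_c, cm_e, cm_f, cm_g, cm_h, q0, q1, q2, q3, t0, t1, t2, t3]
  have hZ4 : sZ4 ≤ E := Z4_le_D2.trans (D2_le h)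
  have inv : ∀ β, Ok zA 2 E β → Pr β sZ4 := fun β k x hx => by
    have pC : Pr β sC4 := fun c hc => key _ (k.1.mem c (hC4 hc)) (ok_E2 h k (hC4 hc) hc.1)
    obtain ⟨q0, q1, q2, q3⟩ := pC x (D2_le_C4 (Z4_le_D2 hx))
    have h1 := k.1.cm_mem hC4 pC (ok_bot k) (hZ4 hx) fun y ⟨t0, t1, t2, t3⟩ => by
      obtain ⟨u0, u1, u2, u3, u4, u5⟩ := hx
      rw [mem_bot]
      ext <;> simp [cm_b, cm_a, cm_d, cm_c, cm_e, cm_f, cm_g, cm_h, cm_i, cm_j, t0, t1, t2, t3,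
        u0, u1, u2, u3, u4, u5]
    have h2 := congrArg Co.j (mem_bot.1 (h1 (xf 1) (by simp [mem_sC4, xf])))
    have h3 := congrArg Co.j (mem_bot.1 (h1 (xc 1) (by simp [mem_sC4, xc])))
    have h4 : (β x).c = 0 := by simpa [cm_j, xf, q0, q1, q2, q3] using h2
    have h5 : (β x).f = 0 := by simpa [cm_j, xc, q0, q1, q2, q3, h4] using h3
    exact ⟨q0, q1, q2, h4, q3, h5⟩
  have he : xe 1 ∈ E := h.red sZ4 (Z2_le_Z3.trans Z3_le_Z4) hZ4 inv (xe 1)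
    (mem_nor fun c _ => hZ4 (cm_xe c)) (fun x _ => cm_xe x) fun x _ ⟨u0, u1, u2, u3, u4, u5⟩ => by
      show cm (xe 1) x ∈ sZ2
      simp [mem_sZ2, cm_b, cm_a, cm_d, cm_c, cm_e, cm_f, cm_g, cm_h, xe, u0, u1, u2, u3, u4, u5]
  have := (key _ he (by simp [mem_sE2, xe])).2.2.2
  exact absurd this (by simp [xe])

/-- an element of `sB` outside `sK` -/
def sb : Co := ⟨0, 0, 1, -1, 0, 0, 0, 0, 0, 0⟩

/-- an element of `sK` outside `sD2` -/
def sk : Co := ⟨0, 1, 0, 0, -1, 0, 0, 0, 0, 0⟩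

theorem caseK (h : Bq 3 zA 2 E M) {m : Co} (hm : m ∈ M) (hK : m ∈ sK) (hD : m ∉ sD2) : False := by
  obtain ⟨p0, p1, p2, p3⟩ := hK
  have a0 : m.a ≠ 0 := fun a0 => hD ⟨p0, a0, p1, p2, by rw [p3, a0, neg_zero]⟩
  have key : E ≤ sK := fun s hs => by
    obtain ⟨-, -, r1, -, -, r2, r3, r4⟩ := (cen h s).1 hs m hm
    simp only [cm_d, p0] at r1
    have b0 : s.b = 0 := by simpa [a0] using r1
    simp only [cm_f, p0, p1, p2, p3, b0] at r2
    simp only [cm_g, p0, p1, p2, p3, b0] at r3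
    simp only [cm_h, p0, p1, p2, p3, b0] at r4
    have c0 : s.c = 0 := by simpa [a0] using r2
    have d0 : s.d = 0 := by simpa [a0, c0] using r4
    have e0 : (s.e + s.a) * m.a = 0 := by linear_combination r3
    exact ⟨b0, d0, c0, eq_neg_of_add_eq_zero_left ((mul_eq_zero.1 e0).resolve_right a0)⟩
  have hK : sK ≤ E := fun s ⟨q0, q1, q2, q3⟩ => (cen h s).2 fun x hx => by
    obtain ⟨t0, t1, t2, t3⟩ := key (h.ME hx)
    simp [mem_sZ2, cm_b, cm_a, cm_d, cm_c, cm_e, cm_f, cm_g, cm_h, q0, q1, q2, q3, t0, t1, t2, t3]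
  have hYD : sY ≤ sD2 := fun _ ⟨u0, u1, u2, u3, u4, _⟩ => ⟨u0, u1, u2, u3, u4⟩
  have hY : sY ≤ E := hYD.trans (D2_le h)
  have inv : ∀ β, Ok zA 2 E β → Pr β sY := fun β k x hx => by
    have pE : Pr β E := k.1.mem
    obtain ⟨q0, q1, q2, q3⟩ := key (pE x (hY hx))
    have h1 := k.1.cm_mem' le_rfl pE (ok_bot k) (hY hx) fun y hy => by
      obtain ⟨t0, t1, t2, t3⟩ := key hy
      rw [mem_bot, cm_ED t0 (hYD hx)]
      obtain ⟨u0, u1, u2, u3, u4, u5⟩ := hx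
      ext <;> simp [t1, t2, t3, u5]
    have h2 := congrArg Co.i (mem_bot.1 (h1 (xh 1) (hK (by simp [mem_sK, xh]))))
    have h4 : (β x).a = 0 := by simpa [cm_i, xh, q0] using h2
    have h5 : (β x).e = 0 := by rw [q3, h4, neg_zero]
    have h3 := mem_bot.1 (h1 sk (hK (by simp [mem_sK, sk])))
    rw [cm_ED (by simp [mem_sE2, sk]) ⟨q0, h4, q1, q2, h5⟩] at h3
    have h6 := congrArg Co.i h3
    simp only [sk, one_i] at h6
    exact ⟨q0, h4, q1, q2, h5, by linear_combination -h6⟩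
  have hb : sb ∈ sE2 := by simp [mem_sE2, sb]
  have he : sb ∈ E := h.red sY (fun _ ⟨u0, u1, u2, u3, u4, u5, _, u7⟩ => ⟨u0, u1, u2, u3, u4, by
      rw [u5, u7, neg_zero]⟩) hY inv sb
    (mem_nor fun c hc => D2_le h (cm_EE hb (key hc).1))
    (fun x hx => by
      obtain ⟨t0, t1, t2, t3⟩ := key (h.ME hx)
      simp [mem_sY, cm_b, cm_a, cm_d, cm_c, cm_e, cm_f, cm_h, sb, t0, t1, t2, t3])
    fun x _ hx => by
      show cm sb x ∈ sZ2
      rw [cm_ED hb (hYD hx)]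
      simp [mem_sZ2]
  exact absurd (key he).2.1 (by simp [sb])

theorem jobL2 : H11.T3.JobL2 := fun cj o3 E M h => by
  by_cases hM : M ≤ sD2
  · exact Or.inl (caseD h hM)
  right
  obtain ⟨β, k, u, hu, hm, hD⟩ : ∃ β, Ok zA 2 E β ∧ ∃ u ∈ sZ3, β u ∈ M ∧ β u ∉ sD2 := by
    by_contra hn
    refine hM (h.gen_le fun β k u hu hm => ?_)
    by_contra hD
    exact hn ⟨β, k, u, hu, hm, hD⟩
  have h3 : β u ^ 3 = 1 := by
    rw [← k.1.pow (Z3_le h hu), cb_C4 (D2_le_C4 (Z4_le_D2 (Z3_le_Z4 hu))), k.1.one]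
  obtain ⟨t, ht⟩ := o3 (β u) (M_le h hm) h3
  have h' := cj 2 E M t h
  have e : t * (t⁻¹ * β u * t) * t⁻¹ = β u := by group
  have hm' : t⁻¹ * β u * t ∈ H11.T3.cjS t M := by rw [H11.T3.mem_cjS, e]; exact hm
  have hD' : t⁻¹ * β u * t ∉ sD2 := fun hd => hD (e ▸ nD2.conj_mem _ hd t)
  rcases ht with ht | ht | ht
  · exact ⟨t, caseW h' hm' ht hD'⟩
  · exact (caseC h' hm' ht hD').elim
  · exact (caseK h' hm' ht hD').elim

end H38.T3L2
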